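import Mathlib
import Cfsg.Agent.Lib.Classical.Lin.G2Grp

/-!
# Elements commuting with a regular element of `SL₃` in `G₂`
-/

set_option autoImplicit false
set_option linter.unusedSectionVars false
set_option linter.unusedSimpArgs false
set_option linter.unusedVariables false
set_option linter.unnecessarySeqFocus false

namespace Cfsg.Agent.Lib.Classical.Lin.G2Sep

open Cfsg.Lie Matrix Polynomial Cfsg.Agent.Lib.Chevalley.Reflect Cfsg.Agent.Lib.ChevIso.Act
open Cfsg.Agent.Lib.ChevIso.Bracket Cfsg.Agent.Lib.Classical.Lin.G2Tbl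
open Cfsg.Agent.Lib.Classical.Lin.G2Coord Cfsg.Agent.Lib.Classical.Lin.G2Cov
open Cfsg.Agent.Lib.Classical.Lin.G2Grp

variable {F : Type*} [Field F]

abbrev M3 (F : Type*) := Matrix (Fin 3) (Fin 3) F
abbrev M14 (F : Type*) := Matrix chevG2.Idx chevG2.Idx F

theorem vof_add (w w' : LL F) : vof (w + w') = vof w + vof w' := by
  ext i; fin_cases i <;> rfl
theorem uof_add (w w' : LL F) : uof (w + w') = uof w + uof w' := by
  ext i; fin_cases i <;> rfl
theorem Xof_add (w w' : LL F) : Xof (w + w') = Xof w + Xof w' := by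
  ext i j; fin_cases i <;> fin_cases j <;> simp [Xof] <;> ring
theorem vof_smul (c : F) (w : LL F) : vof (c • w) = c • vof w := by
  ext i; fin_cases i <;> rfl
theorem uof_smul (c : F) (w : LL F) : uof (c • w) = c • uof w := by
  ext i; fin_cases i <;> rfl
theorem Xof_smul (c : F) (w : LL F) : Xof (c • w) = c • Xof w := by
  ext i j; fin_cases i <;> fin_cases j <;> simp [Xof] <;> ring

/-- Conjugation-like map. -/
noncomputable def adE (A B : M3 F) : Module.End F (M3 F) :=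
  (LinearMap.mulLeft F A) ∘ₗ (LinearMap.mulRight F B)

theorem adE_apply (A B X : M3 F) : adE A B X = A * X * B := by
  simp [adE, Matrix.mul_assoc]

theorem adE_pow (A B : M3 F) (n : ℕ) (X : M3 F) : (adE A B ^ n) X = A ^ n * X * B ^ n := by
  induction n generalizing X with
  | zero => simp
  | succ n ih =>
    rw [pow_succ, Module.End.mul_apply, ih, adE_apply, pow_succ, pow_succ']
    simp only [Matrix.mul_assoc]

theorem poly_cov {x : M14 F} {A B : M3 F} (h : Cov x A B) (f : F[X]) (w : LL F) :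
    Xof (aeval x f *ᵥ w) = aeval (adE A B) f (Xof w) ∧ vof (aeval x f *ᵥ w) = aeval A f *ᵥ vof w ∧
      uof (aeval x f *ᵥ w) = aeval Bᵀ f *ᵥ uof w := by
  induction f using Polynomial.induction_on' with
  | add p q hp hq =>
    obtain ⟨h1, h2, h3⟩ := hp
    obtain ⟨h1', h2', h3'⟩ := hq
    simp only [map_add, Matrix.add_mulVec, Xof_add, vof_add, uof_add, LinearMap.add_apply]
    exact ⟨by rw [h1, h1'], by rw [h2, h2'], by rw [h3, h3']⟩
  | monomial n a =>
    have hn := h.pow n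
    simp only [aeval_monomial, Algebra.algebraMap_eq_smul_one, smul_mul_assoc, one_mul,
      Matrix.smul_mulVec, Xof_smul, vof_smul, uof_smul, LinearMap.smul_apply, Module.End.smul_def]
    refine ⟨?_, ?_, ?_⟩
    · rw [hn.X_eq, adE_pow]
    · rw [hn.v_eq]
    · rw [hn.u_eq, Matrix.transpose_pow]

theorem comm_aeval {g x : M14 F} (h : g * x = x * g) (f : F[X]) : g * aeval x f = aeval x f * g := by
  have hc : Commute g x := h
  have : Commute g (aeval x f) := by
    induction f using Polynomial.induction_on' with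
    | add p q hp hq => rw [map_add]; exact hp.add_right hq
    | monomial n a =>
      rw [aeval_monomial, Algebra.algebraMap_eq_smul_one, smul_mul_assoc, one_mul]
      exact (hc.pow_right n).smul_right a
  exact this

theorem trace_adE {A B : M3 F} (h : B * A = 1) (f : F[X]) (X : M3 F) :
    (aeval (adE A B) f X).trace = eval 1 f * X.trace := by
  induction f using Polynomial.induction_on' with
  | add p q hp hq =>
    simp only [map_add, LinearMap.add_apply, Matrix.trace_add, hp, hq, eval_add, add_mul]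
  | monomial n a =>
    simp only [aeval_monomial, Algebra.algebraMap_eq_smul_one, smul_mul_assoc, one_mul,
      LinearMap.smul_apply, Module.End.smul_def, adE_pow, Matrix.trace_smul, eval_monomial, one_pow,
      mul_one, smul_eq_mul]
    have hp : B ^ n * A ^ n = 1 := by
      induction n with
      | zero => simp
      | succ n ih =>
        rw [pow_succ B, pow_succ' A, Matrix.mul_assoc, ← Matrix.mul_assoc B, h, Matrix.one_mul, ih]
    rw [Matrix.trace_mul_comm, ← Matrix.mul_assoc, hp, Matrix.one_mul]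

/-- The separation hypotheses for the element `s` with inverse `s'`. -/
structure Sep (s s' : M3 F) (p p' : F[X]) : Prop where
  mul : s * s' = 1
  mul' : s' * s = 1
  h1 : aeval s p = 0
  h2 : Function.Injective (fun u : Fin 3 → F => aeval s'ᵀ p *ᵥ u)
  h3 : Function.Injective (aeval (adE s s') p)
  h4 : aeval s'ᵀ p' = 0
  h5 : Function.Injective (fun v : Fin 3 → F => aeval s p' *ᵥ v)
  h6 : Function.Injective (aeval (adE s s') p')

section Step

variable {s s' : M3 F} {p p' : F[X]} {x g : M14 F}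

theorem surj_aeval {f : F[X]} (h : Function.Injective (aeval (adE s s') f)) :
    Function.Surjective (aeval (adE s s') f) :=
  LinearMap.injective_iff_surjective.mp h

theorem aeval_adE_one (hs : s * s' = 1) (f : F[X]) : aeval (adE s s') f (1 : M3 F) = eval 1 f • (1 : M3 F) := by
  induction f using Polynomial.induction_on' with
  | add p q hp hq =>
    simp only [map_add, LinearMap.add_apply, hp, hq, eval_add, add_smul]
  | monomial n a =>
    have hp : s ^ n * s' ^ n = 1 := by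
      induction n with
      | zero => simp
      | succ n ih =>
        rw [pow_succ s, pow_succ' s', Matrix.mul_assoc, ← Matrix.mul_assoc s, hs, Matrix.one_mul, ih]
    simp only [aeval_monomial, Algebra.algebraMap_eq_smul_one, smul_mul_assoc, one_mul,
      LinearMap.smul_apply, Module.End.smul_def, adE_pow, eval_monomial, one_pow, mul_one, hp]

theorem eval_one_ne {f : F[X]} (hs : s * s' = 1) (h : Function.Injective (aeval (adE s s') f)) :
    eval 1 f ≠ 0 := by
  intro h0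
  have h2 : aeval (adE s s') f (1 : M3 F) = aeval (adE s s') f 0 := by
    rw [aeval_adE_one hs, h0, zero_smul, map_zero]
  exact one_ne_zero (h h2)

theorem coords_zero : Xof (0 : LL F) = 0 ∧ vof (0 : LL F) = 0 ∧ uof (0 : LL F) = 0 := by
  refine ⟨?_, ?_, ?_⟩
  · ext i j; fin_cases i <;> fin_cases j <;> simp [Xof]
  · ext i; fin_cases i <;> rfl
  · ext i; fin_cases i <;> rfl

theorem eq_zero_of_coords {w : LL F} (h1 : Xof w = 0) (h2 : vof w = 0) (h3 : uof w = 0) : w = 0 :=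
  ext_coord (by rw [h1, coords_zero.1]) (by rw [h2, coords_zero.2.1]) (by rw [h3, coords_zero.2.2])

variable (hS : Sep s s' p p') (hx : Cov x s s') (hc : g * x = x * g)
include hS hx hc

theorem stepV {w : LL F} (h1 : Xof w = 0) (h2 : uof w = 0) : Xof (g *ᵥ w) = 0 ∧ uof (g *ᵥ w) = 0 := by
  obtain ⟨a1, a2, a3⟩ := poly_cov hx p w
  have hy : aeval x p *ᵥ w = 0 := by
    apply eq_zero_of_coords
    · rw [a1, h1, map_zero]
    · rw [a2, hS.h1, Matrix.zero_mulVec]
    · rw [a3, h2, Matrix.mulVec_zero]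
  have hz : aeval x p *ᵥ (g *ᵥ w) = 0 := by
    rw [Matrix.mulVec_mulVec, ← comm_aeval hc, ← Matrix.mulVec_mulVec, hy, Matrix.mulVec_zero]
  obtain ⟨b1, -, b3⟩ := poly_cov hx p (g *ᵥ w)
  rw [hz, coords_zero.1] at b1
  rw [hz, coords_zero.2.2] at b3
  constructor
  · apply hS.h3
    rw [← b1, map_zero]
  · apply hS.h2
    show aeval s'ᵀ p *ᵥ uof (g *ᵥ w) = aeval s'ᵀ p *ᵥ 0
    rw [← b3, Matrix.mulVec_zero]

theorem stepU {w : LL F} (h1 : Xof w = 0) (h2 : vof w = 0) : Xof (g *ᵥ w) = 0 ∧ vof (g *ᵥ w) = 0 := by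
  obtain ⟨a1, a2, a3⟩ := poly_cov hx p' w
  have hy : aeval x p' *ᵥ w = 0 := by
    apply eq_zero_of_coords
    · rw [a1, h1, map_zero]
    · rw [a2, h2, Matrix.mulVec_zero]
    · rw [a3, hS.h4, Matrix.zero_mulVec]
  have hz : aeval x p' *ᵥ (g *ᵥ w) = 0 := by
    rw [Matrix.mulVec_mulVec, ← comm_aeval hc, ← Matrix.mulVec_mulVec, hy, Matrix.mulVec_zero]
  obtain ⟨b1, b2, -⟩ := poly_cov hx p' (g *ᵥ w)
  rw [hz, coords_zero.1] at b1
  rw [hz, coords_zero.2.1] at b2
  constructor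
  · apply hS.h6
    rw [← b1, map_zero]
  · apply hS.h5
    show aeval s p' *ᵥ vof (g *ᵥ w) = aeval s p' *ᵥ 0
    rw [← b2, Matrix.mulVec_zero]

theorem stepX {w : LL F} (h1 : vof w = 0) (h2 : uof w = 0) : vof (g *ᵥ w) = 0 ∧ uof (g *ᵥ w) = 0 := by
  have htr := trace_Xof w
  constructor
  · obtain ⟨X, hX⟩ := surj_aeval hS.h3 (Xof w)
    have htr2 : X.trace = 0 := by
      have := trace_adE hS.mul' p X
      rw [hX, htr] at this
      exact (mul_eq_zero.mp this.symm).resolve_left (eval_one_ne hS.mul hS.h3)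
    set w₂ := nu X 0 0 with hw₂
    obtain ⟨a1, a2, a3⟩ := poly_cov hx p w₂
    have e : aeval x p *ᵥ w₂ = w := by
      apply ext_coord
      · rw [a1, hw₂, Xof_nu htr2, hX]
      · rw [a2, hw₂, vof_nu, Matrix.mulVec_zero, h1]
      · rw [a3, hw₂, uof_nu, Matrix.mulVec_zero, h2]
    rw [← e, Matrix.mulVec_mulVec, comm_aeval hc, ← Matrix.mulVec_mulVec, (poly_cov hx p _).2.1, hS.h1,
      Matrix.zero_mulVec]
  · obtain ⟨X, hX⟩ := surj_aeval hS.h6 (Xof w)
    have htr2 : X.trace = 0 := by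
      have := trace_adE hS.mul' p' X
      rw [hX, htr] at this
      exact (mul_eq_zero.mp this.symm).resolve_left (eval_one_ne hS.mul hS.h6)
    set w₂ := nu X 0 0 with hw₂
    obtain ⟨a1, a2, a3⟩ := poly_cov hx p' w₂
    have e : aeval x p' *ᵥ w₂ = w := by
      apply ext_coord
      · rw [a1, hw₂, Xof_nu htr2, hX]
      · rw [a2, hw₂, vof_nu, Matrix.mulVec_zero, h1]
      · rw [a3, hw₂, uof_nu, Matrix.mulVec_zero, h2]
    rw [← e, Matrix.mulVec_mulVec, comm_aeval hc, ← Matrix.mulVec_mulVec, (poly_cov hx p' _).2.2, hS.h4,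
      Matrix.zero_mulVec]

omit hS hx hc in
theorem dummy_end : True := trivial

end Step

/-- The vector of `V`. -/
noncomputable def nuV (v : Fin 3 → F) : LL F := nu 0 v 0
/-- The vector of `V*`. -/
noncomputable def nuU (u : Fin 3 → F) : LL F := nu 0 0 u
/-- The vector of `sl₃`. -/
noncomputable def nuX (X : M3 F) : LL F := nu X 0 0

theorem tr0 : (0 : M3 F).trace = 0 := by simp

theorem coordV (v : Fin 3 → F) : Xof (nuV v) = 0 ∧ vof (nuV v) = v ∧ uof (nuV v) = 0 :=
  ⟨Xof_nu tr0 _ _, vof_nu _ _ _, uof_nu _ _ _⟩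
theorem coordU (u : Fin 3 → F) : Xof (nuU u) = 0 ∧ vof (nuU u) = 0 ∧ uof (nuU u) = u :=
  ⟨Xof_nu tr0 _ _, vof_nu _ _ _, uof_nu _ _ _⟩
theorem coordX {X : M3 F} (hX : X.trace = 0) : Xof (nuX X) = X ∧ vof (nuX X) = 0 ∧ uof (nuX X) = 0 :=
  ⟨Xof_nu hX _ _, vof_nu _ _ _, uof_nu _ _ _⟩

theorem decomp (w : LL F) : w = nuX (Xof w) + nuV (vof w) + nuU (uof w) := by
  obtain ⟨a1, a2, a3⟩ := coordX (trace_Xof w)
  obtain ⟨b1, b2, b3⟩ := coordV (vof w)
  obtain ⟨c1, c2, c3⟩ := coordU (uof w)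
  apply ext_coord
  · rw [Xof_add, Xof_add, a1, b1, c1, add_zero, add_zero]
  · rw [vof_add, vof_add, a2, b2, c2, add_zero, zero_add]
  · rw [uof_add, uof_add, a3, b3, c3, zero_add, zero_add]

theorem nuV_add (v v' : Fin 3 → F) : nuV (v + v') = nuV v + nuV v' := by
  obtain ⟨a1, a2, a3⟩ := coordV (v + v')
  obtain ⟨b1, b2, b3⟩ := coordV v
  obtain ⟨c1, c2, c3⟩ := coordV v'
  apply ext_coord
  · rw [Xof_add, a1, b1, c1, add_zero]
  · rw [vof_add, a2, b2, c2]
  · rw [uof_add, a3, b3, c3, add_zero]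

theorem nuV_smul (c : F) (v : Fin 3 → F) : nuV (c • v) = c • nuV v := by
  obtain ⟨a1, a2, a3⟩ := coordV (c • v)
  obtain ⟨b1, b2, b3⟩ := coordV v
  apply ext_coord
  · rw [Xof_smul, a1, b1, smul_zero]
  · rw [vof_smul, a2, b2]
  · rw [uof_smul, a3, b3, smul_zero]

theorem nuU_add (v v' : Fin 3 → F) : nuU (v + v') = nuU v + nuU v' := by
  obtain ⟨a1, a2, a3⟩ := coordU (v + v')
  obtain ⟨b1, b2, b3⟩ := coordU v
  obtain ⟨c1, c2, c3⟩ := coordU v'
  apply ext_coord
  · rw [Xof_add, a1, b1, c1, add_zero]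
  · rw [vof_add, a2, b2, c2, add_zero]
  · rw [uof_add, a3, b3, c3]

theorem nuU_smul (c : F) (v : Fin 3 → F) : nuU (c • v) = c • nuU v := by
  obtain ⟨a1, a2, a3⟩ := coordU (c • v)
  obtain ⟨b1, b2, b3⟩ := coordU v
  apply ext_coord
  · rw [Xof_smul, a1, b1, smul_zero]
  · rw [vof_smul, a2, b2, smul_zero]
  · rw [uof_smul, a3, b3]

/-- The block of `g` on `V`, as a linear map. -/
noncomputable def blockVL (g : M14 F) : (Fin 3 → F) →ₗ[F] (Fin 3 → F) where
  toFun v := vof (g *ᵥ nuV v)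
  map_add' v v' := by rw [nuV_add, Matrix.mulVec_add, vof_add]
  map_smul' c v := by rw [nuV_smul, Matrix.mulVec_smul, vof_smul]; rfl

/-- The block of `g` on `V*`, as a linear map. -/
noncomputable def blockUL (g : M14 F) : (Fin 3 → F) →ₗ[F] (Fin 3 → F) where
  toFun v := uof (g *ᵥ nuU v)
  map_add' v v' := by rw [nuU_add, Matrix.mulVec_add, uof_add]
  map_smul' c v := by rw [nuU_smul, Matrix.mulVec_smul, uof_smul]; rfl

/-- The block of `g` on `V`. -/
noncomputable def blockV (g : M14 F) : M3 F := LinearMap.toMatrix' (blockVL g)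

/-- The block of `g` on `V*`. -/
noncomputable def blockU (g : M14 F) : M3 F := LinearMap.toMatrix' (blockUL g)

theorem blockV_mulVec (g : M14 F) (v : Fin 3 → F) : blockV g *ᵥ v = vof (g *ᵥ nuV v) := by
  rw [blockV, LinearMap.toMatrix'_mulVec]
  rfl

theorem blockU_mulVec (g : M14 F) (v : Fin 3 → F) : blockU g *ᵥ v = uof (g *ᵥ nuU v) := by
  rw [blockU, LinearMap.toMatrix'_mulVec]
  rfl

section Form

variable {s s' : M3 F} {p p' : F[X]} {x g : M14 F}
variable (hS : Sep s s' p p') (hx : Cov x s s') (hc : g * x = x * g)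
include hS hx hc

theorem form_v (w : LL F) : vof (g *ᵥ w) = blockV g *ᵥ vof w := by
  conv_lhs => rw [decomp w]
  obtain ⟨a1, a2, a3⟩ := coordX (trace_Xof w)
  obtain ⟨c1, c2, c3⟩ := coordU (uof w)
  rw [Matrix.mulVec_add, Matrix.mulVec_add, vof_add, vof_add, blockV_mulVec,
    (stepX hS hx hc a2 a3).1, (stepU hS hx hc c1 c2).2, zero_add, add_zero]

theorem form_u (w : LL F) : uof (g *ᵥ w) = blockU g *ᵥ uof w := by
  conv_lhs => rw [decomp w]
  obtain ⟨a1, a2, a3⟩ := coordX (trace_Xof w)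
  obtain ⟨b1, b2, b3⟩ := coordV (vof w)
  rw [Matrix.mulVec_add, Matrix.mulVec_add, uof_add, uof_add, blockU_mulVec,
    (stepX hS hx hc a2 a3).2, (stepV hS hx hc b1 b3).2, zero_add, zero_add]

theorem form_X (w : LL F) : Xof (g *ᵥ w) = Xof (g *ᵥ nuX (Xof w)) := by
  conv_lhs => rw [decomp w]
  obtain ⟨b1, b2, b3⟩ := coordV (vof w)
  obtain ⟨c1, c2, c3⟩ := coordU (uof w)
  rw [Matrix.mulVec_add, Matrix.mulVec_add, Xof_add, Xof_add,
    (stepV hS hx hc b1 b3).1, (stepU hS hx hc c1 c2).1, add_zero, add_zero]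

theorem comm_block : blockV g * s = s * blockV g := by
  apply Matrix.ext_iff_mulVec.2
  intro v
  rw [← Matrix.mulVec_mulVec, ← Matrix.mulVec_mulVec]
  obtain ⟨b1, b2, b3⟩ := coordV v
  have h1 := form_v hS hx hc (x *ᵥ nuV v)
  rw [Matrix.mulVec_mulVec, hc, ← Matrix.mulVec_mulVec, hx.v_eq, hx.v_eq, b2] at h1
  rw [form_v hS hx hc, b2] at h1
  exact h1.symm

end Form

/-- A matrix commuting with the traceless matrices is scalar. -/
theorem scalar_of_comm {z : M3 F} (h : ∀ Y : M3 F, Y.trace = 0 → z * Y = Y * z) : ∃ c : F, z = c • 1 := by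
  have hE : ∀ i j : Fin 3, i ≠ j → z * Matrix.single i j (1 : F) = Matrix.single i j (1 : F) * z := by
    intro i j hij
    apply h
    rw [Matrix.trace_single_eq_of_ne _ _ _ hij]
  have h1 : ∀ i j k : Fin 3, i ≠ j → k ≠ i → z k i = 0 := by
    intro i j k hij hk
    have := congrFun (congrFun (hE i j hij) k) j
    rw [Matrix.mul_single_apply_same, Matrix.single_mul_apply_of_ne _ _ _ _ _ hk _] at this
    simpa using this
  have h2 : ∀ i j : Fin 3, i ≠ j → z i i = z j j := by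
    intro i j hij
    have := congrFun (congrFun (hE i j hij) i) j
    rw [Matrix.mul_single_apply_same, Matrix.single_mul_apply_same] at this
    simpa using this
  refine ⟨z 0 0, ?_⟩
  ext a b
  by_cases hab : a = b
  · subst hab
    simp only [Matrix.smul_apply, Matrix.one_apply_eq, smul_eq_mul, mul_one]
    by_cases ha : a = 0
    · rw [ha]
    · exact h2 a 0 ha
  · have hj : ∃ j : Fin 3, b ≠ j := by
      by_cases hb : b = 0
      · exact ⟨1, by rw [hb]; decide⟩
      · exact ⟨0, hb⟩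
    obtain ⟨j, hj⟩ := hj
    rw [h1 b j a hj hab]
    simp [Matrix.one_apply_ne hab]

section Main

variable {s s' : M3 F} {p p' : F[X]} {x : M14 F} {g : GL chevG2.Idx F}
variable (hS : Sep s s' p p') (hx : Cov x s s') (hc : (g : M14 F) * x = x * (g : M14 F))
include hS hx hc

theorem block_inj : Function.Injective (blockV (g : M14 F)).mulVec := by
  show Function.Injective (blockV (g : M14 F)).mulVecLin
  rw [injective_iff_map_eq_zero]
  intro v hv
  have hv' : blockV (g : M14 F) *ᵥ v = 0 := hv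
  rw [blockV_mulVec] at hv'
  obtain ⟨b1, b2, b3⟩ := coordV v
  obtain ⟨c1, c2⟩ := stepV hS hx hc b1 b3
  have h0 := eq_zero_of_coords c1 hv' c2
  have h1 : nuV v = 0 := by
    have := congrArg (((g⁻¹ : GL chevG2.Idx F) : M14 F) *ᵥ ·) h0
    simp only [Matrix.mulVec_mulVec, Matrix.mulVec_zero] at this
    rw [← Units.val_mul, inv_mul_cancel, Units.val_one, Matrix.one_mulVec] at this
    exact this
  rw [← b2, h1, coords_zero.2.1]

theorem blockU_inj : Function.Injective (blockU (g : M14 F)).mulVec := by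
  show Function.Injective (blockU (g : M14 F)).mulVecLin
  rw [injective_iff_map_eq_zero]
  intro v hv
  have hv' : blockU (g : M14 F) *ᵥ v = 0 := hv
  rw [blockU_mulVec] at hv'
  obtain ⟨b1, b2, b3⟩ := coordU v
  obtain ⟨c1, c2⟩ := stepU hS hx hc b1 b2
  have h0 := eq_zero_of_coords c1 c2 hv'
  have h1 : nuU v = 0 := by
    have := congrArg (((g⁻¹ : GL chevG2.Idx F) : M14 F) *ᵥ ·) h0
    simp only [Matrix.mulVec_mulVec, Matrix.mulVec_zero] at this
    rw [← Units.val_mul, inv_mul_cancel, Units.val_one, Matrix.one_mulVec] at this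
    exact this
  rw [← b3, h1, coords_zero.2.2]

variable (hg : g ∈ chevG2.group F)
include hg

theorem br_V {X : M3 F} (hX : X.trace = 0) :
    blockV (g : M14 F) * X = Xof ((g : M14 F) *ᵥ nuX X) * blockV (g : M14 F) := by
  apply Matrix.ext_iff_mulVec.2
  intro v
  rw [← Matrix.mulVec_mulVec, ← Matrix.mulVec_mulVec]
  obtain ⟨a1, a2, a3⟩ := coordX hX
  obtain ⟨b1, b2, b3⟩ := coordV v
  have haut := aut_of_mem hg (nuX X) (nuV v)
  have h1 := congrArg vof haut
  rw [form_v hS hx hc, (br_coord a2 a3 b1).2.1, a1, b2] at h1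
  obtain ⟨c1, c2⟩ := stepX hS hx hc a2 a3
  obtain ⟨d1, d2⟩ := stepV hS hx hc b1 b3
  rw [(br_coord c1 c2 d1).2.1, form_v hS hx hc (nuV v), b2] at h1
  exact h1

theorem br_U {X : M3 F} (hX : X.trace = 0) :
    blockU (g : M14 F) * Xᵀ = (Xof ((g : M14 F) *ᵥ nuX X))ᵀ * blockU (g : M14 F) := by
  apply Matrix.ext_iff_mulVec.2
  intro u
  rw [← Matrix.mulVec_mulVec, ← Matrix.mulVec_mulVec]
  obtain ⟨a1, a2, a3⟩ := coordX hX
  obtain ⟨b1, b2, b3⟩ := coordU u
  have haut := aut_of_mem hg (nuX X) (nuU u)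
  have h1 := congrArg uof haut
  rw [form_u hS hx hc, (br_coord a2 a3 b1).2.2, a1, b3] at h1
  obtain ⟨c1, c2⟩ := stepX hS hx hc a2 a3
  obtain ⟨d1, d2⟩ := stepU hS hx hc b1 b2
  rw [(br_coord c1 c2 d1).2.2, form_u hS hx hc (nuU u), b3, Matrix.mulVec_neg] at h1
  exact neg_injective h1

omit hS hx hc hg in
/-- The weights diagonal element, entrywise. -/
theorem dg_coords (δ c : F) (hδ : δ ≠ 0) (w : LL F) :
    Xof (Cfsg.Agent.Lib.ChevBN.Rel.dgMat chevG2
      (fun r : Fin 12 => (![δ⁻¹, 1, 1, c * δ⁻¹, c, δ⁻¹, δ, 1, δ, c, 1, δ] : Fin 12 → F) r) *ᵥ w) =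
        Matrix.diagonal ![δ, 1, 1] * Xof w * Matrix.diagonal ![δ⁻¹, 1, 1] ∧
    vof (Cfsg.Agent.Lib.ChevBN.Rel.dgMat chevG2
      (fun r : Fin 12 => (![δ⁻¹, 1, 1, c * δ⁻¹, c, δ⁻¹, δ, 1, δ, c, 1, δ] : Fin 12 → F) r) *ᵥ w) =
        Matrix.diagonal ![δ, 1, 1] *ᵥ vof w ∧
    uof (Cfsg.Agent.Lib.ChevBN.Rel.dgMat chevG2
      (fun r : Fin 12 => (![δ⁻¹, 1, 1, c * δ⁻¹, c, δ⁻¹, δ, 1, δ, c, 1, δ] : Fin 12 → F) r) *ᵥ w) =
        (c • Matrix.diagonal ![δ⁻¹, 1, 1]) *ᵥ uof w := by
  set χ : Fin chevG2.nroots → F := fun r : Fin 12 => (![δ⁻¹, 1, 1, c * δ⁻¹, c, δ⁻¹, δ, 1, δ, c, 1, δ] : Fin 12 → F) r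
    with hχ
  have e1 : ∀ i : Fin 2, (Cfsg.Agent.Lib.ChevBN.Rel.dgMat chevG2 χ *ᵥ w) (hc i) = w (hc i) := by
    intro i
    rw [Cfsg.Agent.Lib.ChevBN.Rel.dgMat, Matrix.mulVec_diagonal]
    exact one_mul _
  have e2 : ∀ r : Fin 12, (Cfsg.Agent.Lib.ChevBN.Rel.dgMat chevG2 χ *ᵥ w) (rc r) = χ r * w (rc r) := by
    intro r
    rw [Cfsg.Agent.Lib.ChevBN.Rel.dgMat, Matrix.mulVec_diagonal]
    rfl
  refine ⟨?_, ?_, ?_⟩
  · ext i j
    rw [Matrix.mul_diagonal, Matrix.diagonal_mul]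
    simp only [Xof, e1, e2]
    fin_cases i <;> fin_cases j <;> simp [hχ, hδ] <;> field_simp
  · ext i
    rw [Matrix.mulVec_diagonal]
    simp only [vof, e2]
    fin_cases i <;> simp [hχ]
  · ext i
    rw [Matrix.smul_mulVec, Pi.smul_apply, Matrix.mulVec_diagonal]
    simp only [uof, e2]
    fin_cases i <;> simp [hχ, smul_eq_mul] <;> ring

/-- The main conclusion: an element of the group commuting with `x` comes from `SL₃`. -/
theorem comm_form :
    ∃ a a' : M3 F, a * a' = 1 ∧ a' * a = 1 ∧ a * s = s * a ∧ a.det = 1 ∧ Cov (g : M14 F) a a' := by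
  set a := blockV (g : M14 F) with ha
  set e := blockU (g : M14 F) with he
  have hua : IsUnit a := Matrix.mulVec_injective_iff_isUnit.1 (block_inj hS hx hc)
  have hue : IsUnit e := Matrix.mulVec_injective_iff_isUnit.1 (blockU_inj hS hx hc)
  have hdet : IsUnit a.det := (Matrix.isUnit_iff_isUnit_det a).1 hua
  have h1 : a * a⁻¹ = 1 := Matrix.mul_nonsing_inv a hdet
  have h2 : a⁻¹ * a = 1 := Matrix.nonsing_inv_mul a hdet
  have hC : ∀ X : M3 F, X.trace = 0 → Xof ((g : M14 F) *ᵥ nuX X) = a * X * a⁻¹ := by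
    intro X hX
    have := br_V hS hx hc hg hX
    rw [← ha] at this
    rw [this, Matrix.mul_assoc, h1, Matrix.mul_one]
  -- the block on the dual
  obtain ⟨c, hz⟩ : ∃ c : F, aᵀ * e = c • 1 := by
    apply scalar_of_comm
    intro Y hY
    have hY' : Yᵀ.trace = 0 := by rwa [Matrix.trace_transpose]
    have h3 := br_U hS hx hc hg hY'
    rw [← he, Matrix.transpose_transpose, hC _ hY', Matrix.transpose_mul, Matrix.transpose_mul,
      Matrix.transpose_transpose] at h3
    have h4 : aᵀ * (a⁻¹)ᵀ = 1 := by rw [← Matrix.transpose_mul, h2, Matrix.transpose_one]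
    calc aᵀ * e * Y = aᵀ * (e * Y) := by rw [Matrix.mul_assoc]
      _ = aᵀ * ((a⁻¹)ᵀ * (Y * aᵀ) * e) := by rw [h3]
      _ = (aᵀ * (a⁻¹)ᵀ) * Y * (aᵀ * e) := by simp only [Matrix.mul_assoc]
      _ = Y * (aᵀ * e) := by rw [h4, Matrix.one_mul]
  have he2 : e = c • (a⁻¹)ᵀ := by
    have h4 : (a⁻¹)ᵀ * aᵀ = 1 := by rw [← Matrix.transpose_mul, h1, Matrix.transpose_one]
    calc e = (a⁻¹)ᵀ * (aᵀ * e) := by rw [← Matrix.mul_assoc, h4, Matrix.one_mul]
      _ = c • (a⁻¹)ᵀ := by rw [hz, Matrix.mul_smul, Matrix.mul_one]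
  have hc0 : c ≠ 0 := by
    rintro rfl
    rw [zero_smul] at he2
    rw [he2] at hue
    exact not_isUnit_zero hue
  set δ := a.det with hδd
  have hδ : δ ≠ 0 := hdet.ne_zero
  set d : M3 F := Matrix.diagonal ![δ, 1, 1] with hd
  set d' : M3 F := Matrix.diagonal ![δ⁻¹, 1, 1] with hd'
  have hdd : d * d' = 1 := by
    rw [hd, hd', Matrix.diagonal_mul_diagonal, ← Matrix.diagonal_one]
    congr 1
    ext i
    fin_cases i <;> simp [hδ]
  have hdd' : d' * d = 1 := by
    rw [hd, hd', Matrix.diagonal_mul_diagonal, ← Matrix.diagonal_one]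
    congr 1
    ext i
    fin_cases i <;> simp [hδ]
  have hA₀ : (a * d').det = 1 := by
    rw [Matrix.det_mul, hd', Matrix.det_diagonal, Fin.prod_univ_three]
    simp [← hδd, hδ]
  let M₀ : SpecialLinearGroup (Fin 3) F := ⟨a * d', hA₀⟩
  obtain ⟨x₂, hx₂G, hx₂⟩ := exists_sl (M₀⁻¹)
  rw [inv_inv] at hx₂
  set B₀ : M3 F := ((M₀⁻¹ : SpecialLinearGroup (Fin 3) F) : M3 F) with hB₀
  have hM₀ : ((M₀ : SpecialLinearGroup (Fin 3) F) : M3 F) = a * d' := rfl
  rw [hM₀] at hx₂
  have hB : B₀ * (a * d') = 1 := by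
    have : ((M₀⁻¹ * M₀ : SpecialLinearGroup (Fin 3) F) : M3 F) = B₀ * (a * d') := rfl
    rw [← this, inv_mul_cancel]
    rfl
  have hB2 : B₀ = d * a⁻¹ := by
    calc B₀ = B₀ * ((a * d') * (d * a⁻¹)) := by
          have : (a * d') * (d * a⁻¹) = 1 := by
            calc (a * d') * (d * a⁻¹) = a * (d' * d) * a⁻¹ := by simp only [Matrix.mul_assoc]
              _ = 1 := by rw [hdd', Matrix.mul_one, h1]
          rw [this, Matrix.mul_one]
      _ = (B₀ * (a * d')) * (d * a⁻¹) := by simp only [Matrix.mul_assoc]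
      _ = _ := by rw [hB, Matrix.one_mul]
  have hτG : x₂ * g ∈ chevG2.group F := Subgroup.mul_mem _ hx₂G hg
  have hCw : ∀ w : LL F, Xof ((g : M14 F) *ᵥ w) = a * Xof w * a⁻¹ := by
    intro w
    rw [form_X hS hx hc, hC _ (trace_Xof w)]
  have hτ : ((x₂ * g : GL chevG2.Idx F) : M14 F) = Cfsg.Agent.Lib.ChevBN.Rel.dgMat chevG2
      (fun r : Fin 12 => (![δ⁻¹, 1, 1, c * δ⁻¹, c, δ⁻¹, δ, 1, δ, c, 1, δ] : Fin 12 → F) r) := by
    apply Matrix.ext_iff_mulVec.2
    intro w
    obtain ⟨k1, k2, k3⟩ := dg_coords δ c hδ w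
    apply ext_coord
    · rw [k1, Units.val_mul, ← Matrix.mulVec_mulVec, hx₂.X_eq, hCw, hB2]
      calc d * a⁻¹ * (a * Xof w * a⁻¹) * (a * d') = d * (a⁻¹ * a) * Xof w * (a⁻¹ * a) * d' := by
            simp only [Matrix.mul_assoc]
        _ = d * Xof w * d' := by rw [h2, Matrix.mul_one, Matrix.mul_one]
    · rw [k2, Units.val_mul, ← Matrix.mulVec_mulVec, hx₂.v_eq, form_v hS hx hc, Matrix.mulVec_mulVec, hB2,
        Matrix.mul_assoc, h2, Matrix.mul_one]
    · rw [k3, Units.val_mul, ← Matrix.mulVec_mulVec, hx₂.u_eq, form_u hS hx hc, Matrix.mulVec_mulVec, ← he, he2,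
        Matrix.mul_smul, Matrix.transpose_mul]
      have h5 : d'ᵀ = d' := by rw [hd', Matrix.diagonal_transpose]
      have h6 : aᵀ * (a⁻¹)ᵀ = 1 := by rw [← Matrix.transpose_mul, h2, Matrix.transpose_one]
      rw [h5, Matrix.mul_assoc, h6, Matrix.mul_one]
  obtain ⟨hδ1, hc1⟩ := weights_eq_one hτG hδ hc0 hτ
  refine ⟨a, a⁻¹, h1, h2, comm_block hS hx hc, hδ1, hCw, form_v hS hx hc, ?_⟩
  intro w
  rw [form_u hS hx hc, ← he, he2, hc1, one_smul]

end Main

end Cfsg.Agent.Lib.Classical.Lin.G2Sep
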