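import Mathlib
import Cfsg.Agent.Lib.Classical.Lin.G2Sep

/-!
# The cubic extension: a regular element of `SL₃(F)` of order `q² + q + 1`
-/

set_option autoImplicit false
set_option linter.unusedSectionVars false
set_option linter.unusedVariables false
set_option linter.unusedSimpArgs false
set_option linter.unusedTactic false
set_option linter.unreachableTactic false

namespace Cfsg.Agent.Lib.Classical.Lin.G2Field

open Matrix Polynomial Module
open Cfsg.Agent.Lib.Classical.Lin.G2Sep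

variable (F K : Type*) [Field F] [Fintype F] [Field K] [Finite K] [Algebra F K]

/-- The powers of Frobenius, as linear maps. -/
noncomputable def sig (i : ℕ) : K →ₗ[F] K := ((FiniteField.frobeniusAlgHom F K) ^ i).toLinearMap

variable {F K}

theorem sig_apply (i : ℕ) (x : K) : sig F K i x = x ^ (Fintype.card F ^ i) := by
  simp only [sig, AlgHom.toLinearMap_apply, AlgHom.coe_pow, FiniteField.coe_frobeniusAlgHom,
    pow_iterate]

theorem mon_indep (h3 : finrank F K = 3) : LinearIndependent K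
    (fun i : Fin 3 => ((powMonoidHom (Fintype.card F ^ (i : ℕ)) : K →* K) : K → K)) := by
  have hord : orderOf (FiniteField.frobeniusAlgHom F K) = 3 := by
    rw [FiniteField.orderOf_frobeniusAlgHom, h3]
  let m : Fin 3 → (K →* K) := fun i => powMonoidHom (Fintype.card F ^ (i : ℕ))
  have hm : Function.Injective m := by
    intro i j hij
    have h : (FiniteField.frobeniusAlgHom F K) ^ (i : ℕ) =
        (FiniteField.frobeniusAlgHom F K) ^ (j : ℕ) := by
      ext x
      have := DFunLike.congr_fun hij x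
      simpa [m, AlgHom.coe_pow, FiniteField.coe_frobeniusAlgHom, pow_iterate] using this
    exact Fin.ext (pow_injOn_Iio_orderOf (by simp [hord]) (by simp [hord]) h)
  exact (linearIndependent_monoidHom K K).comp m hm

theorem sig_indep (h3 : finrank F K = 3) :
    LinearIndependent K (fun i : Fin 3 => sig F K (i : ℕ)) := by
  have h1 := mon_indep (F := F) (K := K) h3
  let c : (K →ₗ[F] K) →ₗ[K] (K → K) :=
    { toFun := fun T => T, map_add' := fun _ _ => rfl, map_smul' := fun _ _ => rfl }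
  apply LinearIndependent.of_comp c
  have e : (⇑c ∘ fun i : Fin 3 => sig F K (i : ℕ)) =
      (fun i : Fin 3 => ((powMonoidHom (Fintype.card F ^ (i : ℕ)) : K →* K) : K → K)) := by
    funext i x
    simp [c, sig_apply]
  rw [e]
  exact h1

theorem exists_coeffs (h3 : finrank F K = 3) (T : K →ₗ[F] K) :
    ∃ c : Fin 3 → K, ∀ x, T x = ∑ i, c i * x ^ (Fintype.card F ^ (i : ℕ)) := by
  have hfr : finrank K (K →ₗ[F] K) = 3 := by
    rw [Module.finrank_linearMap, h3, finrank_self, mul_one]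
  have := (sig_indep h3).span_eq_top_of_card_eq_finrank' (by simp [hfr])
  have hT : T ∈ Submodule.span K (Set.range fun i : Fin 3 => sig F K i) := by
    rw [this]; trivial
  obtain ⟨c, hc⟩ := (Submodule.mem_span_range_iff_exists_fun K).1 hT
  refine ⟨c, fun x => ?_⟩
  rw [← hc]
  simp [LinearMap.sum_apply, sig_apply]

theorem coeff_zero (h3 : finrank F K = 3) {c : Fin 3 → K}
    (h : ∀ x : K, ∑ i, c i * x ^ (Fintype.card F ^ (i : ℕ)) = 0) (i : Fin 3) : c i = 0 := by
  refine Fintype.linearIndependent_iff.1 (mon_indep (F := F) (K := K) h3) c ?_ i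
  funext x
  simpa using h x

theorem toLin_lm (b : Basis (Fin 3) F K) (α x : K) :
    Matrix.toLin b b (Algebra.leftMulMatrix b α) x = α * x := by
  rw [Algebra.leftMulMatrix_apply, Matrix.toLin_toMatrix]
  simp

theorem aeval_form (b : Basis (Fin 3) F K) {l l' : K} (X : M3 F) {c : Fin 3 → K}
    (hX : ∀ x, Matrix.toLin b b X x = ∑ i, c i * x ^ (Fintype.card F ^ (i : ℕ))) (f : F[X]) (x : K) :
    Matrix.toLin b b (aeval (adE (Algebra.leftMulMatrix b l) (Algebra.leftMulMatrix b l')) f X) x =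
      ∑ i, c i * aeval (l * l' ^ (Fintype.card F ^ (i : ℕ))) f * x ^ (Fintype.card F ^ (i : ℕ)) := by
  induction f using Polynomial.induction_on' with
  | add p q hp hq =>
    simp only [map_add, LinearMap.add_apply, hp, hq, add_mul, mul_add, Finset.sum_add_distrib]
  | monomial n a =>
    simp only [aeval_monomial, Algebra.algebraMap_eq_smul_one, smul_mul_assoc, one_mul,
      LinearMap.smul_apply, Module.End.smul_def, adE_pow, map_smul]
    rw [← map_pow, ← map_pow, Matrix.toLin_mul b b b, Matrix.toLin_mul b b b]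
    simp only [LinearMap.comp_apply, toLin_lm, hX, Algebra.smul_def, mul_pow, Finset.mul_sum]
    refine Finset.sum_congr rfl fun i _ => ?_
    simp only [← pow_mul]
    rw [mul_comm (Fintype.card F ^ (i : ℕ)) n]
    ring

theorem inj_of_form (h3 : finrank F K = 3) (b : Basis (Fin 3) F K) {l l' : K} {f : F[X]}
    (hf : ∀ i : Fin 3, aeval (l * l' ^ (Fintype.card F ^ (i : ℕ))) f ≠ 0) :
    Function.Injective (aeval (adE (Algebra.leftMulMatrix b l) (Algebra.leftMulMatrix b l')) f) := by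
  rw [injective_iff_map_eq_zero]
  intro X hX
  obtain ⟨c, hc⟩ := exists_coeffs h3 (Matrix.toLin b b X)
  have h0 : ∀ x : K, ∑ i, (c i * aeval (l * l' ^ (Fintype.card F ^ (i : ℕ))) f) *
      x ^ (Fintype.card F ^ (i : ℕ)) = 0 := by
    intro x
    rw [← aeval_form b X hc f x, hX]
    simp
  have hc0 : ∀ i, c i = 0 := fun i => by
    have := coeff_zero h3 h0 i
    exact (mul_eq_zero.1 this).resolve_right (hf i)
  have : Matrix.toLin b b X = 0 := by
    ext x
    rw [hc]
    simp [hc0]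
  simpa using this

theorem comm_lm (h3 : finrank F K = 3) (b : Basis (Fin 3) F K) {l : K}
    (hl : ∀ i : Fin 3, i ≠ 0 → l ^ (Fintype.card F ^ (i : ℕ)) ≠ l) {a : M3 F}
    (ha : a * Algebra.leftMulMatrix b l = Algebra.leftMulMatrix b l * a) :
    ∃ α : K, a = Algebra.leftMulMatrix b α := by
  obtain ⟨c, hc⟩ := exists_coeffs h3 (Matrix.toLin b b a)
  have h0 : ∀ x : K, ∑ i, (c i * (l ^ (Fintype.card F ^ (i : ℕ)) - l)) *
      x ^ (Fintype.card F ^ (i : ℕ)) = 0 := by
    intro x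
    have h1 : Matrix.toLin b b a (l * x) = l * Matrix.toLin b b a x := by
      rw [← toLin_lm b l x, ← LinearMap.comp_apply, ← Matrix.toLin_mul b b b, ha,
        Matrix.toLin_mul b b b, LinearMap.comp_apply, toLin_lm]
    rw [hc, hc, Finset.mul_sum] at h1
    rw [← sub_eq_zero, ← Finset.sum_sub_distrib] at h1
    rw [← h1]
    refine Finset.sum_congr rfl fun i _ => ?_
    rw [mul_pow]
    ring
  have hci : ∀ i : Fin 3, i ≠ 0 → c i = 0 := fun i hi => by
    have := coeff_zero h3 h0 i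
    exact (mul_eq_zero.1 this).resolve_right (sub_ne_zero.2 (hl i hi))
  refine ⟨c 0, ?_⟩
  apply (Matrix.toLin b b).injective
  ext x
  rw [hc, toLin_lm, Fin.sum_univ_three, hci 1 (by decide), hci 2 (by decide)]
  simp

/-! ### Conjugates -/

theorem root_conj {p : ℕ} [Fact p.Prime] [CharP F p] (h3 : finrank F K = 3) {ξ y : K}
    (h : aeval ξ (minpoly F y) = 0) : ∃ r : Fin 3, ξ = y ^ (Fintype.card F ^ (r : ℕ)) := by
  obtain ⟨σ, hσ⟩ := minpoly.exists_algEquiv_of_root' (Algebra.IsIntegral.isIntegral y).isAlgebraic h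
  obtain ⟨i, hi⟩ := FiniteField.exists_forall_apply_eq_pow F p K σ
  have hord : orderOf (FiniteField.frobeniusAlgHom F K) = 3 := by
    rw [FiniteField.orderOf_frobeniusAlgHom, h3]
  have e : ((FiniteField.frobeniusAlgHom F K) ^ (i % 3)) y =
      ((FiniteField.frobeniusAlgHom F K) ^ i) y := by
    rw [← hord, pow_mod_orderOf]
  refine ⟨⟨i % 3, Nat.mod_lt _ (by norm_num)⟩, ?_⟩
  rw [← hσ, hi, Nat.card_eq_fintype_card]
  simp only [AlgHom.coe_pow, FiniteField.coe_frobeniusAlgHom, pow_iterate] at e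
  exact e.symm

/-! ### Arithmetic -/

theorem nd {n D : ℤ} (hn : 0 < n) (h : (0 < D ∧ D < n) ∨ (n < D ∧ D < 2 * n) ∨ (-n < D ∧ D < 0) ∨
    (-(2 * n) < D ∧ D < -n)) : ¬ n ∣ D := by
  rintro ⟨k, rfl⟩
  have hk : k ≤ -2 ∨ k = -1 ∨ k = 0 ∨ k = 1 ∨ 2 ≤ k := by omega
  rcases hk with hk | rfl | rfl | rfl | hk
  · rcases h with ⟨h1, h2⟩ | ⟨h1, h2⟩ | ⟨h1, h2⟩ | ⟨h1, h2⟩ <;> nlinarith
  · rcases h with ⟨h1, h2⟩ | ⟨h1, h2⟩ | ⟨h1, h2⟩ | ⟨h1, h2⟩ <;> nlinarith
  · rcases h with ⟨h1, h2⟩ | ⟨h1, h2⟩ | ⟨h1, h2⟩ | ⟨h1, h2⟩ <;> nlinarith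
  · rcases h with ⟨h1, h2⟩ | ⟨h1, h2⟩ | ⟨h1, h2⟩ | ⟨h1, h2⟩ <;> nlinarith
  · rcases h with ⟨h1, h2⟩ | ⟨h1, h2⟩ | ⟨h1, h2⟩ | ⟨h1, h2⟩ <;> nlinarith

theorem pow_cases (q : ℤ) (i : Fin 3) : q ^ (i : ℕ) = 1 ∨ q ^ (i : ℕ) = q ∨ q ^ (i : ℕ) = q ^ 2 := by
  fin_cases i <;> simp

theorem arA {q : ℤ} (hq : 3 ≤ q) (i r : Fin 3) : ¬ (q ^ 2 + q + 1) ∣ (1 - q ^ (i : ℕ) - q ^ (r : ℕ)) := by
  have hn : 0 < q ^ 2 + q + 1 := by nlinarith
  rcases pow_cases q i with h | h | h <;> rcases pow_cases q r with h' | h' | h' <;> rw [h, h'] <;>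
    apply nd hn <;>
    first
    | (left; constructor <;> nlinarith only [hq])
    | (right; left; constructor <;> nlinarith only [hq])
    | (right; right; left; constructor <;> nlinarith only [hq])
    | (right; right; right; constructor <;> nlinarith only [hq])

theorem arB {q : ℤ} (hq : 3 ≤ q) (i r : Fin 3) : ¬ (q ^ 2 + q + 1) ∣ (1 - q ^ (i : ℕ) + q ^ (r : ℕ)) := by
  have hn : 0 < q ^ 2 + q + 1 := by nlinarith
  rcases pow_cases q i with h | h | h <;> rcases pow_cases q r with h' | h' | h' <;> rw [h, h'] <;>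
    apply nd hn <;>
    first
    | (left; constructor <;> nlinarith only [hq])
    | (right; left; constructor <;> nlinarith only [hq])
    | (right; right; left; constructor <;> nlinarith only [hq])
    | (right; right; right; constructor <;> nlinarith only [hq])

theorem arC {q : ℤ} (hq : 3 ≤ q) (r : Fin 3) : ¬ (q ^ 2 + q + 1) ∣ (1 + q ^ (r : ℕ)) := by
  have hn : 0 < q ^ 2 + q + 1 := by nlinarith
  rcases pow_cases q r with h' | h' | h' <;> rw [h'] <;>
    apply nd hn <;>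
    first
    | (left; constructor <;> nlinarith only [hq])
    | (right; left; constructor <;> nlinarith only [hq])

theorem arD {q : ℤ} (hq : 3 ≤ q) (i : Fin 3) (hi : i ≠ 0) : ¬ (q ^ 2 + q + 1) ∣ (q ^ (i : ℕ) - 1) := by
  have hn : 0 < q ^ 2 + q + 1 := by nlinarith
  fin_cases i
  · exact absurd rfl hi
  · simp only [Fin.mk_one, Fin.val_one, pow_one]
    apply nd hn
    left; constructor <;> nlinarith
  · simp only [Fin.reduceFinMk, Fin.val_two]
    apply nd hn
    left; constructor <;> nlinarith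

theorem aeval_transpose (A : M3 F) (f : F[X]) : aeval Aᵀ f = (aeval A f)ᵀ := by
  induction f using Polynomial.induction_on' with
  | add p q hp hq => simp only [map_add, hp, hq, Matrix.transpose_add]
  | monomial n a =>
    simp only [aeval_monomial, Algebra.algebraMap_eq_smul_one, smul_mul_assoc, one_mul,
      Matrix.transpose_smul, Matrix.transpose_pow]

/-! ### The data -/

theorem data_of {p : ℕ} [Fact p.Prime] [CharP F p] (h3 : finrank F K = 3) (hq : 3 ≤ Fintype.card F) :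
    ∃ (s s' : M3 F) (f f' : F[X]), Sep s s' f f' ∧ s.det = 1 ∧
      orderOf s = Fintype.card F ^ 2 + Fintype.card F + 1 ∧
      ∀ a : M3 F, a * s = s * a → a.det = 1 → ∃ k : ℕ, a = s ^ k := by
  classical
  set q := Fintype.card F with hqdef
  have b : Basis (Fin 3) F K := Module.finBasisOfFinrankEq F K h3
  have hcardF : Nat.card F = q := by rw [Nat.card_eq_fintype_card]
  have hcardK : Nat.card K = q ^ 3 := by
    rw [Module.natCard_eq_pow_finrank (K := F), h3, hcardF]
  obtain ⟨ζ, hζ⟩ := IsCyclic.exists_generator (α := Kˣ)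
  have hordζ : orderOf ζ = q ^ 3 - 1 := by
    rw [orderOf_eq_card_of_forall_mem_zpowers hζ, Nat.card_units, hcardK]
  have hq3 : q ^ 3 - 1 = (q - 1) * (q ^ 2 + q + 1) := by
    obtain ⟨t, ht⟩ : ∃ t, q = t + 1 := ⟨q - 1, by omega⟩
    rw [ht]
    simp only [Nat.add_sub_cancel]
    have : (t + 1) ^ 3 = t * ((t + 1) ^ 2 + (t + 1) + 1) + 1 := by ring
    rw [this, Nat.add_sub_cancel]
  have hq1 : q - 1 ≠ 0 := by omega
  set n := q ^ 2 + q + 1 with hn
  have hnpos : 0 < n := by omega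
  set u : Kˣ := ζ ^ (q - 1) with hu
  have hordu : orderOf u = n := by
    rw [hu, orderOf_pow_of_dvd hq1 (by rw [hordζ, hq3]; exact Dvd.intro _ rfl), hordζ, hq3,
      Nat.mul_div_cancel_left _ (by omega)]
  have hunz : (n : ℤ) = (q : ℤ) ^ 2 + q + 1 := by rw [hn]; push_cast; ring
  have hq' : (3 : ℤ) ≤ q := by exact_mod_cast hq
  have hdvd : ∀ d : ℤ, u ^ d = 1 → (n : ℤ) ∣ d := fun d hd => by
    rw [← hordu]; exact orderOf_dvd_iff_zpow_eq_one.2 hd
  set l : K := (u : K) with hl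
  set l' : K := ((u⁻¹ : Kˣ) : K) with hl'
  have hll' : l * l' = 1 := by rw [hl, hl', ← Units.val_mul, mul_inv_cancel, Units.val_one]
  have hl'l : l' * l = 1 := by rw [mul_comm, hll']
  let ℓ := Algebra.leftMulMatrix b
  have hss' : ℓ l * ℓ l' = 1 := by rw [← map_mul, hll', map_one]
  have hs's : ℓ l' * ℓ l = 1 := by rw [← map_mul, hl'l, map_one]
  -- non-vanishing of the various values
  have hA : ∀ i : Fin 3, aeval (l * l' ^ (q ^ (i : ℕ))) (minpoly F l) ≠ 0 := by
    intro i h0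
    obtain ⟨r, hr⟩ := root_conj (p := p) h3 h0
    have e : u * (u⁻¹) ^ (q ^ (i : ℕ)) = u ^ (q ^ (r : ℕ)) := by
      apply Units.ext; simp only [Units.val_mul, Units.val_pow_eq_pow_val]; exact hr
    apply arA hq' i r
    rw [← hunz]
    apply hdvd
    have : u ^ ((1 : ℤ) - (q : ℤ) ^ (i : ℕ) - (q : ℤ) ^ (r : ℕ)) =
        u * (u⁻¹) ^ (q ^ (i : ℕ)) * (u ^ (q ^ (r : ℕ)))⁻¹ := by
      have e1 : ((1 : ℤ) - (q : ℤ) ^ (i : ℕ) - (q : ℤ) ^ (r : ℕ)) =
          1 - ((q ^ (i : ℕ) : ℕ) : ℤ) - ((q ^ (r : ℕ) : ℕ) : ℤ) := by push_cast; ring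
      rw [e1, _root_.zpow_sub, _root_.zpow_sub, zpow_one, zpow_natCast, zpow_natCast, inv_pow]
    rw [this, e, mul_inv_cancel]
  have hB : ∀ i : Fin 3, aeval (l * l' ^ (q ^ (i : ℕ))) (minpoly F l') ≠ 0 := by
    intro i h0
    obtain ⟨r, hr⟩ := root_conj (p := p) h3 h0
    have e : u * (u⁻¹) ^ (q ^ (i : ℕ)) = (u⁻¹) ^ (q ^ (r : ℕ)) := by
      apply Units.ext; simp only [Units.val_mul, Units.val_pow_eq_pow_val]; exact hr
    apply arB hq' i r
    rw [← hunz]
    apply hdvd
    have : u ^ ((1 : ℤ) - (q : ℤ) ^ (i : ℕ) + (q : ℤ) ^ (r : ℕ)) =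
        u * (u⁻¹) ^ (q ^ (i : ℕ)) * ((u⁻¹) ^ (q ^ (r : ℕ)))⁻¹ := by
      have e1 : ((1 : ℤ) - (q : ℤ) ^ (i : ℕ) + (q : ℤ) ^ (r : ℕ)) =
          1 - ((q ^ (i : ℕ) : ℕ) : ℤ) + ((q ^ (r : ℕ) : ℕ) : ℤ) := by push_cast; ring
      rw [e1, _root_.zpow_add, _root_.zpow_sub, zpow_one, zpow_natCast, zpow_natCast, inv_pow, inv_pow, inv_inv]
    rw [this, e, mul_inv_cancel]
  have hC : aeval l' (minpoly F l) ≠ 0 := by
    intro h0
    obtain ⟨r, hr⟩ := root_conj (p := p) h3 h0
    have e : u⁻¹ = u ^ (q ^ (r : ℕ)) := by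
      apply Units.ext; simp only [Units.val_mul, Units.val_pow_eq_pow_val]; exact hr
    apply arC hq' r
    rw [← hunz]
    apply hdvd
    have : u ^ ((1 : ℤ) + (q : ℤ) ^ (r : ℕ)) = u * u ^ (q ^ (r : ℕ)) := by
      have e1 : ((1 : ℤ) + (q : ℤ) ^ (r : ℕ)) = 1 + ((q ^ (r : ℕ) : ℕ) : ℤ) := by push_cast; ring
      rw [e1, _root_.zpow_add, zpow_one, zpow_natCast]
    rw [this, ← e, mul_inv_cancel]
  have hC' : aeval l (minpoly F l') ≠ 0 := by
    intro h0
    obtain ⟨r, hr⟩ := root_conj (p := p) h3 h0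
    have e : u = (u⁻¹) ^ (q ^ (r : ℕ)) := by
      apply Units.ext; simp only [Units.val_mul, Units.val_pow_eq_pow_val]; exact hr
    apply arC hq' r
    rw [← hunz]
    apply hdvd
    have : u ^ ((1 : ℤ) + (q : ℤ) ^ (r : ℕ)) = u * u ^ (q ^ (r : ℕ)) := by
      have e1 : ((1 : ℤ) + (q : ℤ) ^ (r : ℕ)) = 1 + ((q ^ (r : ℕ) : ℕ) : ℤ) := by push_cast; ring
      rw [e1, _root_.zpow_add, zpow_one, zpow_natCast]
    rw [this]
    nth_rewrite 1 [e]
    rw [inv_pow, inv_mul_cancel]
  have hD : ∀ i : Fin 3, i ≠ 0 → l ^ (q ^ (i : ℕ)) ≠ l := by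
    intro i hi h0
    have e : u ^ (q ^ (i : ℕ)) = u := by
      apply Units.ext; simp only [Units.val_pow_eq_pow_val]; exact h0
    apply arD hq' i hi
    rw [← hunz]
    apply hdvd
    have : u ^ ((q : ℤ) ^ (i : ℕ) - 1) = u ^ (q ^ (i : ℕ)) * u⁻¹ := by
      have e1 : ((q : ℤ) ^ (i : ℕ) - 1) = ((q ^ (i : ℕ) : ℕ) : ℤ) - 1 := by push_cast; ring
      rw [e1, _root_.zpow_sub, zpow_one, zpow_natCast]
    rw [this, e, mul_inv_cancel]
  have hpowl : l ^ n = 1 := by
    rw [hl, ← Units.val_pow_eq_pow_val, ← hordu, pow_orderOf_eq_one, Units.val_one]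
  have hnormpow : ∀ x : K, algebraMap F K (Algebra.norm F x) = x ^ n := by
    intro x
    rw [FiniteField.algebraMap_norm_eq_pow, hcardK, hcardF, hq3, Nat.mul_div_cancel_left _ (by omega)]
  have hdet : ∀ x : K, (ℓ x).det = Algebra.norm F x := fun x =>
    (Algebra.norm_eq_matrix_det b x).symm
  refine ⟨ℓ l, ℓ l', minpoly F l, minpoly F l', ?_, ?_, ?_, ?_⟩
  · refine ⟨hss', hs's, ?_, ?_, inj_of_form h3 b hA, ?_, ?_, inj_of_form h3 b hB⟩
    · rw [Polynomial.aeval_algHom_apply, minpoly.aeval, map_zero]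
    · have hu1 : IsUnit (ℓ (aeval l' (minpoly F l))) :=
        (isUnit_iff_ne_zero.2 hC).map ℓ
      have : aeval (ℓ l')ᵀ (minpoly F l) = (ℓ (aeval l' (minpoly F l)))ᵀ := by
        rw [aeval_transpose, Polynomial.aeval_algHom_apply]
      rw [this]
      exact Matrix.mulVec_injective_of_isUnit ((Matrix.isUnit_transpose _).2 hu1)
    · rw [aeval_transpose, Polynomial.aeval_algHom_apply, minpoly.aeval, map_zero,
        Matrix.transpose_zero]
    · have hu1 : IsUnit (ℓ (aeval l (minpoly F l'))) :=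
        (isUnit_iff_ne_zero.2 hC').map ℓ
      have : aeval (ℓ l) (minpoly F l') = ℓ (aeval l (minpoly F l')) := by
        rw [Polynomial.aeval_algHom_apply]
      rw [this]
      exact Matrix.mulVec_injective_of_isUnit hu1
  · rw [hdet]
    apply (algebraMap F K).injective
    rw [hnormpow, hpowl, map_one]
  · have h1 : orderOf (ℓ l) = orderOf l :=
      orderOf_injective (ℓ : K →* M3 F) (Algebra.leftMulMatrix_injective b) l
    rw [h1, hl, orderOf_units, hordu]
  · intro a hcomm hadet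
    obtain ⟨α, rfl⟩ := comm_lm h3 b hD hcomm
    rw [hdet] at hadet
    have hα : α ^ n = 1 := by
      rw [← hnormpow, hadet, map_one]
    have hα0 : α ≠ 0 := by
      rintro rfl
      rw [zero_pow (by omega)] at hα
      exact zero_ne_one hα
    have hv : ∃ t : ℕ, ζ ^ t = Units.mk0 α hα0 := mem_powers_iff_mem_zpowers.2 (hζ _)
    obtain ⟨t, ht⟩ := hv
    have hvn : ζ ^ (t * n) = 1 := by
      rw [pow_mul, ht]
      apply Units.ext
      simp [hα]
    have hdv : (q - 1) * n ∣ t * n := by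
      rw [← hq3, ← hordζ]
      exact orderOf_dvd_of_pow_eq_one hvn
    obtain ⟨k, rfl⟩ : (q - 1) ∣ t := Nat.dvd_of_mul_dvd_mul_right hnpos hdv
    refine ⟨k, ?_⟩
    have : α = l ^ k := by
      have e := congrArg (fun w : Kˣ => (w : K)) ht
      simp only [Units.val_mk0] at e
      rw [← e, pow_mul, ← hu]
      simp [hl]
    rw [this, map_pow]

/-- The data: a regular element of `SL₃(F)` of order `q² + q + 1`, self-centralizing in `SL₃(F)`. -/
theorem exists_data (hq : 3 ≤ Fintype.card F) :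
    ∃ (s s' : M3 F) (f f' : F[X]), Sep s s' f f' ∧ s.det = 1 ∧
      orderOf s = Fintype.card F ^ 2 + Fintype.card F + 1 ∧
      ∀ a : M3 F, a * s = s * a → a.det = 1 → ∃ k : ℕ, a = s ^ k := by
  obtain ⟨p, hp⟩ := CharP.exists F
  haveI : Fact p.Prime := ⟨CharP.char_is_prime F p⟩
  exact data_of (K := FiniteField.Extension F p 3) (p := p)
    (FiniteField.finrank_extension F p 3) hq

end Cfsg.Agent.Lib.Classical.Lin.G2Field
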