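import Mathlib

/-!
# The group of shape `3^{1+2}:SL₂(3)` from a frame

A multiplication table on `W × ZMod 3 × SL₂(3)`, and the proof that a group with a suitable
frame (generators `a`, `b`, `z` of the normal subgroup of order 27, an involution inverting
`a`, `b`, and a complement `L` centralizing that involution) realizes it.
-/

set_option autoImplicit false

namespace Cfsg.Agent.Lib.Classical.Lin.Heis648

/-- The plane. -/
abbrev W : Type := ZMod 3 × ZMod 3
/-- The linear group. -/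
abbrev SL2 : Type := Matrix.SpecialLinearGroup (Fin 2) (ZMod 3)

/-- The linear action on the plane. -/
def act (h : SL2) (v : W) : W :=
  (h 0 0 * v.1 + h 0 1 * v.2, h 1 0 * v.1 + h 1 1 * v.2)

/-- The symplectic form. -/
def om (v w : W) : ZMod 3 := v.1 * w.2 - v.2 * w.1

/-- The index set. -/
abbrev T : Type := W × ZMod 3 × SL2

/-- The multiplication table. -/
def tmul (s s' : T) : T :=
  (s.1 + act s.2.2 s'.1, s.2.1 + s'.2.1 + om s.1 (act s.2.2 s'.1), s.2.2 * s'.2.2)

theorem card_SL2 : Nat.card SL2 = 24 := by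
  rw [Nat.card_eq_fintype_card]; decide +kernel

theorem card_T : Nat.card T = 648 := by
  simp only [T, W, Nat.card_prod, card_SL2, Nat.card_zmod]

/-- Powers with exponent in `ZMod 3`. -/
abbrev pz {X : Type*} [Group X] (g : X) (i : ZMod 3) : X := g ^ i.val

section Pz
variable {X : Type*} [Group X]

theorem pz_add {g : X} (h : g ^ 3 = 1) (i j : ZMod 3) : pz g (i + j) = pz g i * pz g j := by
  unfold pz
  rw [ZMod.val_add, ← pow_add, ← pow_eq_pow_mod _ h]

theorem pz_mul {g : X} (h : g ^ 3 = 1) (i j : ZMod 3) : pz g (i * j) = g ^ (i.val * j.val) := by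
  unfold pz
  rw [ZMod.val_mul, ← pow_eq_pow_mod _ h]

theorem pz_zero (g : X) : pz g 0 = 1 := by simp [pz]

theorem pz_one (g : X) : pz g 1 = g := by
  have : (1 : ZMod 3).val = 1 := rfl
  simp [pz, this]

theorem pz_inj {g : X} (h : g ^ 3 = 1) (h1 : g ≠ 1) {i j : ZMod 3} (e : pz g i = pz g j) : i = j := by
  have ho : orderOf g = 3 := by
    haveI : Fact (Nat.Prime 3) := ⟨by norm_num⟩
    exact orderOf_eq_prime h h1
  have hi : i.val < orderOf g := by rw [ho]; exact ZMod.val_lt i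
  have hj : j.val < orderOf g := by rw [ho]; exact ZMod.val_lt j
  exact ZMod.val_injective 3 (pow_injOn_Iio_orderOf hi hj e)

end Pz

/-- The relations of the normal subgroup. -/
structure Rel {X : Type*} [Group X] (a b z : X) : Prop where
  a3 : a ^ 3 = 1
  b3 : b ^ 3 = 1
  z3 : z ^ 3 = 1
  z1 : z ≠ 1
  hz : b * a = z * a * b
  zc : ∀ x : X, x * z = z * x

/-- The normal form. -/
def nf {X : Type*} [Group X] (a b z : X) (i j k : ZMod 3) : X := pz a i * pz b j * pz z k

namespace Rel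
variable {X : Type*} [Group X] {a b z : X} (H : Rel a b z)
include H

theorem zcp (x : X) (n : ℕ) : x * z ^ n = z ^ n * x :=
  ((show Commute x z from H.zc x).pow_right n).eq

theorem b_ap (n : ℕ) : b * a ^ n = z ^ n * a ^ n * b := by
  induction n with
  | zero => simp
  | succ n ih =>
    calc b * a ^ (n + 1) = (b * a ^ n) * a := by rw [pow_succ, mul_assoc]
      _ = z ^ n * a ^ n * (b * a) := by rw [ih]; simp only [mul_assoc]
      _ = z ^ n * (a ^ n * z) * a * b := by rw [H.hz]; simp only [mul_assoc]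
      _ = z ^ n * (z * a ^ n) * a * b := by rw [H.zc]
      _ = _ := by rw [pow_succ z, pow_succ a]; simp only [mul_assoc]

theorem bp_ap (m n : ℕ) : b ^ m * a ^ n = z ^ (m * n) * a ^ n * b ^ m := by
  induction m with
  | zero => simp
  | succ m ih =>
    calc b ^ (m + 1) * a ^ n = b ^ m * (b * a ^ n) := by rw [pow_succ, mul_assoc]
      _ = b ^ m * (z ^ n * a ^ n * b) := by rw [H.b_ap]
      _ = (b ^ m * z ^ n) * a ^ n * b := by simp only [mul_assoc]
      _ = z ^ n * (b ^ m * a ^ n) * b := by rw [H.zcp]; simp only [mul_assoc]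
      _ = z ^ n * (z ^ (m * n) * a ^ n * b ^ m) * b := by rw [ih]
      _ = _ := by rw [Nat.succ_mul, add_comm (m * n), pow_add z, pow_succ b]; simp only [mul_assoc]

theorem nf_mul (i j k i' j' k' : ZMod 3) :
    nf a b z i j k * nf a b z i' j' k' = nf a b z (i + i') (j + j') (k + k' + j * i') := by
  unfold nf
  rw [pz_add H.a3, pz_add H.b3, pz_add H.z3, pz_add H.z3, pz_mul H.z3]
  unfold pz
  have e := H.bp_ap j.val i'.val
  have ca (m n : ℕ) : a ^ m * z ^ n = z ^ n * a ^ m := H.zcp _ _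
  have ca' (m n : ℕ) (y : X) : a ^ m * (z ^ n * y) = z ^ n * (a ^ m * y) := by
    rw [← mul_assoc, ca, mul_assoc]
  have cb (m n : ℕ) : b ^ m * z ^ n = z ^ n * b ^ m := H.zcp _ _
  have cb' (m n : ℕ) (y : X) : b ^ m * (z ^ n * y) = z ^ n * (b ^ m * y) := by
    rw [← mul_assoc, cb, mul_assoc]
  have zz (m n : ℕ) (y : X) : z ^ m * (z ^ n * y) = z ^ (m + n) * y := by
    rw [pow_add, mul_assoc]
  have zz0 (m n : ℕ) : z ^ m * z ^ n = z ^ (m + n) := (pow_add _ _ _).symm
  have e' (y : X) : b ^ j.val * (a ^ i'.val * y) = z ^ (j.val * i'.val) * (a ^ i'.val * (b ^ j.val * y)) := by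
    rw [← mul_assoc, e]; simp only [mul_assoc]
  simp only [mul_assoc, ca, ca', cb, cb', zz, zz0, e']
  congr 2
  ring

theorem pzc (x : X) (k : ZMod 3) : x * pz z k = pz z k * x := H.zcp _ _

theorem pz_z (k : ZMod 3) : nf a b z 0 0 k = pz z k := by
  simp [nf, pz_zero]

theorem nf_b_left (i j k : ZMod 3) :
    b * nf a b z i j k = nf a b z i j k * b * pz z i := by
  have e1 : nf a b z 0 1 0 = b := by simp [nf, pz_zero, pz_one]
  have h1 := H.nf_mul 0 1 0 i j k
  rw [e1] at h1
  have h2 := H.nf_mul i j k 0 1 0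
  rw [e1] at h2
  have h3 := H.nf_mul (i + 0) (j + 1) (k + 0 + j * 0) 0 0 i
  rw [H.pz_z] at h3
  rw [h1, h2, h3]
  congr 1 <;> ring

theorem nf_a_right (i j k : ZMod 3) :
    nf a b z i j k * a = a * nf a b z i j k * pz z j := by
  have e1 : nf a b z 1 0 0 = a := by simp [nf, pz_zero, pz_one]
  have h1 := H.nf_mul i j k 1 0 0
  rw [e1] at h1
  have h2 := H.nf_mul 1 0 0 i j k
  rw [e1] at h2
  have h3 := H.nf_mul (1 + i) (0 + j) (0 + k + 0 * i) 0 0 j
  rw [H.pz_z] at h3
  rw [h1, h2, h3]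
  congr 1 <;> ring

theorem nf_inj {i j k i' j' k' : ZMod 3} (h : nf a b z i j k = nf a b z i' j' k') :
    i = i' ∧ j = j' ∧ k = k' := by
  have h1 : i = i' := by
    have e1 := H.nf_b_left i j k
    have e2 := H.nf_b_left i' j' k'
    rw [← h] at e2
    exact pz_inj H.z3 H.z1 (mul_left_cancel (e1.symm.trans e2))
  have h2 : j = j' := by
    have e1 := H.nf_a_right i j k
    have e2 := H.nf_a_right i' j' k'
    rw [← h] at e2
    exact pz_inj H.z3 H.z1 (mul_left_cancel (e1.symm.trans e2))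
  subst h1 h2
  exact ⟨rfl, rfl, pz_inj H.z3 H.z1 (mul_left_cancel h)⟩

end Rel

/-- The section of the plane into the elements inverted by the involution. -/
def A {X : Type*} [Group X] (a b z : X) (v : W) : X := nf a b z v.1 v.2 (2 * v.1 * v.2)

namespace Rel
variable {X : Type*} [Group X] {a b z : X} (H : Rel a b z)
include H

theorem A_mul (v w : W) : A a b z v * A a b z w = A a b z (v + w) * pz z (om v w) := by
  rcases v with ⟨i, j⟩
  rcases w with ⟨k, l⟩
  unfold A om
  simp only [Prod.mk_add_mk]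
  rw [H.nf_mul, ← H.pz_z (i * l - j * k), H.nf_mul]
  have key : ∀ i j k l : ZMod 3, 2 * i * j + 2 * k * l + j * k
      = 2 * (i + k) * (j + l) + (i * l - j * k) + (j + l) * 0 := by decide
  rw [key i j k l]
  simp

theorem A_pz (v : W) (k : ZMod 3) : A a b z v * pz z k = nf a b z v.1 v.2 (2 * v.1 * v.2 + k) := by
  unfold A
  rw [← H.pz_z k, H.nf_mul]
  simp

theorem A_inj {v v' : W} {k k' : ZMod 3} (h : A a b z v * pz z k = A a b z v' * pz z k') :
    v = v' ∧ k = k' := by
  rw [H.A_pz, H.A_pz] at h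
  obtain ⟨h1, h2, h3⟩ := H.nf_inj h
  have e : v = v' := Prod.ext h1 h2
  subst e
  exact ⟨rfl, add_left_cancel h3⟩

theorem A_inj' {v v' : W} (h : A a b z v = A a b z v') : v = v' := by
  have := H.A_inj (v := v) (v' := v') (k := 0) (k' := 0) (by simpa [pz_zero] using h)
  exact this.1

theorem A_e1 : A a b z (1, 0) = a := by simp [A, nf, pz_zero, pz_one]
theorem A_e2 : A a b z (0, 1) = b := by simp [A, nf, pz_zero, pz_one]
theorem A_zero : A a b z 0 = 1 := by simp [A, nf, pz_zero]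

theorem A_inv (v : W) : (A a b z v)⁻¹ = A a b z (-v) := by
  have := H.A_mul v (-v)
  have h0 : om v (-v) = 0 := by
    unfold om
    simp only [Prod.fst_neg, Prod.snd_neg]
    ring
  rw [h0, add_neg_cancel, H.A_zero, pz_zero, one_mul] at this
  exact inv_eq_of_mul_eq_one_right this

theorem pz_neg {g : X} (h : g ^ 3 = 1) (i : ZMod 3) : pz g (-i) = (pz g i)⁻¹ := by
  have e := pz_add h (-i) i
  rw [neg_add_cancel, pz_zero] at e
  exact eq_inv_of_mul_eq_one_left e.symm

end Rel

/-- A frame. -/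
structure Fr {X : Type*} [Group X] (R L : Subgroup X) (a b z t : X) : Prop where
  rel : Rel a b z
  Rn : R.Normal
  Rnf : ∀ r ∈ R, ∃ i j k : ZMod 3, r = nf a b z i j k
  aR : a ∈ R
  bR : b ∈ R
  zR : z ∈ R
  ta : t * a * t⁻¹ = a⁻¹
  tb : t * b * t⁻¹ = b⁻¹
  Lt : ∀ l ∈ L, l * t = t * l
  LR : ∀ l ∈ L, l ∈ R → l = 1
  Lf : ∀ l ∈ L, l * a = a * l → l * b = b * l → l = 1
  Lc : Nat.card L = 24
  Xc : Nat.card X = 648

namespace Fr
variable {X : Type*} [Group X] {R L : Subgroup X} {a b z t : X} (F : Fr R L a b z t)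
include F

theorem t_pz_a (i : ZMod 3) : t * pz a i * t⁻¹ = pz a (-i) := by
  rw [Rel.pz_neg F.rel F.rel.a3]
  unfold pz
  rw [← conj_pow, F.ta, inv_pow]

theorem t_pz_b (i : ZMod 3) : t * pz b i * t⁻¹ = pz b (-i) := by
  rw [Rel.pz_neg F.rel F.rel.b3]
  unfold pz
  rw [← conj_pow, F.tb, inv_pow]

theorem t_pz_z (i : ZMod 3) : t * pz z i * t⁻¹ = pz z i := by
  rw [F.rel.pzc t i, mul_inv_cancel_right]

theorem t_nf (i j k : ZMod 3) : t * nf a b z i j k * t⁻¹ = nf a b z (-i) (-j) k := by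
  unfold nf
  calc t * (pz a i * pz b j * pz z k) * t⁻¹
      = (t * pz a i * t⁻¹) * (t * pz b j * t⁻¹) * (t * pz z k * t⁻¹) := by group
    _ = _ := by rw [F.t_pz_a, F.t_pz_b, F.t_pz_z]

theorem nf_inv (i j k : ZMod 3) : (nf a b z i j k)⁻¹ = nf a b z (-i) (-j) (j * i - k) := by
  apply inv_eq_of_mul_eq_one_right
  rw [F.rel.nf_mul]
  have e : k + (j * i - k) + j * -i = 0 := by ring
  rw [e]
  simp [nf, pz_zero]

theorem exists_A_of_inverted {r : X} (hr : r ∈ R) (h : t * r * t⁻¹ = r⁻¹) : ∃ v, r = A a b z v := by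
  obtain ⟨i, j, k, rfl⟩ := F.Rnf r hr
  rw [F.t_nf, F.nf_inv] at h
  obtain ⟨-, -, h3⟩ := F.rel.nf_inj h
  refine ⟨(i, j), ?_⟩
  have key : ∀ i j k : ZMod 3, k = j * i - k → k = 2 * i * j := by decide
  rw [key i j k h3]
  rfl

theorem A_inverted (v : W) : t * A a b z v * t⁻¹ = (A a b z v)⁻¹ := by
  unfold A
  rw [F.t_nf, F.nf_inv]
  congr 1
  have key : ∀ i j : ZMod 3, 2 * i * j = j * i - 2 * i * j := by decide
  exact key _ _

theorem A_mem (v : W) : A a b z v ∈ R := by
  unfold A nf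
  exact R.mul_mem (R.mul_mem (R.pow_mem F.aR _) (R.pow_mem F.bR _)) (R.pow_mem F.zR _)

theorem exists_gl (l : L) (v : W) : ∃ w, l.1 * A a b z v * l.1⁻¹ = A a b z w := by
  haveI := F.Rn
  apply F.exists_A_of_inverted (Subgroup.Normal.conj_mem ‹_› _ (F.A_mem v) _)
  have h1 : t * (l.1 * A a b z v * l.1⁻¹) * t⁻¹ = l.1 * (t * A a b z v * t⁻¹) * l.1⁻¹ := by
    have e := F.Lt l.1 l.2
    have e' : t⁻¹ * l.1 = l.1 * t⁻¹ := by
      rw [inv_mul_eq_iff_eq_mul, ← mul_assoc, ← e, mul_assoc, mul_inv_cancel, mul_one]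
    calc t * (l.1 * A a b z v * l.1⁻¹) * t⁻¹ = (t * l.1) * A a b z v * (t * l.1)⁻¹ := by
          group
      _ = (l.1 * t) * A a b z v * (l.1 * t)⁻¹ := by rw [e]
      _ = _ := by group
  rw [h1, F.A_inverted]
  group

/-- The map on the plane. -/
noncomputable def gl (l : L) (v : W) : W := Classical.choose (F.exists_gl l v)

theorem gl_spec (l : L) (v : W) : l.1 * A a b z v * l.1⁻¹ = A a b z (F.gl l v) :=
  Classical.choose_spec (F.exists_gl l v)

theorem conj_pz_z (l : X) (k : ZMod 3) : l * pz z k * l⁻¹ = pz z k := by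
  rw [F.rel.pzc l k, mul_inv_cancel_right]

theorem gl_add_om (l : L) (v w : W) :
    F.gl l (v + w) = F.gl l v + F.gl l w ∧ om (F.gl l v) (F.gl l w) = om v w := by
  have h := F.rel.A_mul v w
  have h' : l.1 * (A a b z v * A a b z w) * l.1⁻¹ = l.1 * (A a b z (v + w) * pz z (om v w)) * l.1⁻¹ := by
    rw [h]
  have e1 : l.1 * (A a b z v * A a b z w) * l.1⁻¹
      = (l.1 * A a b z v * l.1⁻¹) * (l.1 * A a b z w * l.1⁻¹) := by group
  have e2 : l.1 * (A a b z (v + w) * pz z (om v w)) * l.1⁻¹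
      = (l.1 * A a b z (v + w) * l.1⁻¹) * (l.1 * pz z (om v w) * l.1⁻¹) := by group
  rw [e1, e2, F.gl_spec, F.gl_spec, F.gl_spec, F.conj_pz_z, F.rel.A_mul] at h'
  obtain ⟨h1, h2⟩ := F.rel.A_inj h'
  exact ⟨h1.symm, h2⟩

theorem gl_zero (l : L) : F.gl l 0 = 0 := by
  have := (F.gl_add_om l 0 0).1
  simpa using this

theorem gl_smul (l : L) (c : ZMod 3) (v : W) : F.gl l (c • v) = c • F.gl l v := by
  have hc : ∀ c : ZMod 3, c = 0 ∨ c = 1 ∨ c = 2 := by decide
  rcases hc c with rfl | rfl | rfl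
  · simp [F.gl_zero]
  · simp
  · rw [two_smul, two_smul, (F.gl_add_om l v v).1]

theorem gl_eq (l : L) (v : W) :
    F.gl l v = (v.1 • F.gl l (1, 0)) + (v.2 • F.gl l (0, 1)) := by
  have e : v = v.1 • ((1, 0) : W) + v.2 • ((0, 1) : W) := by
    ext <;> simp
  conv_lhs => rw [e]
  rw [(F.gl_add_om l _ _).1, F.gl_smul, F.gl_smul]

/-- The matrix of the action. -/
noncomputable def mt (l : L) : SL2 :=
  ⟨!![(F.gl l (1, 0)).1, (F.gl l (0, 1)).1; (F.gl l (1, 0)).2, (F.gl l (0, 1)).2], by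
    rw [Matrix.det_fin_two_of]
    have := (F.gl_add_om l (1, 0) (0, 1)).2
    unfold om at this
    simp only [Prod.mk_add_mk, add_zero, zero_add] at this
    linear_combination this⟩

theorem act_mt (l : L) (v : W) : act (F.mt l) v = F.gl l v := by
  rw [F.gl_eq l v]
  ext
  · simp [act, mt, mul_comm]
  · simp [act, mt, mul_comm]

omit F in
theorem act_mul (h h' : SL2) (v : W) : act (h * h') v = act h (act h' v) := by
  unfold act
  simp only [Matrix.SpecialLinearGroup.coe_mul, Matrix.mul_apply, Fin.sum_univ_two]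
  ext <;> simp <;> ring

omit F in
theorem act_ext {h h' : SL2} (e : ∀ v, act h v = act h' v) : h = h' := by
  have e1 := e (1, 0)
  have e2 := e (0, 1)
  simp only [act, mul_one, mul_zero, add_zero, zero_add, Prod.mk.injEq] at e1 e2
  ext i j
  fin_cases i <;> fin_cases j
  · exact e1.1
  · exact e2.1
  · exact e1.2
  · exact e2.2

theorem gl_mul (l l' : L) (v : W) : F.gl (l * l') v = F.gl l (F.gl l' v) := by
  apply F.rel.A_inj'
  rw [← F.gl_spec, ← F.gl_spec, ← F.gl_spec]
  simp only [Subgroup.coe_mul]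
  group

/-- The action as a homomorphism. -/
noncomputable def rho : L →* SL2 :=
  MonoidHom.mk' F.mt (fun l l' => by
    apply act_ext
    intro v
    rw [act_mul, F.act_mt, F.act_mt, F.act_mt, F.gl_mul])

theorem rho_apply (l : L) (v : W) : act (F.rho l) v = F.gl l v := F.act_mt l v

theorem rho_injective : Function.Injective F.rho := by
  rw [injective_iff_map_eq_one]
  intro l hl
  have h1 (v : W) : F.gl l v = v := by
    rw [← F.rho_apply, hl]
    simp [act]
  have h2 (v : W) : l.1 * A a b z v = A a b z v * l.1 := by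
    have := F.gl_spec l v
    rw [h1] at this
    exact mul_inv_eq_iff_eq_mul.1 this
  have := F.Lf l.1 l.2 (by simpa [F.rel.A_e1] using h2 (1, 0)) (by simpa [F.rel.A_e2] using h2 (0, 1))
  exact Subtype.ext this

theorem finX : Finite X := Nat.finite_of_card_ne_zero (by rw [F.Xc]; norm_num)

theorem rho_bijective : Function.Bijective F.rho := by
  haveI := F.finX
  rw [Nat.bijective_iff_injective_and_card]
  exact ⟨F.rho_injective, by rw [F.Lc, card_SL2]⟩

/-- The inverse of the action. -/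
noncomputable def f2 : SL2 ≃* L := (MulEquiv.ofBijective F.rho F.rho_bijective).symm

theorem f2_conj (h : SL2) (v : W) :
    (F.f2 h).1 * A a b z v * (F.f2 h).1⁻¹ = A a b z (act h v) := by
  rw [F.gl_spec, ← F.rho_apply]
  congr 2
  exact (MulEquiv.ofBijective F.rho F.rho_bijective).apply_symm_apply h

/-- The map from the table. -/
noncomputable def ff (s : T) : X := A a b z s.1 * pz z s.2.1 * (F.f2 s.2.2).1

theorem ff_mul (s s' : T) : F.ff (tmul s s') = F.ff s * F.ff s' := by
  rcases s with ⟨v, k, h⟩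
  rcases s' with ⟨v', k', h'⟩
  unfold ff tmul
  simp only [map_mul, Subgroup.coe_mul]
  rw [pz_add F.rel.z3, pz_add F.rel.z3]
  have e1 := F.f2_conj h v'
  have e2 : (F.f2 h).1 * A a b z v' = A a b z (act h v') * (F.f2 h).1 := mul_inv_eq_iff_eq_mul.1 e1
  have hc := F.rel.A_mul v (act h v')
  calc A a b z (v + act h v') * (pz z k * pz z k' * pz z (om v (act h v'))) * ((F.f2 h).1 * (F.f2 h').1)
      = (A a b z (v + act h v') * pz z (om v (act h v'))) * (pz z k * pz z k') * ((F.f2 h).1 * (F.f2 h').1) := by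
        have c1 := F.rel.pzc (pz z k * pz z k') (om v (act h v'))
        simp only [mul_assoc]
        congr 1
        simp only [← mul_assoc]
        rw [c1]
        simp only [mul_assoc]
    _ = A a b z v * A a b z (act h v') * (pz z k * pz z k') * ((F.f2 h).1 * (F.f2 h').1) := by rw [hc]
    _ = A a b z v * pz z k * (A a b z (act h v') * (F.f2 h).1) * pz z k' * (F.f2 h').1 := by
        have c2 := F.rel.pzc (A a b z (act h v')) k
        have c3 := F.rel.pzc (F.f2 h).1 k'
        calc _ = A a b z v * (A a b z (act h v') * pz z k) * pz z k' * ((F.f2 h).1 * (F.f2 h').1) := by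
              simp only [mul_assoc]
          _ = A a b z v * (pz z k * A a b z (act h v')) * pz z k' * ((F.f2 h).1 * (F.f2 h').1) := by rw [c2]
          _ = A a b z v * pz z k * A a b z (act h v') * (pz z k' * (F.f2 h).1) * (F.f2 h').1 := by
              simp only [mul_assoc]
          _ = A a b z v * pz z k * A a b z (act h v') * ((F.f2 h).1 * pz z k') * (F.f2 h').1 := by rw [c3]
          _ = _ := by simp only [mul_assoc]
    _ = A a b z v * pz z k * ((F.f2 h).1 * A a b z v') * pz z k' * (F.f2 h').1 := by rw [e2]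
    _ = _ := by simp only [mul_assoc]

theorem ff_bijective : Function.Bijective F.ff := by
  haveI := F.finX
  rw [Nat.bijective_iff_injective_and_card]
  refine ⟨?_, by rw [card_T, F.Xc]⟩
  rintro ⟨v, k, h⟩ ⟨v', k', h'⟩ e
  unfold ff at e
  simp only at e
  have hR : A a b z v * pz z k ∈ R := R.mul_mem (F.A_mem v) (R.pow_mem F.zR _)
  have hR' : A a b z v' * pz z k' ∈ R := R.mul_mem (F.A_mem v') (R.pow_mem F.zR _)
  have e' : (F.f2 h).1 * ((F.f2 h').1)⁻¹ = (A a b z v * pz z k)⁻¹ * (A a b z v' * pz z k') := by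
    rw [eq_inv_mul_iff_mul_eq, ← mul_assoc, e]
    group
  have hL : (F.f2 h).1 * ((F.f2 h').1)⁻¹ ∈ L := L.mul_mem (F.f2 h).2 (L.inv_mem (F.f2 h').2)
  have h1 := F.LR _ hL (by rw [e']; exact R.mul_mem (R.inv_mem hR) hR')
  have h2 : (F.f2 h).1 = (F.f2 h').1 := mul_inv_eq_one.1 h1
  have h3 : h = h' := F.f2.injective (Subtype.ext h2)
  subst h3
  have h4 : A a b z v * pz z k = A a b z v' * pz z k' := mul_right_cancel e
  obtain ⟨rfl, rfl⟩ := F.rel.A_inj h4
  rfl

end Fr

end Cfsg.Agent.Lib.Classical.Lin.Heis648
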