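import Cfsg.Agent.Lib.Classical.Lin.Heis648
import Cfsg.Agent.Lib.Classical.Symp.SimpleMatrix
import Cfsg.Agent.Lib.Compute.SylA8.Main
import Cfsg.Prelude.Def_Classical

/-!
# The centralizer of a transvection in `PSp₄(3)` realizes the table
-/

set_option autoImplicit false

namespace Cfsg.Agent.Lib.Classical.Lin.Heis648Sp

open Matrix
open Cfsg.Agent.Lib.Classical.Lin.Heis648

section Gen
variable {F : Type*} [Field F]

/-- The index. -/
abbrev I4 : Type := Fin 2 ⊕ Fin 2

/-- The matrices of the centralizer of the transvection. -/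
def M (u1 u2 k a b c d : F) : Matrix I4 I4 F :=
  Matrix.fromBlocks !![1, c * u1 - a * u2; 0, a] !![k, d * u1 - b * u2; u1, b]
    !![0, 0; 0, c] !![1, 0; u2, d]

theorem M_mul (u1 u2 k a b c d u1' u2' k' a' b' c' d' : F) (h : a * d - b * c = 1) :
    M u1 u2 k a b c d * M u1' u2' k' a' b' c' d' =
      M (u1 + (a * u1' + b * u2')) (u2 + (c * u1' + d * u2'))
        (k + k' + (u1 * (c * u1' + d * u2') - u2 * (a * u1' + b * u2')))
        (a * a' + b * c') (a * b' + b * d') (c * a' + d * c') (c * b' + d * d') := by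
  ext (i | i) (j | j) <;> fin_cases i <;> fin_cases j <;>
    simp [M, Matrix.fromBlocks_multiply, Matrix.mul_fin_two] <;> grind

theorem M_mem (u1 u2 k a b c d : F) (h : a * d - b * c = 1) :
    M u1 u2 k a b c d ∈ Matrix.symplecticGroup (Fin 2) F := by
  rw [SymplecticGroup.mem_iff]
  ext (i | i) (j | j) <;> fin_cases i <;> fin_cases j <;>
    simp [M, Matrix.J, Matrix.mul_apply, Fintype.sum_sum_type, Fin.sum_univ_two, Matrix.one_apply] <;> grind

theorem M_one : M (0 : F) 0 0 1 0 0 1 = 1 := by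
  ext (i | i) (j | j) <;> fin_cases i <;> fin_cases j <;> simp [M]

/-- The shape of a matrix in the symplectic group commuting with the transvection. -/
theorem shape (g : Matrix I4 I4 F) (hg : g ∈ Matrix.symplecticGroup (Fin 2) F)
    (hc : g * M 0 0 1 1 0 0 1 = M 0 0 1 1 0 0 1 * g) (h1 : g (.inl 0) (.inl 0) = 1) :
    ∃ u1 u2 k a b c d : F, a * d - b * c = 1 ∧ g = M u1 u2 k a b c d := by
  rw [SymplecticGroup.mem_iff] at hg
  have E (p q : I4) := congrFun (congrFun hc p) q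
  have S (p q : I4) := congrFun (congrFun hg p) q
  have e1 := E (.inl 1) (.inr 0)
  have e2 := E (.inr 0) (.inr 0)
  have e3 := E (.inr 1) (.inr 0)
  have e4 := E (.inl 0) (.inr 0)
  have e5 := E (.inl 0) (.inl 1)
  have e6 := E (.inl 0) (.inr 1)
  have s1 := S (.inl 1) (.inr 1)
  have s2 := S (.inl 0) (.inl 1)
  have s3 := S (.inl 0) (.inr 1)
  simp [M, Matrix.J, Matrix.mul_apply, Fintype.sum_sum_type, Fin.sum_univ_two, Matrix.one_apply] at e1 e2 e3 e4 e5 e6 s1 s2 s3
  refine ⟨g (.inl 1) (.inr 0), g (.inr 1) (.inr 0), g (.inl 0) (.inr 0), g (.inl 1) (.inl 1),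
    g (.inl 1) (.inr 1), g (.inr 1) (.inl 1), g (.inr 1) (.inr 1), ?_, ?_⟩
  · rw [e1, e3] at s1
    linear_combination -s1
  · have hμ : g (.inr 0) (.inr 0) = 1 := by rw [h1] at e4; linear_combination -e4
    rw [e1, h1] at s2
    rw [e3, h1] at s3
    have hd : g (.inl 1) (.inl 1) * g (.inr 1) (.inr 1) - g (.inl 1) (.inr 1) * g (.inr 1) (.inl 1) = 1 := by
      rw [e1, e3] at s1
      linear_combination -s1
    ext (i | i) (j | j) <;> fin_cases i <;> fin_cases j <;> simp [M, h1, e1, e2, e3, e5, e6, hμ]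
    · grind
    · grind

/-- Elements with leading entry `±1` after commuting with the transvection. -/
theorem mu_sq (g : Matrix I4 I4 F) (hg : g ∈ Matrix.symplecticGroup (Fin 2) F)
    (hc : g * M 0 0 1 1 0 0 1 = M 0 0 1 1 0 0 1 * g) :
    g (.inl 0) (.inl 0) = 1 ∨ g (.inl 0) (.inl 0) = -1 := by
  rw [SymplecticGroup.mem_iff] at hg
  have E (p q : I4) := congrFun (congrFun hc p) q
  have S (p q : I4) := congrFun (congrFun hg p) q
  have e2 := E (.inr 0) (.inr 0)
  have e4 := E (.inl 0) (.inr 0)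
  have e5 := E (.inr 0) (.inl 1)
  have e6 := E (.inr 0) (.inr 1)
  have e7 := E (.inl 0) (.inl 1)
  have e8 := E (.inl 0) (.inr 1)
  have s1 := S (.inl 0) (.inr 0)
  simp [M, Matrix.J, Matrix.mul_apply, Fintype.sum_sum_type, Fin.sum_univ_two, Matrix.one_apply] at e2 e4 e5 e6 e7 e8 s1
  have hμ : g (.inr 0) (.inr 0) = g (.inl 0) (.inl 0) := by linear_combination -e4
  rw [e2, e7, e8, hμ] at s1
  have : (g (.inl 0) (.inl 0) - 1) * (g (.inl 0) (.inl 0) + 1) = 0 := by linear_combination -s1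
  rcases mul_eq_zero.1 this with h | h
  · left; linear_combination h
  · right; linear_combination h

end Gen

section Main
variable {F : Type*} [Field F] (ι : ZMod 3 ≃+* F)

theorem det_eq (h : SL2) : ι (h 0 0) * ι (h 1 1) - ι (h 0 1) * ι (h 1 0) = 1 := by
  have := h.2
  rw [Matrix.det_fin_two] at this
  rw [← map_mul, ← map_mul, ← map_sub, this, map_one]

/-- The matrix of an index. -/
def Sg (s : T) : Matrix.symplecticGroup (Fin 2) F :=
  ⟨M (ι s.1.1) (ι s.1.2) (ι s.2.1) (ι (s.2.2 0 0)) (ι (s.2.2 0 1)) (ι (s.2.2 1 0)) (ι (s.2.2 1 1)),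
    M_mem _ _ _ _ _ _ _ (det_eq ι s.2.2)⟩

theorem Sg_val (s : T) : (Sg ι s).1 =
    M (ι s.1.1) (ι s.1.2) (ι s.2.1) (ι (s.2.2 0 0)) (ι (s.2.2 0 1)) (ι (s.2.2 1 0)) (ι (s.2.2 1 1)) := rfl

theorem Sg_mul (s s' : T) : Sg ι (tmul s s') = Sg ι s * Sg ι s' := by
  apply Subtype.ext
  rcases s with ⟨⟨u1, u2⟩, k, h⟩
  rcases s' with ⟨⟨u1', u2'⟩, k', h'⟩
  change (Sg ι _).1 = (Sg ι _).1 * (Sg ι _).1
  rw [Sg_val, Sg_val, Sg_val]
  simp only []
  rw [M_mul _ _ _ _ _ _ _ _ _ _ _ _ _ _ (det_eq ι h)]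
  simp only [tmul, act, om, Prod.mk_add_mk, Matrix.SpecialLinearGroup.coe_mul, Matrix.mul_apply, Fin.sum_univ_two,
    map_add, map_mul, map_sub]

/-- The base index of the transvection. -/
def s0 : T := ((0, 0), 1, 1)

theorem Sg_one : Sg ι (((0, 0), 0, 1) : T) = 1 := by
  apply Subtype.ext
  rw [Sg_val]
  simp only [map_zero, Matrix.SpecialLinearGroup.coe_one, Matrix.one_apply_eq, map_one]
  have e1 : ((1 : Matrix (Fin 2) (Fin 2) (ZMod 3)) 0 1) = 0 := by decide
  have e2 : ((1 : Matrix (Fin 2) (Fin 2) (ZMod 3)) 1 0) = 0 := by decide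
  rw [e1, e2, map_zero]
  exact M_one

theorem Sg_s0 : (Sg ι s0).1 = M 0 0 1 1 0 0 1 := by
  rw [Sg_val]
  simp only [s0, map_zero, map_one, Matrix.SpecialLinearGroup.coe_one, Matrix.one_apply_eq]
  have e1 : ((1 : Matrix (Fin 2) (Fin 2) (ZMod 3)) 0 1) = 0 := by decide
  have e2 : ((1 : Matrix (Fin 2) (Fin 2) (ZMod 3)) 1 0) = 0 := by decide
  rw [e1, e2, map_zero]

theorem tmul_s0 (s : T) : tmul s s0 = tmul s0 s := by
  rcases s with ⟨⟨u1, u2⟩, k, h⟩
  simp only [tmul, s0, act, om, Prod.mk_add_mk]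
  have : ∀ (a b c d : ZMod 3), a * 0 + b * 0 = 0 := by decide
  ext <;> simp [add_comm]

include ι in
theorem two_ne : (2 : F) ≠ 0 := by
  intro h
  have h2 : ι 2 = 0 := by rw [map_ofNat]; exact h
  have : (2 : ZMod 3) = 0 := ι.injective (by rw [h2, map_zero])
  exact absurd this (by decide)

/-- The class of a symplectic matrix. -/
abbrev mkS (g : Matrix.symplecticGroup (Fin 2) F) : Cfsg.PSp 2 F := QuotientGroup.mk g

omit ι in
theorem mk_eq_iff (g g' : Matrix.symplecticGroup (Fin 2) F) : mkS g = mkS g' ↔ g.1 = g'.1 ∨ g.1 = -g'.1 := by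
  rw [mkS, QuotientGroup.eq, Cfsg.Agent.Lib.Classical.Symp.SimpleMatrix.center_symplectic_iff _ (by norm_num)]
  have h3 : g.1 * (g⁻¹).1 = 1 := congrArg Subtype.val (mul_inv_cancel g)
  have h4 : (g⁻¹).1 * g.1 = 1 := congrArg Subtype.val (inv_mul_cancel g)
  have h1 : (g⁻¹ * g').1 = (g⁻¹).1 * g'.1 := rfl
  rw [h1]
  constructor
  · rintro (h | h)
    · left
      calc g.1 = g.1 * ((g⁻¹).1 * g'.1) := by rw [h, mul_one]
        _ = (g.1 * (g⁻¹).1) * g'.1 := (mul_assoc _ _ _).symm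
        _ = g'.1 := by rw [h3, one_mul]
    · right
      calc g.1 = g.1 * (-((g⁻¹).1 * g'.1)) := by rw [h, neg_neg, mul_one]
        _ = -((g.1 * (g⁻¹).1) * g'.1) := by rw [mul_neg, mul_assoc]
        _ = -g'.1 := by rw [h3, one_mul]
  · rintro (h | h)
    · left; rw [← h, h4]
    · right
      have e : g'.1 = -g.1 := by rw [h, neg_neg]
      rw [e, mul_neg, h4]

/-- The transvection class. -/
abbrev cc : Cfsg.PSp 2 F := mkS (Sg ι s0)

theorem G_mem (s : T) : mkS (Sg ι s) ∈ Subgroup.centralizer ({cc ι} : Set (Cfsg.PSp 2 F)) := by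
  rw [Subgroup.mem_centralizer_singleton_iff, mkS, cc, mkS, ← QuotientGroup.mk_mul, ← QuotientGroup.mk_mul,
    ← Sg_mul, ← Sg_mul, tmul_s0]

/-- The map from the table to the centralizer. -/
def GG (s : T) : Subgroup.centralizer ({cc ι} : Set (Cfsg.PSp 2 F)) := ⟨mkS (Sg ι s), G_mem ι s⟩

theorem GG_mul (s s' : T) : GG ι (tmul s s') = GG ι s * GG ι s' := by
  apply Subtype.ext
  change mkS (Sg ι (tmul s s')) = mkS (Sg ι s) * mkS (Sg ι s')
  rw [Sg_mul]
  rfl

theorem GG_inj : Function.Injective (GG ι) := by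
  rintro ⟨⟨u1, u2⟩, k, h⟩ ⟨⟨u1', u2'⟩, k', h'⟩ e
  have e' : mkS (Sg ι ((u1, u2), k, h)) = mkS (Sg ι ((u1', u2'), k', h')) := congrArg Subtype.val e
  rw [mk_eq_iff, Sg_val, Sg_val] at e'
  rcases e' with e' | e'
  · have E (p q : I4) := congrFun (congrFun e' p) q
    have a1 := E (.inl 1) (.inr 0)
    have a2 := E (.inr 1) (.inr 0)
    have a3 := E (.inl 0) (.inr 0)
    have a4 := E (.inl 1) (.inl 1)
    have a5 := E (.inl 1) (.inr 1)
    have a6 := E (.inr 1) (.inl 1)
    have a7 := E (.inr 1) (.inr 1)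
    simp [M] at a1 a2 a3 a4 a5 a6 a7
    subst a1 a2 a3
    have : h = h' := by
      ext i j
      fin_cases i <;> fin_cases j
      · exact a4
      · exact a5
      · exact a6
      · exact a7
    rw [this]
  · exfalso
    have E := congrFun (congrFun e' (.inl 0)) (.inl 0)
    simp [M] at E
    apply two_ne ι
    linear_combination E

theorem s0_cube : tmul (tmul s0 s0) s0 = (((0, 0), 0, 1) : T) := by decide +kernel

theorem Sg_cube : Sg ι s0 * Sg ι s0 * Sg ι s0 = 1 := by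
  rw [← Sg_mul, ← Sg_mul, s0_cube, Sg_one]

/-- A pull back. -/
theorem exists_index (u1 u2 k a b c d : F) (h : a * d - b * c = 1) :
    ∃ s : T, (Sg ι s).1 = M u1 u2 k a b c d := by
  have hdet : (!![ι.symm a, ι.symm b; ι.symm c, ι.symm d] : Matrix (Fin 2) (Fin 2) (ZMod 3)).det = 1 := by
    rw [Matrix.det_fin_two_of, ← map_mul, ← map_mul, ← map_sub, h, map_one]
  refine ⟨((ι.symm u1, ι.symm u2), ι.symm k, ⟨_, hdet⟩), ?_⟩
  rw [Sg_val]
  simp

theorem not_anti (g : Matrix.symplecticGroup (Fin 2) F) (h : g.1 * (Sg ι s0).1 = -((Sg ι s0).1 * g.1)) : False := by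
  set G₀ := g.1 with hG₀
  set C₀ := (Sg ι s0).1 with hC₀
  have c3 : C₀ * C₀ * C₀ = 1 := congrArg Subtype.val (Sg_cube ι)
  have e : G₀ = -G₀ := by
    calc G₀ = G₀ * (C₀ * C₀ * C₀) := by rw [c3, mul_one]
      _ = (G₀ * C₀) * C₀ * C₀ := by simp only [mul_assoc]
      _ = (-(C₀ * G₀)) * C₀ * C₀ := by rw [h]
      _ = -(C₀ * (G₀ * C₀) * C₀) := by simp only [neg_mul, mul_assoc]
      _ = -(C₀ * (-(C₀ * G₀)) * C₀) := by rw [h]
      _ = (C₀ * C₀) * (G₀ * C₀) := by simp only [neg_mul, mul_neg, mul_assoc, neg_neg]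
      _ = (C₀ * C₀) * (-(C₀ * G₀)) := by rw [h]
      _ = -((C₀ * C₀ * C₀) * G₀) := by simp only [neg_mul, mul_neg, mul_assoc]
      _ = -G₀ := by rw [c3, one_mul]
  have hz : G₀ = 0 := by
    ext p q
    have := congrFun (congrFun e p) q
    simp only [Matrix.neg_apply] at this
    have h2 : 2 * G₀ p q = 0 := by linear_combination this
    simpa using (mul_eq_zero.1 h2).resolve_left (two_ne ι)
  have hg := SymplecticGroup.mem_iff.1 g.2
  rw [← hG₀, hz] at hg
  have := congrFun (congrFun hg (.inr 0)) (.inl 0)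
  simp [Matrix.J] at this

theorem GG_surj : Function.Surjective (GG ι) := by
  rintro ⟨x, hx⟩
  obtain ⟨g, rfl⟩ := QuotientGroup.mk_surjective x
  rw [Subgroup.mem_centralizer_singleton_iff] at hx
  have hx' : mkS (g * Sg ι s0) = mkS (Sg ι s0 * g) := hx
  rw [mk_eq_iff] at hx'
  rcases hx' with hx' | hx'
  · have hc : g.1 * M 0 0 1 1 0 0 1 = M 0 0 1 1 0 0 1 * g.1 := by
      rw [← Sg_s0 ι]; exact hx'
    rcases mu_sq g.1 g.2 hc with hμ | hμ
    · obtain ⟨u1, u2, k, a, b, c, d, hd, e⟩ := shape g.1 g.2 hc hμ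
      obtain ⟨s, hs⟩ := exists_index ι u1 u2 k a b c d hd
      refine ⟨s, Subtype.ext ?_⟩
      change mkS (Sg ι s) = mkS g
      rw [mk_eq_iff]
      left
      rw [hs, e]
    · have hneg : -g.1 ∈ Matrix.symplecticGroup (Fin 2) F := by
        rw [SymplecticGroup.mem_iff]
        have := SymplecticGroup.mem_iff.1 g.2
        simpa using this
      have hc' : (-g.1) * M 0 0 1 1 0 0 1 = M 0 0 1 1 0 0 1 * (-g.1) := by
        rw [neg_mul, mul_neg, hc]
      obtain ⟨u1, u2, k, a, b, c, d, hd, e⟩ := shape (-g.1) hneg hc' (by simp [hμ])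
      obtain ⟨s, hs⟩ := exists_index ι u1 u2 k a b c d hd
      refine ⟨s, Subtype.ext ?_⟩
      change mkS (Sg ι s) = mkS g
      rw [mk_eq_iff]
      right
      rw [hs, ← e]
  · exact (not_anti ι g hx').elim

theorem cc_order : orderOf (cc ι) = 3 := by
  haveI : Fact (Nat.Prime 3) := ⟨by norm_num⟩
  apply orderOf_eq_prime
  · rw [pow_succ, pow_two]
    change mkS (Sg ι s0 * Sg ι s0 * Sg ι s0) = _
    rw [Sg_cube]
    rfl
  · intro h
    have h1 : mkS (Sg ι s0) = mkS 1 := h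
    rw [mk_eq_iff, Sg_s0] at h1
    rcases h1 with h1 | h1
    · have := congrFun (congrFun h1 (.inl 0)) (.inr 0)
      simp [M] at this
    · have := congrFun (congrFun h1 (.inl 0)) (.inr 0)
      simp [M] at this

include ι in
/-- **The model.** -/
theorem model : ∃ c : Cfsg.PSp 2 F, orderOf c = 3 ∧
    ∃ G : T → Subgroup.centralizer ({c} : Set (Cfsg.PSp 2 F)),
      Function.Bijective G ∧ ∀ s s', G (tmul s s') = G s * G s' :=
  ⟨cc ι, cc_order ι, GG ι, ⟨GG_inj ι, GG_surj ι⟩, GG_mul ι⟩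

end Main

/-- The order of `PSp₄(F)`, `F` of order three. -/
theorem card_psp {F : Type*} [Field F] [Fintype F] (hF : Fintype.card F = 3) : Nat.card (Cfsg.PSp 2 F) = 25920 := by
  let e₂ : Cfsg.PSp 2 F ≃* Cfsg.PSp 2 Cfsg.Agent.Lib.Compute.PSU42.F3 :=
    QuotientGroup.congr _ _ (Cfsg.Agent.Lib.Compute.PSU42.spCongr' (Cfsg.Agent.Lib.Compute.PSU42.equivOfCard3 F hF))
      (Cfsg.Agent.Lib.Compute.SmallField.map_center_eq _)
  rw [Nat.card_congr e₂.toEquiv, Cfsg.Agent.Lib.Compute.SylA8.card_psp3]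

/-- A central element of order 3 in a subgroup of index prime to 3 lies in the centre of a Sylow subgroup. -/
theorem exists_sylow {G : Type*} [Group G] (hG : Nat.card G = 25920) (c : G) (hc : orderOf c = 3)
    (hC : Nat.card (Subgroup.centralizer ({c} : Set G)) = 648) :
    ∃ S : Sylow 3 G, c ∈ (S : Subgroup G) ∧ c ∈ Subgroup.centralizer ((S : Subgroup G) : Set G) := by
  haveI : Fact (Nat.Prime 3) := ⟨by norm_num⟩
  haveI : Finite G := Nat.finite_of_card_ne_zero (by rw [hG]; norm_num)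
  set C := Subgroup.centralizer ({c} : Set G) with hCdef
  obtain ⟨K, hK⟩ := Sylow.exists_subgroup_card_pow_prime (G := C) 3 (n := 4) (by rw [hC]; norm_num)
  have fC : (Nat.card C).factorization 3 = 4 := by
    rw [hC, show (648 : ℕ) = 3 ^ 4 * 8 by norm_num, Nat.factorization_mul (by norm_num) (by norm_num),
      Nat.Prime.factorization_pow (by norm_num)]
    simp [Nat.factorization_eq_zero_of_not_dvd (show ¬ 3 ∣ 8 by norm_num)]
  have fG : (Nat.card G).factorization 3 = 4 := by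
    rw [hG, show (25920 : ℕ) = 3 ^ 4 * 320 by norm_num, Nat.factorization_mul (by norm_num) (by norm_num),
      Nat.Prime.factorization_pow (by norm_num)]
    simp [Nat.factorization_eq_zero_of_not_dvd (show ¬ 3 ∣ 320 by norm_num)]
  let SK : Sylow 3 C := Sylow.ofCard K (by rw [hK, fC])
  have hcC : c ∈ C := by
    rw [hCdef, Subgroup.mem_centralizer_singleton_iff]
  let c' : C := ⟨c, hcC⟩
  have hcn : (Subgroup.zpowers c').Normal := by
    constructor
    intro n hn g
    have hcentral : ∀ g : C, g * c' = c' * g := by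
      intro g
      apply Subtype.ext
      exact Subgroup.mem_centralizer_singleton_iff.1 g.2
    obtain ⟨k, rfl⟩ := Subgroup.mem_zpowers_iff.1 hn
    have : g * c' ^ k * g⁻¹ = c' ^ k := by
      rw [((show Commute g c' from hcentral g).zpow_right k).eq, mul_inv_cancel_right]
    rw [this]
    exact Subgroup.zpow_mem_zpowers _ _
  have hp1 : IsPGroup 3 (Subgroup.zpowers c') := by
    apply IsPGroup.of_card (n := 1)
    rw [Nat.card_zpowers, pow_one]
    have : orderOf c' = orderOf c := Subgroup.orderOf_mk c hcC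
    rw [this, hc]
  have hp2 : IsPGroup 3 (K ⊔ Subgroup.zpowers c' : Subgroup C) :=
    IsPGroup.to_sup_of_normal_right (SK.isPGroup') hp1
  have hle : K ≤ SK := le_refl _
  have hmax := SK.is_maximal' hp2 le_sup_left
  have hcK : c' ∈ K := by
    have h1 : c' ∈ (K ⊔ Subgroup.zpowers c' : Subgroup C) :=
      (le_sup_right : Subgroup.zpowers c' ≤ _) (Subgroup.mem_zpowers c')
    rw [hmax] at h1
    exact h1
  let P : Subgroup G := K.map C.subtype
  have hPcard : Nat.card P = 3 ^ (Nat.card G).factorization 3 := by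
    rw [fG, ← hK]
    exact Nat.card_congr (K.equivMapOfInjective _ C.subtype_injective).symm.toEquiv
  refine ⟨Sylow.ofCard P hPcard, ?_, ?_⟩
  · exact ⟨c', hcK, rfl⟩
  · change c ∈ Subgroup.centralizer (P : Set G)
    rw [Subgroup.mem_centralizer_iff]
    rintro g ⟨g', -, rfl⟩
    exact Subgroup.mem_centralizer_singleton_iff.1 g'.2

end Cfsg.Agent.Lib.Classical.Lin.Heis648Sp
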