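import Cfsg.Agent.Lib.Classical.Lin.Heis648

/-!
# A frame in a group of shape `3^{1+2}.SL₂(3)`

We find the complement and the generators of a frame from the structural hypotheses.
-/

set_option autoImplicit false

namespace Cfsg.Agent.Lib.Classical.Lin.Heis648X

open Cfsg.Agent.Lib.Classical.Lin.Heis648

/-- The central involution of `SL₂(3)`. -/
def m1 : SL2 := ⟨!![2, 0; 0, 2], by decide⟩
theorem m1_ne : m1 ≠ 1 := by decide +kernel
theorem m1_cube : m1 ^ 3 = m1 := by decide +kernel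
theorem m1_sq : m1 ^ 2 = 1 := by decide +kernel
theorem m1_central : ∀ g : SL2, g * m1 = m1 * g := by decide +kernel
theorem sq2 : ∀ g : SL2, ∃ u v : SL2, g = u * u * (v * v) := by decide +kernel
theorem inv2 : ∀ g : SL2, g ^ 2 = 1 → g = 1 ∨ g = m1 := by decide +kernel
theorem nc : ∀ g : SL2, g ≠ 1 → g = m1 ∨ g ^ 2 = m1 ∨ g ^ 3 = m1 ∨ ∃ h : SL2, (g * h * g⁻¹ * h⁻¹) ^ 2 = m1 := by
  decide +kernel
theorem p84 : ∀ g : SL2, g ^ 8 = 1 → g ^ 4 = 1 := by decide +kernel
theorem q8mul : ∀ g h : SL2, g ^ 4 = 1 → h ^ 4 = 1 → (g * h) ^ 4 = 1 := by decide +kernel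
theorem q8inv : ∀ g : SL2, g ^ 4 = 1 → (g⁻¹) ^ 4 = 1 := by decide +kernel
theorem q8card : Nat.card {g : SL2 // g ^ 4 = 1} = 8 := by
  rw [Nat.card_eq_fintype_card, Fintype.card_subtype]
  decide +kernel
theorem p38 : ∀ g : SL2, g ^ 3 = 1 → g ^ 8 = 1 → g = 1 := by decide +kernel

/-- The subgroup of order eight. -/
def Q8 : Subgroup SL2 where
  carrier := {g | g ^ 4 = 1}
  mul_mem' := fun {a b} ha hb => q8mul a b ha hb
  one_mem' := one_pow _
  inv_mem' := fun {a} ha => q8inv a ha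

instance : Q8.Normal := by
  constructor
  intro n hn g
  change (g * n * g⁻¹) ^ 4 = 1
  rw [conj_pow, show n ^ 4 = 1 from hn]
  simp

variable {X : Type*} [Group X]

/-- The centre of `R`, inside the group. -/
def ZZ (R : Subgroup X) : Subgroup X := R ⊓ Subgroup.centralizer (R : Set X)

theorem mem_ZZ {R : Subgroup X} {w : X} : w ∈ ZZ R ↔ w ∈ R ∧ ∀ r ∈ R, r * w = w * r := by
  simp only [ZZ, Subgroup.mem_inf, Subgroup.mem_centralizer_iff, SetLike.mem_coe]

/-- The context. -/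
structure Ctx (R : Subgroup X) (π : X →* SL2) : Prop where
  Rn : R.Normal
  ker : ∀ x, π x = 1 ↔ x ∈ R
  surj : Function.Surjective π
  Rcard : Nat.card R = 27
  Xcard : Nat.card X = 648
  Rexp : ∀ r ∈ R, r ^ 3 = 1
  Zcard : Nat.card (ZZ R) = 3
  comm : ∀ r ∈ R, ∀ s ∈ R, r * s * r⁻¹ * s⁻¹ ∈ ZZ R
  noInv : ∀ u : X, (∀ x, x * u = u * x) → u ^ 2 = 1 → u = 1
  nonab : ∃ r ∈ R, ∃ s ∈ R, r * s ≠ s * r
  hE : ∃ E : Subgroup X, IsMulCommutative E ∧ (∀ a ∈ E, a ^ 3 = 1) ∧ Nat.card E = 27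

namespace Ctx
variable {R : Subgroup X} {π : X →* SL2} (C : Ctx R π)
include C

theorem one_of_sq {r : X} (hr : r ∈ R) (h : r ^ 2 = 1) : r = 1 := by
  have h3 := C.Rexp r hr
  rw [pow_succ, h, one_mul] at h3
  exact h3

theorem fin : Finite X := Nat.finite_of_card_ne_zero (by rw [C.Xcard]; norm_num)

theorem conj_mem_R {r : X} (hr : r ∈ R) (x : X) : x * r * x⁻¹ ∈ R := by
  haveI := C.Rn
  exact Subgroup.Normal.conj_mem ‹_› r hr x

theorem conj_mem_ZZ {w : X} (hw : w ∈ ZZ R) (x : X) : x * w * x⁻¹ ∈ ZZ R := by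
  rw [mem_ZZ] at hw ⊢
  refine ⟨C.conj_mem_R hw.1 x, fun r hr => ?_⟩
  have h1 := hw.2 (x⁻¹ * r * x) (by simpa using C.conj_mem_R hr x⁻¹)
  calc r * (x * w * x⁻¹) = x * ((x⁻¹ * r * x) * w) * x⁻¹ := by group
    _ = x * (w * (x⁻¹ * r * x)) * x⁻¹ := by rw [h1]
    _ = _ := by group

theorem ZZ_cases {w u : X} (hw : w ∈ ZZ R) (hw1 : w ≠ 1) (hu : u ∈ ZZ R) : u = 1 ∨ u = w ∨ u = w⁻¹ := by
  haveI := C.fin
  haveI : Fact (Nat.Prime 3) := ⟨by norm_num⟩
  have hw3 : w ^ 3 = 1 := C.Rexp w hw.1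
  have ho : orderOf w = 3 := orderOf_eq_prime hw3 hw1
  have hle : Subgroup.zpowers w ≤ ZZ R := by
    rw [Subgroup.zpowers_le]; exact hw
  have heq : Subgroup.zpowers w = ZZ R :=
    Subgroup.eq_of_le_of_card_ge hle (by rw [C.Zcard, Nat.card_zpowers, ho])
  rw [← heq] at hu
  obtain ⟨k, rfl⟩ := Subgroup.mem_zpowers_iff.1 hu
  have hk := zpow_mod_orderOf w k
  rw [ho] at hk
  have hk0 : (0 : ℤ) ≤ k % ((3 : ℕ) : ℤ) := Int.emod_nonneg _ (by norm_num)
  have hk3 : k % ((3 : ℕ) : ℤ) < 3 := Int.emod_lt_of_pos _ (by norm_num)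
  rw [← hk]
  generalize k % ((3 : ℕ) : ℤ) = m at hk0 hk3
  have hcases : m = 0 ∨ m = 1 ∨ m = 2 := by omega
  rcases hcases with rfl | rfl | rfl
  · left; simp
  · right; left; simp
  · right; right
    rw [eq_inv_iff_mul_eq_one, zpow_two, ← hw3, pow_succ, pow_two]

theorem Zcentral {w : X} (hw : w ∈ ZZ R) (x : X) : x * w = w * x := by
  by_cases hw1 : w = 1
  · simp [hw1]
  have hsq (y : X) : (y * y) * w = w * (y * y) := by
    have hu := C.ZZ_cases hw hw1 (C.conj_mem_ZZ hw y)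
    have hne : y * w * y⁻¹ ≠ 1 := by
      intro h
      apply hw1
      have : y⁻¹ * (y * w * y⁻¹) * y = y⁻¹ * 1 * y := by rw [h]
      simpa [mul_assoc] using this
    rcases hu with hu | hu | hu
    · exact (hne hu).elim
    · have e : y * w = w * y := mul_inv_eq_iff_eq_mul.1 hu
      calc y * y * w = y * (y * w) := mul_assoc _ _ _
        _ = y * (w * y) := by rw [e]
        _ = (y * w) * y := (mul_assoc _ _ _).symm
        _ = (w * y) * y := by rw [e]
        _ = _ := mul_assoc _ _ _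
    · have e1 : y * w = w⁻¹ * y := mul_inv_eq_iff_eq_mul.1 hu
      have e2 : y * w⁻¹ = w * y := by
        have := congrArg (fun v => v⁻¹) hu
        simp only [mul_inv_rev, inv_inv, mul_assoc] at this
        have h3 : y * (w⁻¹ * y⁻¹) = w := this
        calc y * w⁻¹ = y * (w⁻¹ * y⁻¹) * y := by group
          _ = w * y := by rw [h3]
      calc y * y * w = y * (y * w) := mul_assoc _ _ _
        _ = y * (w⁻¹ * y) := by rw [e1]
        _ = (y * w⁻¹) * y := (mul_assoc _ _ _).symm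
        _ = (w * y) * y := by rw [e2]
        _ = _ := mul_assoc _ _ _
  obtain ⟨u, v, huv⟩ := sq2 (π x)
  obtain ⟨u', rfl⟩ := C.surj u
  obtain ⟨v', rfl⟩ := C.surj v
  have hr : (u' * u' * (v' * v'))⁻¹ * x ∈ R := by
    rw [← C.ker, map_mul, map_inv, map_mul, map_mul, map_mul, huv]
    group
  have hrw := (mem_ZZ.1 hw).2 _ hr
  have e : x = (u' * u') * ((v' * v') * ((u' * u' * (v' * v'))⁻¹ * x)) := by group
  rw [e]
  generalize (u' * u' * (v' * v'))⁻¹ * x = r at hrw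
  calc u' * u' * (v' * v' * r) * w = (u' * u') * ((v' * v') * (r * w)) := by simp only [mul_assoc]
    _ = (u' * u') * ((v' * v') * (w * r)) := by rw [hrw]
    _ = (u' * u') * (((v' * v') * w) * r) := by simp only [mul_assoc]
    _ = (u' * u') * ((w * (v' * v')) * r) := by rw [hsq v']
    _ = ((u' * u') * w) * ((v' * v') * r) := by simp only [mul_assoc]
    _ = (w * (u' * u')) * ((v' * v') * r) := by rw [hsq u']
    _ = _ := by simp only [mul_assoc]

/-- The centralizer of `R` lies in `R`. -/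
theorem cent_le {d : X} (hd : ∀ r ∈ R, d * r = r * d) : d ∈ R := by
  by_contra hdR
  have hd1 : π d ≠ 1 := fun h => hdR ((C.ker d).1 h)
  let D : Subgroup X := Subgroup.centralizer (R : Set X)
  have hdD : d ∈ D := by
    rw [Subgroup.mem_centralizer_iff]
    intro r hr
    exact (hd r hr).symm
  have hconj {u : X} (hu : u ∈ D) (x : X) : x * u * x⁻¹ ∈ D := by
    rw [Subgroup.mem_centralizer_iff] at hu ⊢
    intro r hr
    have h1 := hu (x⁻¹ * r * x) (by simpa using C.conj_mem_R hr x⁻¹)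
    calc r * (x * u * x⁻¹) = x * ((x⁻¹ * r * x) * u) * x⁻¹ := by group
      _ = x * (u * (x⁻¹ * r * x)) * x⁻¹ := by rw [h1]
      _ = _ := by group
  have hm : ∃ d' ∈ D, π d' = m1 := by
    rcases nc (π d) hd1 with h | h | h | ⟨h, h'⟩
    · exact ⟨d, hdD, h⟩
    · exact ⟨d ^ 2, D.pow_mem hdD 2, by rw [map_pow, h]⟩
    · exact ⟨d ^ 3, D.pow_mem hdD 3, by rw [map_pow, h]⟩
    · obtain ⟨h0, rfl⟩ := C.surj h
      refine ⟨(d * (h0 * d⁻¹ * h0⁻¹)) ^ 2, D.pow_mem (D.mul_mem hdD (hconj (D.inv_mem hdD) h0)) 2, ?_⟩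
      rw [map_pow, map_mul, map_mul, map_mul, map_inv, map_inv, ← h']
      congr 1
      group
  obtain ⟨d', hd'D, hd'⟩ := hm
  have hsqR : d' ^ 2 ∈ R := by
    rw [← C.ker, map_pow, hd', m1_sq]
  have ht1D : d' ^ 3 ∈ D := D.pow_mem hd'D 3
  have hpt : π (d' ^ 3) = m1 := by rw [map_pow, hd', m1_cube]
  have ht2 : (d' ^ 3) ^ 2 = 1 := by
    have := C.Rexp _ hsqR
    rw [← pow_mul] at this ⊢
    exact this
  generalize d' ^ 3 = t₁ at ht1D hpt ht2
  have hcentral (x : X) : x * t₁ = t₁ * x := by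
    set w := x * t₁ * x⁻¹ * t₁⁻¹ with hw
    have hwR : w ∈ R := by
      rw [← C.ker, hw, map_mul, map_mul, map_mul, map_inv, map_inv, hpt]
      rw [(m1_central (π x))]
      group
    have hcomm : t₁ * w = w * t₁ := (Subgroup.mem_centralizer_iff.1 ht1D w hwR).symm
    have hconj' : x * t₁ * x⁻¹ = w * t₁ := by rw [hw]; group
    have hsq : (w * t₁) ^ 2 = 1 := by
      rw [← hconj', conj_pow, ht2]; group
    have hw2 : w ^ 2 = 1 := by
      have e : (w * t₁) ^ 2 = w ^ 2 * t₁ ^ 2 := by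
        rw [pow_two, pow_two, pow_two]
        calc w * t₁ * (w * t₁) = w * (t₁ * w) * t₁ := by group
          _ = w * (w * t₁) * t₁ := by rw [hcomm]
          _ = _ := by group
      rw [e, ht2, mul_one] at hsq
      exact hsq
    have hw1 := C.one_of_sq hwR hw2
    have : x * t₁ * x⁻¹ = t₁ := by rw [hconj', hw1, one_mul]
    exact mul_inv_eq_iff_eq_mul.1 this
  have ht1 := C.noInv t₁ hcentral ht2
  rw [ht1, map_one] at hpt
  exact m1_ne hpt.symm

/-- The relations give normal forms for all of `R`. -/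
theorem nf_surj {a b z : X} (H : Rel a b z) (ha : a ∈ R) (hb : b ∈ R) (hz : z ∈ R) (r : X) (hr : r ∈ R) :
    ∃ i j k : ZMod 3, r = nf a b z i j k := by
  haveI := C.fin
  let f : ZMod 3 × ZMod 3 × ZMod 3 → R := fun p => ⟨nf a b z p.1 p.2.1 p.2.2,
    R.mul_mem (R.mul_mem (R.pow_mem ha _) (R.pow_mem hb _)) (R.pow_mem hz _)⟩
  have hf : Function.Injective f := by
    rintro ⟨i, j, k⟩ ⟨i', j', k'⟩ e
    obtain ⟨rfl, rfl, rfl⟩ := H.nf_inj (congrArg Subtype.val e)
    rfl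
  have hb' := (Nat.bijective_iff_injective_and_card f).2 ⟨hf, by
    rw [C.Rcard]; simp only [Nat.card_prod, Nat.card_zmod]⟩
  obtain ⟨⟨i, j, k⟩, e⟩ := hb'.2 ⟨r, hr⟩
  exact ⟨i, j, k, (congrArg Subtype.val e).symm⟩

theorem comm_nf {u a b z : X} (ha : u * a = a * u) (hb : u * b = b * u) (hz : u * z = z * u) (i j k : ZMod 3) :
    u * nf a b z i j k = nf a b z i j k * u := by
  have c1 : Commute u (a ^ i.val) := (show Commute u a from ha).pow_right _
  have c2 : Commute u (b ^ j.val) := (show Commute u b from hb).pow_right _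
  have c3 : Commute u (z ^ k.val) := (show Commute u z from hz).pow_right _
  exact ((c1.mul_right c2).mul_right c3).eq

theorem comm_mem {r s : X} (hr : r ∈ R) (hs : s ∈ R) : r * s = (r * s * r⁻¹ * s⁻¹) * s * r := by
  group

/-- Swapping two elements of `R` costs a central factor. -/
theorem swap {r s : X} (hr : r ∈ R) (hs : s ∈ R) : ∃ w ∈ ZZ R, s * r = r * s * w := by
  refine ⟨s⁻¹ * r⁻¹ * s * r, ?_, by group⟩
  have := C.comm _ (R.inv_mem hs) _ (R.inv_mem hr)
  simpa using this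

end Ctx

/-- The data of an involution in a Sylow 2-subgroup. -/
structure Inv (R : Subgroup X) (π : X →* SL2) (P : Subgroup X) (t : X) : Prop where
  ctx : Ctx R π
  tP : t ∈ P
  t2 : t * t = 1
  t1 : t ≠ 1
  PR : ∀ q ∈ P, q ∈ R → q = 1
  P8 : ∀ q ∈ P, q ^ 8 = 1

namespace Inv
variable {R : Subgroup X} {π : X →* SL2} {P : Subgroup X} {t : X} (I : Inv R π P t)
include I

theorem tinv : t⁻¹ = t := inv_eq_of_mul_eq_one_left I.t2

/-- The element `r (t r t)` is fixed by `t`. -/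
theorem s_fixed {r : X} (hr : r ∈ R) : t * (r * (t * r * t⁻¹)) * t⁻¹ = r * (t * r * t⁻¹) := by
  have C := I.ctx
  have hr' : t * r * t⁻¹ ∈ R := C.conj_mem_R hr t
  set r' := t * r * t⁻¹ with hr'd
  have e1 : t * r' * t⁻¹ = r := by
    rw [hr'd, I.tinv]
    calc t * (t * r * t) * t = (t * t) * r * (t * t) := by group
      _ = r := by rw [I.t2]; group
  obtain ⟨w, hw, e2⟩ := C.swap hr hr'
  have e3 : t * (r * r') * t⁻¹ = (r * r') * w := by
    calc t * (r * r') * t⁻¹ = (t * r * t⁻¹) * (t * r' * t⁻¹) := by group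
      _ = r' * r := by rw [e1]
      _ = _ := e2
  have e4 : t * (t * (r * r') * t⁻¹) * t⁻¹ = r * r' := by
    rw [I.tinv]
    calc t * (t * (r * r') * t) * t = (t * t) * (r * r') * (t * t) := by group
      _ = _ := by rw [I.t2]; group
  have e5 : t * w * t⁻¹ = w := by
    rw [C.Zcentral hw t, mul_inv_cancel_right]
  have e6 : t * ((r * r') * w) * t⁻¹ = (r * r') * w * w := by
    calc t * ((r * r') * w) * t⁻¹ = (t * (r * r') * t⁻¹) * (t * w * t⁻¹) := by group
      _ = _ := by rw [e3, e5]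
  rw [e3, e6] at e4
  have e7 : w ^ 2 = 1 := by
    have : r * r' * (w * w) = r * r' * 1 := by
      rw [mul_one]; rw [← mul_assoc]; exact e4
    rw [pow_two]
    exact mul_left_cancel this
  have hw1 := C.one_of_sq hw.1 e7
  rw [e3, hw1, mul_one]

theorem fixed_Z {c : X} (hc : c ∈ R) (htc : t * c * t⁻¹ = c) : c ∈ ZZ R := by
  have C := I.ctx
  by_contra hc'
  have hex : ∃ r ∈ R, r * c ≠ c * r := by
    by_contra hall
    push Not at hall
    exact hc' (mem_ZZ.2 ⟨hc, hall⟩)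
  obtain ⟨r, hr, hrc⟩ := hex
  have hr' : t * r * t⁻¹ ∈ R := C.conj_mem_R hr t
  set r' := t * r * t⁻¹ with hr'd
  have hfix := I.s_fixed hr
  rw [← hr'd] at hfix
  have hsR : r * r' ∈ R := R.mul_mem hr hr'
  set s := r * r' with hsd
  have hζ : r * c * r⁻¹ * c⁻¹ ∈ ZZ R := C.comm r hr c hc
  set ζ := r * c * r⁻¹ * c⁻¹ with hζd
  have e1 : r * c = ζ * c * r := by rw [hζd]; group
  have hζ1 : ζ ≠ 1 := by
    intro h
    rw [h, one_mul] at e1
    exact hrc e1
  have e2 : r' * c = ζ * c * r' := by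
    have h1 : t * (r * c) * t⁻¹ = r' * c := by
      calc t * (r * c) * t⁻¹ = (t * r * t⁻¹) * (t * c * t⁻¹) := by group
        _ = r' * c := by rw [htc]
    have h2 : t * (ζ * c * r) * t⁻¹ = ζ * c * r' := by
      have h3 : t * ζ * t⁻¹ = ζ := by rw [C.Zcentral hζ t, mul_inv_cancel_right]
      calc t * (ζ * c * r) * t⁻¹ = (t * ζ * t⁻¹) * (t * c * t⁻¹) * (t * r * t⁻¹) := by group
        _ = _ := by rw [h3, htc]
    rw [← h1, e1, h2]
  have e3 : s * c = (ζ * ζ) * c * s := by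
    calc s * c = r * (r' * c) := by rw [hsd, mul_assoc]
      _ = r * (ζ * c * r') := by rw [e2]
      _ = (r * ζ) * c * r' := by simp only [mul_assoc]
      _ = (ζ * r) * c * r' := by rw [C.Zcentral hζ r]
      _ = ζ * (r * c) * r' := by simp only [mul_assoc]
      _ = ζ * (ζ * c * r) * r' := by rw [e1]
      _ = _ := by rw [hsd]; simp only [mul_assoc]
  have hz0 : ζ * ζ ∈ ZZ R := (ZZ R).mul_mem hζ hζ
  have hz1 : ζ * ζ ≠ 1 := by
    intro h
    apply hζ1
    exact C.one_of_sq hζ.1 (by rw [pow_two]; exact h)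
  have H : Rel c s (ζ * ζ) :=
    { a3 := C.Rexp c hc
      b3 := C.Rexp s hsR
      z3 := C.Rexp _ hz0.1
      z1 := hz1
      hz := e3
      zc := fun x => C.Zcentral hz0 x }
  have hd : ∀ r ∈ R, t * r = r * t := by
    intro r hr
    obtain ⟨i, j, k, rfl⟩ := C.nf_surj H hc hsR hz0.1 r hr
    exact C.comm_nf (mul_inv_eq_iff_eq_mul.1 htc) (mul_inv_eq_iff_eq_mul.1 hfix) (C.Zcentral hz0 t) i j k
  exact I.t1 (I.PR t I.tP (C.cent_le hd))

theorem s_mem {r : X} (hr : r ∈ R) : r * (t * r * t⁻¹) ∈ ZZ R :=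
  I.fixed_Z (R.mul_mem hr (I.ctx.conj_mem_R hr t)) (I.s_fixed hr)

/-- The element `r * s` is inverted by `t`. -/
theorem inverted {r : X} (hr : r ∈ R) :
    t * (r * (r * (t * r * t⁻¹))) * t⁻¹ = (r * (r * (t * r * t⁻¹)))⁻¹ := by
  have C := I.ctx
  have hs := I.s_mem hr
  have hfix := I.s_fixed hr
  set s := r * (t * r * t⁻¹) with hsd
  have hr' : t * r * t⁻¹ = r⁻¹ * s := by rw [hsd]; group
  have h3 : s ^ 3 = 1 := C.Rexp s hs.1
  have h4 : s * s = s⁻¹ := by
    rw [eq_inv_iff_mul_eq_one, ← h3, pow_succ, pow_two]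
  calc t * (r * s) * t⁻¹ = (t * r * t⁻¹) * (t * s * t⁻¹) := by group
    _ = r⁻¹ * s * s := by rw [hfix, hr']
    _ = r⁻¹ * (s * s) := mul_assoc _ _ _
    _ = r⁻¹ * s⁻¹ := by rw [h4]
    _ = s⁻¹ * r⁻¹ := by
        have := C.Zcentral ((ZZ R).inv_mem hs) r⁻¹
        exact this
    _ = _ := by group

end Inv

/-- The complement. -/
def Lsub (P : Subgroup X) (y : X) (hP : ∀ n : ℕ, ∀ q ∈ P, y ^ n * q * (y ^ n)⁻¹ ∈ P) (h3 : y ^ 3 = 1) :
    Subgroup X where
  carrier := {g | ∃ q ∈ P, ∃ i : ℕ, g = q * y ^ i}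
  mul_mem' := by
    rintro _ _ ⟨q, hq, i, rfl⟩ ⟨q', hq', j, rfl⟩
    exact ⟨q * (y ^ i * q' * (y ^ i)⁻¹), P.mul_mem hq (hP i q' hq'), i + j, by rw [pow_add]; group⟩
  one_mem' := ⟨1, P.one_mem, 0, by simp⟩
  inv_mem' := by
    rintro _ ⟨q, hq, i, rfl⟩
    refine ⟨y ^ (2 * i) * q⁻¹ * (y ^ (2 * i))⁻¹, hP _ _ (P.inv_mem hq), 2 * i, ?_⟩
    have e : (y ^ i)⁻¹ = y ^ (2 * i) := by
      rw [inv_eq_iff_mul_eq_one, ← pow_add]
      have : i + 2 * i = 3 * i := by ring
      rw [this, pow_mul, h3, one_pow]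
    rw [mul_inv_rev, e]
    group

theorem mem_Lsub {P : Subgroup X} {y : X} {hP : ∀ n : ℕ, ∀ q ∈ P, y ^ n * q * (y ^ n)⁻¹ ∈ P} {h3 : y ^ 3 = 1} {g : X} :
    g ∈ Lsub P y hP h3 ↔ ∃ q ∈ P, ∃ i : ℕ, g = q * y ^ i := Iff.rfl

/-- From the lift to the frame. -/
theorem frame_of_lift {R : Subgroup X} {π : X →* SL2} {P : Subgroup X} {t : X} (I : Inv R π P t)
    (hPc : Nat.card P = 8) (hPt : ∀ q ∈ P, q * t = t * q)
    {x y a : X} (hxR : x ∉ R) (haR : a ∈ R) (haZ : a ∉ ZZ R) (hxa : x * a = a * x) (hx3 : x ^ 3 = 1)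
    (hyx : π y = π x) (hyt : y * t = t * y) (hyP : ∀ q ∈ P, y * q * y⁻¹ ∈ P) :
    ∃ L a₀ b z, Fr R L a₀ b z t := by
  have C := I.ctx
  haveI := C.fin
  haveI := C.Rn
  have hs := I.s_mem haR
  have hinv := I.inverted haR
  set s := a * (t * a * t⁻¹) with hsd
  set a₀ := a * s with ha₀d
  have ha₀R : a₀ ∈ R := R.mul_mem haR hs.1
  have ha₀Z : a₀ ∉ ZZ R := by
    intro h
    apply haZ
    have : a = a₀ * s⁻¹ := by rw [ha₀d]; group
    rw [this]
    exact (ZZ R).mul_mem h ((ZZ R).inv_mem hs)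
  have hxa₀ : x * a₀ = a₀ * x := by
    calc x * a₀ = (x * a) * s := by rw [ha₀d, mul_assoc]
      _ = a * (x * s) := by rw [hxa, mul_assoc]
      _ = a * (s * x) := by rw [C.Zcentral hs x]
      _ = _ := (mul_assoc a s x).symm
  have hex : ∃ r ∈ R, r * a₀ ≠ a₀ * r := by
    by_contra hall
    push Not at hall
    exact ha₀Z (mem_ZZ.2 ⟨ha₀R, hall⟩)
  obtain ⟨r₁, hr₁, hr₁a⟩ := hex
  have hs₁ := I.s_mem hr₁
  have hinv₁ := I.inverted hr₁
  set s₁ := r₁ * (t * r₁ * t⁻¹) with hs₁d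
  set b := r₁ * s₁ with hbd
  have hbR : b ∈ R := R.mul_mem hr₁ hs₁.1
  have hz := C.comm r₁ hr₁ a₀ ha₀R
  set z := r₁ * a₀ * r₁⁻¹ * a₀⁻¹ with hzd
  have hz1 : z ≠ 1 := by
    intro h
    apply hr₁a
    have : r₁ * a₀ = z * a₀ * r₁ := by rw [hzd]; group
    rw [this, h, one_mul]
  have hba : b * a₀ = z * a₀ * b := by
    calc b * a₀ = r₁ * (s₁ * a₀) := by rw [hbd, mul_assoc]
      _ = r₁ * (a₀ * s₁) := by rw [← C.Zcentral hs₁ a₀]
      _ = (r₁ * a₀) * s₁ := (mul_assoc _ _ _).symm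
      _ = (z * a₀ * r₁) * s₁ := by
          congr 1
          rw [hzd]; group
      _ = _ := by rw [hbd]; simp only [mul_assoc]
  have H : Rel a₀ b z :=
    { a3 := C.Rexp _ ha₀R
      b3 := C.Rexp _ hbR
      z3 := C.Rexp _ hz.1
      z1 := hz1
      hz := hba
      zc := fun x => C.Zcentral hz x }
  have hr : x⁻¹ * y ∈ R := by
    rw [← C.ker, map_mul, map_inv, hyx, inv_mul_cancel]
  set r := x⁻¹ * y with hrd
  have hy : y = x * r := by rw [hrd]; group
  obtain ⟨w, hw, hrw⟩ := C.swap ha₀R hr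
  have hw1 : w = 1 := by
    have e1 : y * a₀ * y⁻¹ = a₀ * w := by
      have e0 : y * a₀ = a₀ * y * w := by
        calc y * a₀ = x * (r * a₀) := by rw [hy, mul_assoc]
          _ = x * (a₀ * r * w) := by rw [hrw]
          _ = (x * a₀) * (r * w) := by simp only [mul_assoc]
          _ = (a₀ * x) * (r * w) := by rw [hxa₀]
          _ = _ := by rw [hy]; simp only [mul_assoc]
      rw [e0]
      calc a₀ * y * w * y⁻¹ = a₀ * (y * w) * y⁻¹ := by simp only [mul_assoc]
        _ = a₀ * (w * y) * y⁻¹ := by rw [C.Zcentral hw y]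
        _ = a₀ * w := by group
    have e2 : t * (y * a₀ * y⁻¹) * t⁻¹ = (y * a₀ * y⁻¹)⁻¹ := by
      have hyt' : t * y = y * t := hyt.symm
      have hyt2 : y⁻¹ * t⁻¹ = t⁻¹ * y⁻¹ := by
        rw [← mul_inv_rev, ← mul_inv_rev, hyt']
      calc t * (y * a₀ * y⁻¹) * t⁻¹ = (t * y) * a₀ * (y⁻¹ * t⁻¹) := by simp only [mul_assoc]
        _ = (y * t) * a₀ * (t⁻¹ * y⁻¹) := by rw [hyt', hyt2]
        _ = y * (t * a₀ * t⁻¹) * y⁻¹ := by simp only [mul_assoc]
        _ = y * a₀⁻¹ * y⁻¹ := by rw [hinv]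
        _ = _ := by group
    rw [e1] at e2
    have e3 : t * (a₀ * w) * t⁻¹ = a₀⁻¹ * w := by
      calc t * (a₀ * w) * t⁻¹ = (t * a₀ * t⁻¹) * (t * w * t⁻¹) := by group
        _ = a₀⁻¹ * w := by rw [hinv, C.Zcentral hw t, mul_inv_cancel_right]
    rw [e3] at e2
    have e4 : (a₀ * w)⁻¹ = a₀⁻¹ * w⁻¹ := by
      rw [mul_inv_rev]
      exact C.Zcentral ((ZZ R).inv_mem hw) a₀⁻¹ |>.symm
    rw [e4] at e2
    have e5 : w = w⁻¹ := mul_left_cancel e2
    apply C.one_of_sq hw.1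
    rw [pow_two]
    nth_rewrite 1 [e5]
    group
  have hra₀ : r * a₀ = a₀ * r := by rw [hrw, hw1, mul_one]
  obtain ⟨i, j, k, hrn⟩ := C.nf_surj H ha₀R hbR hz.1 r hr
  have hj : j = 0 := by
    have e := H.nf_a_right i j k
    rw [← hrn, hra₀] at e
    have : pz z j = pz z 0 := by
      rw [pz_zero]
      have : a₀ * r * 1 = a₀ * r * pz z j := by rw [mul_one]; exact e
      exact (mul_left_cancel this).symm
    exact pz_inj H.z3 H.z1 this
  have hxz : x * z = z * x := C.Zcentral hz x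
  have hxr : x * r = r * x := by
    rw [hrn, hj]
    have c1 : Commute x (a₀ ^ i.val) := (show Commute x a₀ from hxa₀).pow_right _
    have c3 : Commute x (z ^ k.val) := (show Commute x z from hxz).pow_right _
    simp only [nf, pz_zero, mul_one]
    exact (c1.mul_right c3).eq
  have hy3 : y ^ 3 = 1 := by
    rw [hy, (show Commute x r from hxr).mul_pow, hx3, C.Rexp r hr, one_mul]
  have hπy : π y ≠ 1 := by
    rw [hyx]
    exact fun h => hxR ((C.ker x).1 h)
  have hπ3 : π y ^ 3 = 1 := by rw [← map_pow, hy3, map_one]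
  have hP : ∀ n : ℕ, ∀ q ∈ P, y ^ n * q * (y ^ n)⁻¹ ∈ P := by
    intro n
    induction n with
    | zero => intro q hq; simpa using hq
    | succ n ih =>
      intro q hq
      have := hyP _ (ih q hq)
      have e : y ^ (n + 1) * q * (y ^ (n + 1))⁻¹ = y * (y ^ n * q * (y ^ n)⁻¹) * y⁻¹ := by
        rw [pow_succ']; group
      rw [e]
      exact this
  let L := Lsub P y hP hy3
  have hLR : ∀ l ∈ L, l ∈ R → l = 1 := by
    rintro _ ⟨q, hq, n, rfl⟩ hl
    have h1 : π q * π y ^ n = 1 := by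
      rw [← map_pow, ← map_mul]
      exact (C.ker _).2 hl
    have h2 : π q ^ 3 = 1 := by
      have : π q = (π y ^ n)⁻¹ := eq_inv_of_mul_eq_one_left h1
      rw [this, inv_pow, ← pow_mul, mul_comm, pow_mul, hπ3, one_pow, inv_one]
    have h3 : π q ^ 8 = 1 := by rw [← map_pow, I.P8 q hq, map_one]
    have h4 := p38 _ h2 h3
    have h5 : q = 1 := I.PR q hq ((C.ker q).1 h4)
    rw [h4, one_mul] at h1
    haveI : Fact (Nat.Prime 3) := ⟨by norm_num⟩
    have ho : orderOf (π y) = 3 := orderOf_eq_prime hπ3 hπy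
    have h6 : 3 ∣ n := by
      rw [← ho]
      exact orderOf_dvd_of_pow_eq_one h1
    obtain ⟨m, rfl⟩ := h6
    rw [h5, pow_mul, hy3, one_pow, one_mul]
  have hPL : P ≤ L := fun q hq => ⟨q, hq, 0, by simp⟩
  have hyL : y ∈ L := ⟨1, P.one_mem, 1, by simp⟩
  have hLinj : Function.Injective (fun l : L => π l.1) := by
    intro l l' e
    have h1 : l.1⁻¹ * l'.1 ∈ R := by
      rw [← C.ker, map_mul, map_inv]
      have e' : π l.1 = π l'.1 := e
      rw [e', inv_mul_cancel]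
    have h2 := hLR _ (L.mul_mem (L.inv_mem l.2) l'.2) h1
    have h3 : l.1 = l'.1 := by
      rw [inv_mul_eq_one] at h2
      exact h2
    exact Subtype.ext h3
  have hLc : Nat.card L = 24 := by
    have h1 : Nat.card L ≤ 24 := by
      rw [← card_SL2]
      exact Nat.card_le_card_of_injective _ hLinj
    have h2 : 8 ∣ Nat.card L := by
      rw [← hPc]
      exact Subgroup.card_dvd_of_le hPL
    have h3 : 3 ∣ Nat.card L := by
      haveI : Fact (Nat.Prime 3) := ⟨by norm_num⟩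
      have hy1 : y ≠ 1 := by
        intro h
        apply hπy
        rw [h, map_one]
      have ho : orderOf y = 3 := orderOf_eq_prime hy3 hy1
      have : Nat.card (Subgroup.zpowers y) = 3 := by rw [Nat.card_zpowers, ho]
      rw [← this]
      exact Subgroup.card_dvd_of_le (by rw [Subgroup.zpowers_le]; exact hyL)
    have h4 : 0 < Nat.card L := Nat.card_pos
    omega
  refine ⟨L, a₀, b, z, ?_⟩
  exact
    { rel := H
      Rn := C.Rn
      Rnf := fun r hr => C.nf_surj H ha₀R hbR hz.1 r hr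
      aR := ha₀R
      bR := hbR
      zR := hz.1
      ta := hinv
      tb := hinv₁
      Lt := by
        rintro _ ⟨q, hq, n, rfl⟩
        have c2 : Commute (y ^ n) t := (show Commute y t from hyt).pow_left n
        exact ((show Commute q t from hPt q hq).mul_left c2).eq
      LR := hLR
      Lf := by
        intro l hl h1 h2
        apply hLR l hl
        apply C.cent_le
        intro r hr
        obtain ⟨i, j, k, rfl⟩ := C.nf_surj H ha₀R hbR hz.1 r hr
        exact C.comm_nf h1 h2 (C.Zcentral hz l) i j k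
      Lc := hLc
      Xc := C.Xcard }

/-- The frame exists. -/
theorem exists_frame {R : Subgroup X} {π : X →* SL2} (C : Ctx R π) : ∃ L a b z t, Fr R L a b z t := by
  haveI := C.fin
  haveI := C.Rn
  haveI : Fact (Nat.Prime 2) := ⟨by norm_num⟩
  haveI : Fact (Nat.Prime 3) := ⟨by norm_num⟩
  obtain ⟨P⟩ : Nonempty (Sylow 2 X) := Sylow.nonempty
  have fX : (Nat.card X).factorization 2 = 3 := by
    rw [C.Xcard, show (648 : ℕ) = 2 ^ 3 * 81 by norm_num, Nat.factorization_mul (by norm_num) (by norm_num),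
      Nat.Prime.factorization_pow (by norm_num)]
    simp [Nat.factorization_eq_zero_of_not_dvd (show ¬ 2 ∣ 81 by norm_num)]
  have hPc : Nat.card (P : Subgroup X) = 8 := by
    rw [Sylow.card_eq_multiplicity, fX]
    norm_num
  have P8 : ∀ q ∈ (P : Subgroup X), q ^ 8 = 1 := by
    intro q hq
    have := pow_card_eq_one' (x := (⟨q, hq⟩ : (P : Subgroup X)))
    rw [hPc] at this
    exact congrArg Subtype.val this
  have PR : ∀ q ∈ (P : Subgroup X), q ∈ R → q = 1 := by
    intro q hq hqR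
    have h8 := P8 q hq
    have h3 := C.Rexp q hqR
    have : q = q ^ 9 * (q ^ 8)⁻¹ := by group
    rw [this, h8, show q ^ 9 = (q ^ 3) ^ 3 by rw [← pow_mul], h3]
    simp
  obtain ⟨t', ht'⟩ := exists_prime_orderOf_dvd_card' (G := (P : Subgroup X)) 2 (by rw [hPc]; norm_num)
  have htP : t'.1 ∈ (P : Subgroup X) := t'.2
  set t := t'.1 with htd
  have hto : orderOf t = 2 := by rw [htd, Subgroup.orderOf_coe]; exact ht'
  have ht2 : t ^ 2 = 1 := by rw [← hto]; exact pow_orderOf_eq_one t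
  have ht1 : t ≠ 1 := by
    intro h
    rw [h, orderOf_one] at hto
    norm_num at hto
  have I : Inv R π P t :=
    { ctx := C
      tP := htP
      t2 := by rw [← pow_two]; exact ht2
      t1 := ht1
      PR := PR
      P8 := P8 }
  have hπt : π t = m1 := by
    rcases inv2 (π t) (by rw [← map_pow, ht2, map_one]) with h | h
    · exact (ht1 (PR t htP ((C.ker t).1 h))).elim
    · exact h
  have hPinj : ∀ q ∈ (P : Subgroup X), π q = m1 → q = t := by
    intro q hq hπ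
    have h1 : q * t⁻¹ ∈ R := by
      rw [← C.ker, map_mul, map_inv, hπ, hπt, mul_inv_cancel]
    have h2 := PR _ ((P : Subgroup X).mul_mem hq ((P : Subgroup X).inv_mem htP)) h1
    exact mul_inv_eq_one.1 h2
  have hconjt : ∀ n : X, n * t * n⁻¹ ∈ (P : Subgroup X) → n * t = t * n := by
    intro n hn
    have h1 : π (n * t * n⁻¹) = m1 := by
      rw [map_mul, map_mul, map_inv, hπt, m1_central]
      group
    have h2 := hPinj _ hn h1
    exact mul_inv_eq_iff_eq_mul.1 h2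
  have hPt : ∀ q ∈ (P : Subgroup X), q * t = t * q := fun q hq =>
    hconjt q ((P : Subgroup X).mul_mem ((P : Subgroup X).mul_mem hq htP) ((P : Subgroup X).inv_mem hq))
  -- the elementary abelian group
  obtain ⟨E, hEc, hE3, hEcard⟩ := C.hE
  have hexx : ∃ x ∈ E, x ∉ R := by
    by_contra hall
    push Not at hall
    have hle : E ≤ R := hall
    have heq : E = R := Subgroup.eq_of_le_of_card_ge hle (by rw [hEcard, C.Rcard])
    obtain ⟨r, hr, s, hs, hrs⟩ := C.nonab
    rw [← heq] at hr hs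
    apply hrs
    have := hEc.is_comm.comm (⟨r, hr⟩ : E) (⟨s, hs⟩ : E)
    exact congrArg Subtype.val this
  obtain ⟨x, hxE, hxR⟩ := hexx
  have hexa : ∃ a ∈ E, a ∈ R ∧ a ∉ ZZ R := by
    by_contra hall
    push Not at hall
    let f : E →* SL2 := π.comp E.subtype
    have h1 := Subgroup.card_eq_card_quotient_mul_card_subgroup f.ker
    have h2 : Nat.card (E ⧸ f.ker) = Nat.card f.range :=
      Nat.card_congr (QuotientGroup.quotientKerEquivRange f).toEquiv
    have h3 : Nat.card f.range ∣ 24 := by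
      rw [← card_SL2]
      exact Subgroup.card_subgroup_dvd_card _
    have h4 : Nat.card f.ker ≤ 3 := by
      let g : f.ker → ZZ R := fun a => ⟨a.1.1, hall a.1.1 a.1.2 ((C.ker _).1 a.2)⟩
      calc Nat.card f.ker ≤ Nat.card (ZZ R) :=
            Nat.card_le_card_of_injective g (fun a b e => Subtype.ext (Subtype.ext (show a.1.1 = b.1.1 from congrArg (fun v : ZZ R => v.1) e)))
        _ = 3 := C.Zcard
    rw [hEcard, h2] at h1
    have h5 : Nat.card f.range ∣ 27 := ⟨_, h1⟩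
    have h6 : Nat.card f.range ∣ 3 := by
      have := Nat.dvd_gcd h3 h5
      simpa using this
    have h7 : Nat.card f.range ≤ 3 := Nat.le_of_dvd (by norm_num) h6
    have h8 : Nat.card f.range * Nat.card f.ker ≤ 3 * 3 := Nat.mul_le_mul h7 h4
    omega
  obtain ⟨a, haE, haR, haZ⟩ := hexa
  have hxa : x * a = a * x := by
    have := hEc.is_comm.comm (⟨x, hxE⟩ : E) (⟨a, haE⟩ : E)
    exact congrArg Subtype.val this
  -- the Frattini argument
  let Y : Subgroup X := Q8.comap π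
  haveI : Y.Normal := Subgroup.Normal.comap (inferInstance : Q8.Normal) π
  have hPY : (P : Subgroup X) ≤ Y := by
    intro q hq
    change π q ^ 4 = 1
    apply p84
    rw [← map_pow, P8 q hq, map_one]
  have htop := Sylow.normalizer_sup_eq_top' P hPY
  have hxmem : x ∈ (Subgroup.normalizer (P : Set X) ⊔ Y : Subgroup X) := by rw [htop]; trivial
  rw [← SetLike.mem_coe, Subgroup.mul_normal] at hxmem
  obtain ⟨n, hn, u, hu, hnu⟩ := hxmem
  have hu4 : π u ^ 4 = 1 := hu
  let g : ↥(P : Subgroup X) → {g : SL2 // g ^ 4 = 1} := fun q => ⟨π q.1, p84 _ (by rw [← map_pow, P8 q.1 q.2, map_one])⟩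
  have hg : Function.Injective g := by
    intro q q' e
    have e' : π q.1 = π q'.1 := congrArg Subtype.val e
    have h1 : q.1⁻¹ * q'.1 ∈ R := by
      rw [← C.ker, map_mul, map_inv, e', inv_mul_cancel]
    have h2 := PR _ ((P : Subgroup X).mul_mem ((P : Subgroup X).inv_mem q.2) q'.2) h1
    exact Subtype.ext (inv_mul_eq_one.1 h2)
  have hgb := (Nat.bijective_iff_injective_and_card g).2 ⟨hg, by rw [hPc, q8card]⟩
  obtain ⟨q, hq⟩ := hgb.2 ⟨π u, hu4⟩
  have hqu : π q.1 = π u := congrArg Subtype.val hq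
  have hnorm : (Subgroup.normalizer (P : Set X)) = Subgroup.normalizer ((P : Subgroup X) : Set X) := rfl
  have hqN : q.1 ∈ Subgroup.normalizer (P : Set X) := Subgroup.le_normalizer q.2
  have hyN : n * q.1 ∈ Subgroup.normalizer (P : Set X) := Subgroup.mul_mem _ hn hqN
  have hyP : ∀ q' ∈ (P : Subgroup X), (n * q.1) * q' * (n * q.1)⁻¹ ∈ (P : Subgroup X) := fun q' hq' =>
    (Subgroup.mem_normalizer_iff.1 hyN q').1 hq'
  have hyx : π (n * q.1) = π x := by
    rw [← hnu, map_mul, map_mul, hqu]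
  exact ⟨_, _, _, _, t, (frame_of_lift I hPc hPt hxR haR haZ hxa (hE3 x hxE) hyx (hconjt _ (hyP t htP)) hyP).choose_spec.choose_spec.choose_spec.choose_spec⟩

end Cfsg.Agent.Lib.Classical.Lin.Heis648X
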