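import Mathlib

/-!
# A relation list determining a group of order 320

A group generated by `x0` and `z` satisfying the relations `Rel` below, of order `320`, acts regularly
on the normal forms `z ^ h * (x0 ^ a * x1 ^ b * x2 ^ c * x3 ^ d * A ^ f * B ^ g)`, and the two right
multiplications are the same permutations of the normal forms for every such group: so any two
such groups are isomorphic.
-/

set_option autoImplicit false

namespace Cfsg.Agent.Lib.Classical.Lin.Ord320Rel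

structure Rel {H : Type*} [Group H] (x0 x1 x2 x3 x4 z A B : H) : Prop where
  z5 : z ^ 5 = 1
  z0 : z * x0 = x1 * z
  z1 : z * x1 = x2 * z
  z2 : z * x2 = x3 * z
  z3 : z * x3 = x4 * z
  z4 : z * x4 = x0 * z
  Az : A * z = z * A
  Bz : B * z = z * B
  A0 : A * x0 = x0 * A
  B0 : B * x0 = x0 * B
  BA : B * A = A * B
  AA : A * A = 1
  BB : B * B = 1
  s0 : x0 * x0 = A * B
  c1 : x1 * x0 = x0 * x1 * A
  c2 : x2 * x0 = x0 * x2 * B
  pr : x0 * x1 * x2 * x3 * x4 = 1

/-- The rewriting rules for words in `x0, x1, x2, x3, A, B`. -/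
structure Rw {H : Type*} [Group H] (x0 x1 x2 x3 A B : H) : Prop where
  r10 : ∀ y, x1 * (x0 * y) = x0 * (x1 * (A * y))
  r20 : ∀ y, x2 * (x0 * y) = x0 * (x2 * (B * y))
  r30 : ∀ y, x3 * (x0 * y) = x0 * (x3 * (B * y))
  r21 : ∀ y, x2 * (x1 * y) = x1 * (x2 * (A * y))
  r31 : ∀ y, x3 * (x1 * y) = x1 * (x3 * (B * y))
  r32 : ∀ y, x3 * (x2 * y) = x2 * (x3 * (A * y))
  s0 : ∀ y, x0 * (x0 * y) = A * (B * y)
  s1 : ∀ y, x1 * (x1 * y) = A * (B * y)
  s2 : ∀ y, x2 * (x2 * y) = A * (B * y)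
  s3 : ∀ y, x3 * (x3 * y) = A * (B * y)
  A0 : ∀ y, A * (x0 * y) = x0 * (A * y)
  A1 : ∀ y, A * (x1 * y) = x1 * (A * y)
  A2 : ∀ y, A * (x2 * y) = x2 * (A * y)
  A3 : ∀ y, A * (x3 * y) = x3 * (A * y)
  B0 : ∀ y, B * (x0 * y) = x0 * (B * y)
  B1 : ∀ y, B * (x1 * y) = x1 * (B * y)
  B2 : ∀ y, B * (x2 * y) = x2 * (B * y)
  B3 : ∀ y, B * (x3 * y) = x3 * (B * y)
  BA : ∀ y, B * (A * y) = A * (B * y)
  AA : ∀ y, A * (A * y) = y
  BB : ∀ y, B * (B * y) = y

section
variable {H : Type*} [Group H]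

theorem conj_of {z y y' : H} (hy : z * y = y' * z) : y' = z * y * z⁻¹ := by
  rw [hy]; group

theorem conj_mul (z u v : H) : z * (u * v) * z⁻¹ = (z * u * z⁻¹) * (z * v * z⁻¹) := by group

theorem central_step {z y y' C : H} (hy : z * y = y' * z) (hz : C * z = z * C) (h : C * y = y * C) :
    C * y' = y' * C := by
  have h1 := conj_of hy
  have h2 : C = z * C * z⁻¹ := by rw [← hz]; group
  have h3 := congrArg (fun w => z * w * z⁻¹) h
  simp only [conj_mul] at h3
  rw [← h1, ← h2] at h3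
  exact h3

theorem comm_step {z y1 y1' y2 y2' C : H} (h1 : z * y1 = y1' * z) (h2 : z * y2 = y2' * z)
    (hz : C * z = z * C) (h : y1 * y2 = y2 * y1 * C) : y1' * y2' = y2' * y1' * C := by
  have e1 := conj_of h1
  have e2 := conj_of h2
  have e3 : C = z * C * z⁻¹ := by rw [← hz]; group
  have h3 := congrArg (fun w => z * w * z⁻¹) h
  simp only [conj_mul] at h3
  rw [← e1, ← e2, ← e3] at h3
  exact h3

theorem square_step {z y y' C : H} (h1 : z * y = y' * z)
    (hz : C * z = z * C) (h : y * y = C) : y' * y' = C := by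
  have e1 := conj_of h1
  have e3 : C = z * C * z⁻¹ := by rw [← hz]; group
  have h3 := congrArg (fun w => z * w * z⁻¹) h
  simp only [conj_mul] at h3
  rw [← e1, ← e3] at h3
  exact h3

variable {x0 x1 x2 x3 x4 z A B : H}

theorem Rel.rw (r : Rel x0 x1 x2 x3 x4 z A B) : Rw x0 x1 x2 x3 A B := by
  have A1 := central_step r.z0 r.Az r.A0
  have A2 := central_step r.z1 r.Az A1
  have A3 := central_step r.z2 r.Az A2
  have A4 := central_step r.z3 r.Az A3
  have B1 := central_step r.z0 r.Bz r.B0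
  have B2 := central_step r.z1 r.Bz B1
  have B3 := central_step r.z2 r.Bz B2
  have B4 := central_step r.z3 r.Bz B3
  have ABz : (A * B) * z = z * (A * B) := by
    rw [mul_assoc, r.Bz, ← mul_assoc, r.Az, mul_assoc]
  have s1 := square_step r.z0 ABz r.s0
  have s2 := square_step r.z1 ABz s1
  have s3 := square_step r.z2 ABz s2
  have c21 := comm_step r.z1 r.z0 r.Az r.c1
  have c32 := comm_step r.z2 r.z1 r.Az c21
  have c31 := comm_step r.z2 r.z0 r.Bz r.c2
  have c42 := comm_step r.z3 r.z1 r.Bz c31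
  have c03 : x0 * x3 = x3 * x0 * B := comm_step r.z4 r.z2 r.Bz c42
  have c30 : x3 * x0 = x0 * x3 * B := by
    rw [c03, mul_assoc (x3 * x0), r.BB, mul_one]
  constructor
  · intro y; rw [← mul_assoc, r.c1]; simp only [mul_assoc]
  · intro y; rw [← mul_assoc, r.c2]; simp only [mul_assoc]
  · intro y; rw [← mul_assoc, c30]; simp only [mul_assoc]
  · intro y; rw [← mul_assoc, c21]; simp only [mul_assoc]
  · intro y; rw [← mul_assoc, c31]; simp only [mul_assoc]
  · intro y; rw [← mul_assoc, c32]; simp only [mul_assoc]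
  · intro y; rw [← mul_assoc, r.s0]; simp only [mul_assoc]
  · intro y; rw [← mul_assoc, s1]; simp only [mul_assoc]
  · intro y; rw [← mul_assoc, s2]; simp only [mul_assoc]
  · intro y; rw [← mul_assoc, s3]; simp only [mul_assoc]
  · intro y; rw [← mul_assoc, r.A0]; simp only [mul_assoc]
  · intro y; rw [← mul_assoc, A1]; simp only [mul_assoc]
  · intro y; rw [← mul_assoc, A2]; simp only [mul_assoc]
  · intro y; rw [← mul_assoc, A3]; simp only [mul_assoc]
  · intro y; rw [← mul_assoc, r.B0]; simp only [mul_assoc]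
  · intro y; rw [← mul_assoc, B1]; simp only [mul_assoc]
  · intro y; rw [← mul_assoc, B2]; simp only [mul_assoc]
  · intro y; rw [← mul_assoc, B3]; simp only [mul_assoc]
  · intro y; rw [← mul_assoc, r.BA]; simp only [mul_assoc]
  · intro y; rw [← mul_assoc, r.AA]; simp only [one_mul]
  · intro y; rw [← mul_assoc, r.BB]; simp only [one_mul]

theorem Rel.x4_eq (r : Rel x0 x1 x2 x3 x4 z A B) : x4 = x3 * (x2 * (x1 * x0)) := by
  have R := r.rw
  have h0 : ∀ y, x0 * (x1 * (x2 * (x3 * (x3 * (x2 * (x1 * (x0 * y))))))) = y := by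
    intro y
    simp only [R.s3, R.A0, R.A1, R.A2, R.A3, R.B0, R.B1, R.B2, R.B3, R.s2, R.s1, R.s0, R.BA, R.AA,
      R.BB]
  have h1 : x0 * x1 * x2 * x3 * (x3 * (x2 * (x1 * x0))) = 1 := by
    have := h0 1
    simpa only [mul_assoc, mul_one] using this
  have h2 := r.pr
  rw [← h1] at h2
  exact mul_left_cancel h2

/-- Normal forms. -/
abbrev X320 := Fin 2 × Fin 2 × Fin 2 × Fin 2 × Fin 2 × Fin 2 × Fin 5

/-- The normal form map. -/
def nf (x0 x1 x2 x3 z A B : H) (e : X320) : H :=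
  z ^ (e.2.2.2.2.2.2 : ℕ) * (x0 ^ (e.1 : ℕ) * (x1 ^ (e.2.1 : ℕ) * (x2 ^ (e.2.2.1 : ℕ) *
    (x3 ^ (e.2.2.2.1 : ℕ) * (A ^ (e.2.2.2.2.1 : ℕ) * B ^ (e.2.2.2.2.2.1 : ℕ))))))

/-- Right multiplication by `x0` on normal forms. -/
def rx (e : X320) : X320 :=
  let ⟨a, b, c, d, f, g, h⟩ := e
  (a + 1, b, c, d, f + b + a, g + c + d + a, h)

/-- Right multiplication by `z` on normal forms. -/
def rz (e : X320) : X320 :=
  let ⟨a, b, c, d, f, g, h⟩ := e
  (b + a, c + a, d + a, a, f + a, g + a * (1 + b + d), h + 1)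

theorem nf_rx (r : Rel x0 x1 x2 x3 x4 z A B) (e : X320) :
    nf x0 x1 x2 x3 z A B e * x0 = nf x0 x1 x2 x3 z A B (rx e) := by
  have R := r.rw
  obtain ⟨a, b, c, d, f, g, h⟩ := e
  simp only [nf, rx, mul_assoc]
  congr 1
  have key : ∀ y, x0 ^ (a : ℕ) * (x1 ^ (b : ℕ) * (x2 ^ (c : ℕ) * (x3 ^ (d : ℕ) * (A ^ (f : ℕ) * (B ^ (g : ℕ) * (x0 * y)))))) =
      x0 ^ ((a + 1 : Fin 2) : ℕ) * (x1 ^ (b : ℕ) * (x2 ^ (c : ℕ) * (x3 ^ (d : ℕ) * (A ^ ((f + b + a : Fin 2) : ℕ) * (B ^ ((g + c + d + a : Fin 2) : ℕ) * y))))) := by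
    intro y
    fin_cases a <;> fin_cases b <;> fin_cases c <;> fin_cases d <;> fin_cases f <;> fin_cases g <;>
    simp [mul_assoc, R.r10, R.r20, R.r30, R.r21, R.r31, R.r32, R.s0, R.s1, R.s2, R.s3, R.A0, R.A1, R.A2, R.A3, R.B0, R.B1, R.B2, R.B3, R.BA, R.AA, R.BB]
  have := key 1
  simpa only [mul_one] using this

theorem nf_rz (r : Rel x0 x1 x2 x3 x4 z A B) (e : X320) :
    nf x0 x1 x2 x3 z A B e * z = nf x0 x1 x2 x3 z A B (rz e) := by
  have R := r.rw
  have A1 := central_step r.z0 r.Az r.A0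
  have A2 := central_step r.z1 r.Az A1
  have A3 := central_step r.z2 r.Az A2
  have B1 := central_step r.z0 r.Bz r.B0
  have B2 := central_step r.z1 r.Bz B1
  have B3 := central_step r.z2 r.Bz B2
  have e4 := r.x4_eq
  obtain ⟨a, b, c, d, f, g, h⟩ := e
  simp only [nf, rz]
  -- push `z` to the left through the word
  have hz0 : x0 * z = z * x4 := r.z4.symm
  have hz1 : x1 * z = z * x0 := r.z0.symm
  have hz2 : x2 * z = z * x1 := r.z1.symm
  have hz3 : x3 * z = z * x2 := r.z2.symm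
  have hpush : ∀ (n : ℕ) (u v : H), u * z = z * v → u ^ n * z = z * v ^ n := by
    intro n u v huv
    have : Commute z z := Commute.refl z
    have hsc : SemiconjBy z v u := huv.symm
    exact (hsc.pow_right n).eq.symm
  have hword : x0 ^ (a : ℕ) * (x1 ^ (b : ℕ) * (x2 ^ (c : ℕ) * (x3 ^ (d : ℕ) * (A ^ (f : ℕ) * B ^ (g : ℕ))))) * z =
      z * (x4 ^ (a : ℕ) * (x0 ^ (b : ℕ) * (x1 ^ (c : ℕ) * (x2 ^ (d : ℕ) * (A ^ (f : ℕ) * B ^ (g : ℕ)))))) := by
    have hAB : A ^ (f : ℕ) * (B ^ (g : ℕ) * z) = z * (A ^ (f : ℕ) * B ^ (g : ℕ)) := by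
      rw [hpush _ _ _ r.Bz, ← mul_assoc, hpush _ _ _ r.Az, mul_assoc]
    simp only [mul_assoc]
    rw [hAB, ← mul_assoc (x3 ^ (d : ℕ)), hpush _ _ _ hz3, mul_assoc, ← mul_assoc (x2 ^ (c : ℕ)),
      hpush _ _ _ hz2, mul_assoc, ← mul_assoc (x1 ^ (b : ℕ)), hpush _ _ _ hz1, mul_assoc,
      ← mul_assoc (x0 ^ (a : ℕ)), hpush _ _ _ hz0, mul_assoc]
  have key : ∀ y, x4 ^ (a : ℕ) * (x0 ^ (b : ℕ) * (x1 ^ (c : ℕ) * (x2 ^ (d : ℕ) * (A ^ (f : ℕ) * (B ^ (g : ℕ) * y))))) =
      x0 ^ ((b + a : Fin 2) : ℕ) * (x1 ^ ((c + a : Fin 2) : ℕ) * (x2 ^ ((d + a : Fin 2) : ℕ) * (x3 ^ (a : ℕ) *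
        (A ^ ((f + a : Fin 2) : ℕ) * (B ^ ((g + a * (1 + b + d) : Fin 2) : ℕ) * y))))) := by
    intro y
    rw [e4]
    fin_cases a <;> fin_cases b <;> fin_cases c <;> fin_cases d <;> fin_cases f <;> fin_cases g <;>
    simp [mul_assoc, R.r10, R.r20, R.r30, R.r21, R.r31, R.r32, R.s0, R.s1, R.s2, R.s3, R.A0, R.A1, R.A2, R.A3, R.B0, R.B1, R.B2, R.B3, R.BA, R.AA, R.BB]
  have hzh : z ^ (h : ℕ) * z = z ^ ((h + 1 : Fin 5) : ℕ) := by
    have h5 := r.z5
    fin_cases h
    · simp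
    · simp [pow_succ]
    · simp [pow_succ]
    · simp [pow_succ]
    · simpa [pow_succ] using h5
  rw [mul_assoc, hword, ← mul_assoc, hzh]
  congr 1
  have := key 1
  simpa only [mul_one] using this

/-- Normal forms are preserved by homomorphisms. -/
theorem nf_hom {K : Type*} [Group K] (f : H →* K) (x0 x1 x2 x3 z A B : H) (e : X320) :
    f (nf x0 x1 x2 x3 z A B e) = nf (f x0) (f x1) (f x2) (f x3) (f z) (f A) (f B) e := by
  simp only [nf, map_mul, map_pow]

/-- The relations descend along injective homomorphisms. -/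
theorem Rel.of_hom {K : Type*} [Group K] (f : H →* K) (hf : Function.Injective f)
    (r : Rel (f x0) (f x1) (f x2) (f x3) (f x4) (f z) (f A) (f B)) : Rel x0 x1 x2 x3 x4 z A B := by
  constructor
  · apply hf; simpa [map_pow] using r.z5
  · apply hf; simpa [map_mul] using r.z0
  · apply hf; simpa [map_mul] using r.z1
  · apply hf; simpa [map_mul] using r.z2
  · apply hf; simpa [map_mul] using r.z3
  · apply hf; simpa [map_mul] using r.z4
  · apply hf; simpa [map_mul] using r.Az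
  · apply hf; simpa [map_mul] using r.Bz
  · apply hf; simpa [map_mul] using r.A0
  · apply hf; simpa [map_mul] using r.B0
  · apply hf; simpa [map_mul] using r.BA
  · apply hf; simpa [map_mul] using r.AA
  · apply hf; simpa [map_mul] using r.BB
  · apply hf; simpa [map_mul] using r.s0
  · apply hf; simpa [map_mul] using r.c1
  · apply hf; simpa [map_mul] using r.c2
  · apply hf; simpa [map_mul] using r.pr

theorem nf_zero (x0 x1 x2 x3 z A B : H) : nf x0 x1 x2 x3 z A B (0, 0, 0, 0, 0, 0, 0) = 1 := by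
  simp [nf]

/-- Any two groups with bijective normal form maps are isomorphic; the isomorphism respects
normal forms, provided the first one is generated by `x0` and `z`. -/
theorem nonempty_mulEquiv {H₁ H₂ : Type*} [Group H₁] [Group H₂]
    {x0 x1 x2 x3 x4 z A B : H₁} {x0' x1' x2' x3' x4' z' A' B' : H₂}
    (r : Rel x0 x1 x2 x3 x4 z A B) (r' : Rel x0' x1' x2' x3' x4' z' A' B')
    (hgen : Subgroup.closure {x0, z} = ⊤)
    (hN : Function.Bijective (nf x0 x1 x2 x3 z A B))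
    (hN' : Function.Bijective (nf x0' x1' x2' x3' z' A' B')) :
    Nonempty (H₁ ≃* H₂) := by
  let E : X320 ≃ H₁ := Equiv.ofBijective _ hN
  let E' : X320 ≃ H₂ := Equiv.ofBijective _ hN'
  let φ : H₁ ≃ H₂ := E.symm.trans E'
  have hφ : ∀ e, φ (nf x0 x1 x2 x3 z A B e) = nf x0' x1' x2' x3' z' A' B' e := by
    intro e
    change E' (E.symm (E e)) = _
    rw [Equiv.symm_apply_apply]
    rfl
  have h1 : φ 1 = 1 := by
    rw [← nf_zero x0 x1 x2 x3 z A B, hφ, nf_zero]
  have hx : ∀ y, φ (y * x0) = φ y * x0' := by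
    intro y
    obtain ⟨e, rfl⟩ := hN.2 y
    rw [nf_rx r, hφ, hφ, nf_rx r']
  have hz : ∀ y, φ (y * z) = φ y * z' := by
    intro y
    obtain ⟨e, rfl⟩ := hN.2 y
    rw [nf_rz r, hφ, hφ, nf_rz r']
  have hx0 : φ x0 = x0' := by
    have := hx 1
    rwa [one_mul, h1, one_mul] at this
  have hz0 : φ z = z' := by
    have := hz 1
    rwa [one_mul, h1, one_mul] at this
  let S : Subgroup H₁ :=
    { carrier := {h | ∀ y, φ (y * h) = φ y * φ h}
      one_mem' := by
        intro y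
        simp [h1]
      mul_mem' := by
        intro a b ha hb y
        have h2 := ha 1
        rw [one_mul, h1, one_mul] at h2
        rw [← mul_assoc, hb, ha, mul_assoc]
        congr 1
        have h3 := hb a
        exact h3.symm
      inv_mem' := by
        intro a ha y
        have h2 := ha (y * a⁻¹)
        rw [inv_mul_cancel_right] at h2
        have h3 := ha a⁻¹
        rw [inv_mul_cancel, h1] at h3
        have h4 : φ a⁻¹ = (φ a)⁻¹ := eq_inv_of_mul_eq_one_left h3.symm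
        rw [h4]
        rw [h2, mul_inv_cancel_right] }
  have hS : S = ⊤ := by
    rw [eq_top_iff, ← hgen, Subgroup.closure_le]
    rintro u (rfl | rfl)
    · intro y
      rw [hx, hx0]
    · intro y
      rw [hz, hz0]
  have hmul : ∀ a b, φ (a * b) = φ a * φ b := by
    intro a b
    have : b ∈ S := by rw [hS]; trivial
    exact this a
  exact ⟨{ φ with map_mul' := hmul }⟩

/-- Surjectivity of the normal form map from generation. -/
theorem nf_surjective [Finite H] (r : Rel x0 x1 x2 x3 x4 z A B) (hgen : Subgroup.closure {x0, z} = ⊤) :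
    Function.Surjective (nf x0 x1 x2 x3 z A B) := by
  have hfin : ∀ (u v : H), (∃ e, nf x0 x1 x2 x3 z A B e = v) → (∀ e, ∃ e', nf x0 x1 x2 x3 z A B e * u = nf x0 x1 x2 x3 z A B e') →
      ∃ e, nf x0 x1 x2 x3 z A B e = v * u⁻¹ := by
    intro u v hv hu
    obtain ⟨e, rfl⟩ := hv
    have hk : ∀ n : ℕ, ∃ e', nf x0 x1 x2 x3 z A B e * u ^ n = nf x0 x1 x2 x3 z A B e' := by
      intro n
      induction n with
      | zero => exact ⟨e, by simp⟩
      | succ n ih =>
        obtain ⟨e', he'⟩ := ih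
        obtain ⟨e'', he''⟩ := hu e'
        exact ⟨e'', by rw [pow_succ, ← mul_assoc, he', he'']⟩
    obtain ⟨e', he'⟩ := hk (orderOf u - 1)
    refine ⟨e', ?_⟩
    rw [← he']
    congr 1
    rw [eq_inv_iff_mul_eq_one, ← pow_succ]
    rw [Nat.sub_add_cancel (orderOf_pos u)]
    exact pow_orderOf_eq_one u
  let S : Set H := Set.range (nf x0 x1 x2 x3 z A B)
  have hS : ∀ y : H, ∀ e, ∃ e', nf x0 x1 x2 x3 z A B e * y = nf x0 x1 x2 x3 z A B e' := by
    intro y
    have hy : y ∈ Subgroup.closure ({x0, z} : Set H) := by rw [hgen]; trivial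
    induction hy using Subgroup.closure_induction with
    | mem u hu =>
      intro e
      rcases hu with rfl | hu
      · exact ⟨rx e, nf_rx r e⟩
      · rw [Set.mem_singleton_iff] at hu
        subst hu
        exact ⟨rz e, nf_rz r e⟩
    | one => intro e; exact ⟨e, by simp⟩
    | mul u v _ _ hu hv =>
      intro e
      obtain ⟨e', he'⟩ := hu e
      obtain ⟨e'', he''⟩ := hv e'
      exact ⟨e'', by rw [← mul_assoc, he', he'']⟩
    | inv u _ hu =>
      intro e
      obtain ⟨e', he'⟩ := hfin u _ ⟨e, rfl⟩ hu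
      exact ⟨e', he'.symm⟩
  intro y
  obtain ⟨e', he'⟩ := hS y (0, 0, 0, 0, 0, 0, 0)
  exact ⟨e', by rw [← he', nf_zero, one_mul]⟩

theorem card_X320 : Nat.card X320 = 320 := by
  simp [Nat.card_eq_fintype_card]

theorem nf_bijective [Finite H] (hcard : Nat.card H = 320) (r : Rel x0 x1 x2 x3 x4 z A B)
    (hgen : Subgroup.closure {x0, z} = ⊤) : Function.Bijective (nf x0 x1 x2 x3 z A B) := by
  have hs := nf_surjective r hgen
  exact (Nat.bijective_iff_surjective_and_card _).2 ⟨hs, by rw [card_X320, hcard]⟩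

end

end Cfsg.Agent.Lib.Classical.Lin.Ord320Rel
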