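import Mathlib
import Cfsg.Agent.Lib.Classical.Lin.Ord320Rel

/-!
# Groups of order 320 with derived group of order 64 and Klein four centre

Such a group satisfies the relations `Ord320Rel.Rel` for suitable elements `x0, z`, and is generated
by `x0` and `z`.
-/

set_option autoImplicit false

namespace Cfsg.Agent.Lib.Classical.Lin.Ord320G

open Cfsg.Agent.Lib.Classical.Lin.Ord320Rel
open scoped commutatorElement

variable {G : Type*} [Group G]

theorem mem_cz {y z : G} : y ∈ Subgroup.centralizer {z} ↔ z * y * z⁻¹ = y := by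
  rw [Subgroup.mem_centralizer_singleton_iff]
  constructor
  · intro h
    rw [← h]
    group
  · intro h
    exact (mul_inv_eq_iff_eq_mul.1 h).symm

theorem card_mod_five [Finite G] {z : G} (hz : z ^ 5 = 1) (W : Subgroup G)
    (hW : ∀ y ∈ W, z * y * z⁻¹ ∈ W) :
    Nat.card W ≡ Nat.card (W ⊓ Subgroup.centralizer {z} : Subgroup G) [MOD 5] := by
  classical
  haveI : Fintype W := Fintype.ofFinite _
  let f : Function.End W := fun y => ⟨z * y * z⁻¹, hW y y.2⟩
  have hk : ∀ (n : ℕ) (y : W), (((f ^ n) y : W) : G) = z ^ n * y * (z ^ n)⁻¹ := by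
    intro n y
    induction n with
    | zero =>
      simp only [pow_zero, one_mul, inv_one, mul_one]
      rfl
    | succ n ih =>
      rw [pow_succ']
      change z * (((f ^ n) y : W) : G) * z⁻¹ = _
      rw [ih, pow_succ']
      group
  have hf : f ^ 5 ^ 1 = 1 := by
    funext y
    apply Subtype.ext
    rw [pow_one, hk, hz]
    simp only [one_mul, inv_one, mul_one]
    rfl
  haveI : Fact (Nat.Prime 5) := ⟨by norm_num⟩
  have h := Equiv.Perm.card_fixedPoints_modEq hf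
  rw [Nat.card_eq_fintype_card]
  have e : Nat.card (W ⊓ Subgroup.centralizer {z} : Subgroup G) = Fintype.card (Function.fixedPoints f) := by
    rw [← Nat.card_eq_fintype_card]
    refine Nat.card_congr ?_
    refine
      { toFun := fun y => ⟨⟨y.1, y.2.1⟩, ?_⟩
        invFun := fun y => ⟨y.1.1, y.1.2, ?_⟩
        left_inv := fun y => rfl
        right_inv := fun y => rfl }
    · have hy : (y : G) ∈ Subgroup.centralizer {z} := y.2.2
      apply Subtype.ext
      change z * (y : G) * z⁻¹ = y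
      exact mem_cz.1 hy
    · have hy : f y.1 = y.1 := y.2
      have hy2 : z * ((y.1 : W) : G) * z⁻¹ = y.1 := congrArg Subtype.val hy
      change ((y.1 : W) : G) ∈ Subgroup.centralizer {z}
      exact mem_cz.2 hy2
  rw [e]
  exact h

/-- Commutators ignore commuting factors. -/
theorem comm_central {d d' w w' : G} (h1 : w * d' = d' * w) (h2 : w * w' = w' * w)
    (h3 : w' * d = d * w') (h4 : w * d = d * w) (h5 : w' * d' = d' * w') :
    ⁅d * w, d' * w'⁆ = ⁅d, d'⁆ := by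
  have e1 : d * w * (d' * w') = d * d' * (w * w') := by
    rw [mul_assoc, ← mul_assoc w, h1, mul_assoc d', mul_assoc]
  have e2 : (d * w)⁻¹ * (d' * w')⁻¹ = (w * w')⁻¹ * (d⁻¹ * d'⁻¹) := by
    have c1 : Commute w d := h4
    have c2 : Commute w' d := h3
    have c3 : Commute w d' := h1
    have c4 : Commute w' d' := h5
    have c5 : Commute w w' := h2
    simp only [mul_inv_rev]
    have c6 : Commute w⁻¹ d⁻¹ := c1.inv_inv
    have c7 : Commute w'⁻¹ d'⁻¹ := c4.inv_inv
    have c8 : Commute w'⁻¹ d⁻¹ := c2.inv_inv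
    have c9 : Commute w⁻¹ d'⁻¹ := c3.inv_inv
    have c10 : Commute w'⁻¹ w⁻¹ := c5.symm.inv_inv
    calc w⁻¹ * d⁻¹ * (w'⁻¹ * d'⁻¹) = w⁻¹ * (d⁻¹ * w'⁻¹) * d'⁻¹ := by group
      _ = w⁻¹ * (w'⁻¹ * d⁻¹) * d'⁻¹ := by rw [c8.eq]
      _ = w'⁻¹ * w⁻¹ * (d⁻¹ * d'⁻¹) := by
        rw [← mul_assoc w⁻¹, ← c10.eq]; group
  have e3 : ⁅d * w, d' * w'⁆ = d * w * (d' * w') * ((d * w)⁻¹ * (d' * w')⁻¹) := by
    simp only [commutatorElement_def, mul_assoc]
  rw [e3, e1, e2, commutatorElement_def]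
  group

/-- A nontrivial subgroup of order a power of two is not perfect. -/
theorem not_perfect [Finite G] (D : Subgroup G) {n : ℕ} (hcard : Nat.card D = 2 ^ n) (hne : D ≠ ⊥)
    (h : D ≤ ⁅D, D⁆) : False := by
  haveI : Fact (Nat.Prime 2) := ⟨Nat.prime_two⟩
  have hp : IsPGroup 2 D := IsPGroup.of_card hcard
  haveI : Group.IsNilpotent D := hp.isNilpotent
  haveI : Nontrivial D := by
    rw [Subgroup.nontrivial_iff_ne_bot]
    exact hne
  have h1 := Group.IsSolvable.commutator_lt_top_of_nontrivial D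
  have h2 : (commutator D).map D.subtype = D := by
    apply le_antisymm
    · rintro _ ⟨y, _, rfl⟩
      exact y.2
    · rw [Subgroup.map_subtype_commutator]
      exact h
  have h3 : commutator D = ⊤ := by
    apply Subgroup.map_injective D.subtype_injective
    rw [h2, ← MonoidHom.range_eq_map, Subgroup.range_subtype]
  exact h1.ne h3

/-- The hypotheses collected. -/
structure Ctx (P Z : Subgroup G) (z : G) : Prop where
  hP : P.Normal
  hZ : Z.Normal
  ZP : Z ≤ P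
  Zc : ∀ y ∈ Z, ∀ p ∈ P, y * p = p * y
  Zm : ∀ y ∈ P, (∀ p ∈ P, y * p = p * y) → y ∈ Z
  Z2 : ∀ y ∈ Z, y * y = 1
  cP : Nat.card P = 64
  cZ : Nat.card Z = 4
  z5 : z ^ 5 = 1
  gen : ∀ g : G, ∃ p ∈ P, ∃ k : ℕ, g = p * z ^ k
  com : commutator G = P

namespace Ctx

variable [Finite G] {P Z : Subgroup G} {z : G}

theorem card_cases (c : Ctx P Z z) (W : Subgroup G) (hW : W ≤ P) :
    Nat.card W = 1 ∨ Nat.card W = 2 ∨ Nat.card W = 4 ∨ Nat.card W = 8 ∨ Nat.card W = 16 ∨ Nat.card W = 32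
      ∨ Nat.card W = 64 := by
  have h : Nat.card W ∣ 64 := by
    rw [← c.cP]
    exact Subgroup.card_dvd_of_le hW
  have : Nat.card W ∣ 2 ^ 6 := by simpa using h
  obtain ⟨k, hk, hk2⟩ := (Nat.dvd_prime_pow Nat.prime_two).1 this
  rw [hk2]
  interval_cases k <;> simp

/-- `z` centralizes `Z`. -/
theorem zZ (c : Ctx P Z z) {y : Z} : z * (y : G) * z⁻¹ = y := by
  haveI := c.hZ
  have h := card_mod_five c.z5 Z (fun y hy => c.hZ.conj_mem y hy z)
  have hle : (Z ⊓ Subgroup.centralizer {z} : Subgroup G) ≤ Z := inf_le_left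
  have hd := Subgroup.card_dvd_of_le hle
  rw [c.cZ] at h hd
  have hcases := card_cases c (Z ⊓ Subgroup.centralizer {z}) (hle.trans c.ZP)
  have h4 : Nat.card (Z ⊓ Subgroup.centralizer {z} : Subgroup G) = 4 := by
    rcases hcases with h1 | h1 | h1 | h1 | h1 | h1 | h1 <;> rw [h1] at h hd <;>
      first
        | exact h1
        | (exfalso; revert h; decide)
        | (exfalso; revert hd; decide)
  have heq : (Z ⊓ Subgroup.centralizer {z} : Subgroup G) = Z :=
    Subgroup.eq_of_le_of_card_ge hle (by rw [h4, c.cZ])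
  have hy : (y : G) ∈ (Z ⊓ Subgroup.centralizer {z} : Subgroup G) := by rw [heq]; exact y.2
  exact mem_cz.1 hy.2

theorem zZ' (c : Ctx P Z z) {y : G} (hy : y ∈ Z) : z * y * z⁻¹ = y :=
  c.zZ (y := ⟨y, hy⟩)

theorem zZ'' (c : Ctx P Z z) {y : G} (hy : y ∈ Z) : y * z = z * y := by
  exact (mul_inv_eq_iff_eq_mul.1 (c.zZ' hy)).symm

/-- Elements of `Z` are central. -/
theorem central (c : Ctx P Z z) {y : G} (hy : y ∈ Z) (g : G) : y * g = g * y := by
  obtain ⟨p, hp, k, rfl⟩ := c.gen g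
  have hk : y * z ^ k = z ^ k * y := by
    have : Commute y z := c.zZ'' hy
    exact (this.pow_right k).eq
  rw [← mul_assoc, c.Zc y hy p hp, mul_assoc, hk, mul_assoc]

/-- `z` does not centralize `P`. -/
theorem not_all (c : Ctx P Z z) : ¬ ∀ p ∈ P, z * p = p * z := by
  intro h
  have hle : P ≤ ⁅P, P⁆ := by
    have hle' : commutator G ≤ ⁅P, P⁆ := ?_
    · rwa [c.com] at hle'
    rw [show commutator G = ⁅(⊤ : Subgroup G), ⊤⁆ from rfl, Subgroup.commutator_le]
    intro g _ g' _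
    obtain ⟨p, hp, k, rfl⟩ := c.gen g
    obtain ⟨p', hp', k', rfl⟩ := c.gen g'
    have hcomm : ∀ (k : ℕ), ∀ q ∈ P, z ^ k * q = q * z ^ k := by
      intro k q hq
      have : Commute z q := h q hq
      exact (this.pow_left k).eq
    have := comm_central (d := p) (d' := p') (w := z ^ k) (w' := z ^ k') (hcomm k _ hp')
      (by rw [← pow_add, ← pow_add, add_comm]) (hcomm k' _ hp) (hcomm k _ hp) (hcomm k' _ hp')
    rw [this]
    exact Subgroup.commutator_mem_commutator hp hp'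
  refine not_perfect P (n := 6) (by rw [c.cP]; norm_num) ?_ hle
  intro hb
  have := c.cP
  rw [hb] at this
  simp at this

/-- The fixed points of `z` on `P` are exactly `Z`. -/
theorem fix_eq (c : Ctx P Z z) : (P ⊓ Subgroup.centralizer {z} : Subgroup G) = Z := by
  have hle : (P ⊓ Subgroup.centralizer {z} : Subgroup G) ≤ P := inf_le_left
  have hZle : Z ≤ (P ⊓ Subgroup.centralizer {z} : Subgroup G) := by
    intro y hy
    exact ⟨c.ZP hy, mem_cz.2 (c.zZ' hy)⟩
  have h := card_mod_five c.z5 P (fun y hy => c.hP.conj_mem y hy z)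
  rw [c.cP] at h
  have hcases := card_cases c (P ⊓ Subgroup.centralizer {z}) hle
  have hne : Nat.card (P ⊓ Subgroup.centralizer {z} : Subgroup G) ≠ 64 := by
    intro h64
    apply c.not_all
    have heq : (P ⊓ Subgroup.centralizer {z} : Subgroup G) = P :=
      Subgroup.eq_of_le_of_card_ge hle (by rw [h64, c.cP])
    intro p hp
    have hp2 : p ∈ (P ⊓ Subgroup.centralizer {z} : Subgroup G) := by rw [heq]; exact hp
    have : p ∈ Subgroup.centralizer {z} := hp2.2
    exact (mul_inv_eq_iff_eq_mul.1 (mem_cz.1 this))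
  have h4 : Nat.card (P ⊓ Subgroup.centralizer {z} : Subgroup G) = 4 := by
    rcases hcases with h1 | h1 | h1 | h1 | h1 | h1 | h1 <;> rw [h1] at h <;>
      first
        | exact h1
        | (exfalso; revert h; decide)
        | exact absurd h1 hne
  exact (Subgroup.eq_of_le_of_card_ge hZle (by rw [h4, c.cZ])).symm

theorem mem_of_fix (c : Ctx P Z z) {y : G} (hy : y ∈ P) (h : z * y * z⁻¹ = y) : y ∈ Z := by
  rw [← c.fix_eq]
  exact ⟨hy, mem_cz.2 h⟩

/-- Invariant subgroups between `Z` and `P`. -/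
theorem dichotomy (c : Ctx P Z z) (W : Subgroup G) (h1 : Z ≤ W) (h2 : W ≤ P)
    (hW : ∀ y ∈ W, z * y * z⁻¹ ∈ W) : W = Z ∨ W = P := by
  have hfix : (W ⊓ Subgroup.centralizer {z} : Subgroup G) = Z := by
    apply le_antisymm
    · rw [← c.fix_eq]
      exact inf_le_inf_right _ h2
    · intro y hy
      exact ⟨h1 hy, mem_cz.2 (c.zZ' hy)⟩
  have h := card_mod_five c.z5 W hW
  rw [hfix, c.cZ] at h
  rcases card_cases c W h2 with h3 | h3 | h3 | h3 | h3 | h3 | h3 <;> rw [h3] at h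
  · exact absurd h (by decide)
  · exact absurd h (by decide)
  · left
    exact (Subgroup.eq_of_le_of_card_ge h1 (by rw [h3, c.cZ])).symm
  · exact absurd h (by decide)
  · exact absurd h (by decide)
  · exact absurd h (by decide)
  · right
    exact Subgroup.eq_of_le_of_card_ge h2 (by rw [h3, c.cP])

/-- `y` commuting with `z` modulo `Z` lies in `Z`. -/
theorem mem_of_mod (c : Ctx P Z z) {y : G} (hy : y ∈ P) (h : z * y * z⁻¹ * y⁻¹ ∈ Z) : y ∈ Z := by
  obtain ⟨w, hw⟩ : ∃ w, w = z * y * z⁻¹ * y⁻¹ := ⟨_, rfl⟩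
  rw [← hw] at h
  have e : z * y * z⁻¹ = w * y := by rw [hw]; group
  have hk : ∀ k : ℕ, z ^ k * y * (z ^ k)⁻¹ = w ^ k * y := by
    intro k
    induction k with
    | zero => simp
    | succ k ih =>
      calc z ^ (k + 1) * y * (z ^ (k + 1))⁻¹ = z * (z ^ k * y * (z ^ k)⁻¹) * z⁻¹ := by
            rw [pow_succ']; group
        _ = z * (w ^ k * y) * z⁻¹ := by rw [ih]
        _ = (z * w ^ k * z⁻¹) * (z * y * z⁻¹) := by group
        _ = w ^ k * (w * y) := by
            rw [e, c.zZ' (Subgroup.pow_mem _ h k)]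
        _ = w ^ (k + 1) * y := by rw [pow_succ, mul_assoc]
  have h5 := hk 5
  rw [c.z5] at h5
  simp only [one_mul, inv_one, mul_one] at h5
  have hw1 : w ^ 5 = 1 := by
    have h6 : w ^ 5 * y = 1 * y := by rw [one_mul]; exact h5.symm
    exact mul_right_cancel h6
  have hw2 : w * w = 1 := c.Z2 w h
  have hw3 : w = 1 := by
    have : w ^ 5 = (w * w) * (w * w) * w := by
      simp only [pow_succ, pow_zero, one_mul, mul_assoc]
    rw [this, hw2] at hw1
    simpa using hw1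
  apply c.mem_of_fix hy
  rw [e, hw3, one_mul]

/-- `P` has class at most two. -/
theorem comm_le (c : Ctx P Z z) : ⁅P, P⁆ ≤ Z := by
  haveI := c.hP
  haveI := c.hZ
  have hDn : (⁅P, P⁆ : Subgroup G).Normal := Subgroup.commutator_normal P P
  have hDP : ⁅P, P⁆ ≤ P := Subgroup.commutator_le_self P
  have hW := c.dichotomy (⁅P, P⁆ ⊔ Z) le_sup_right (sup_le hDP c.ZP) (fun y hy => by
    have : (⁅P, P⁆ ⊔ Z : Subgroup G).Normal := Subgroup.sup_normal _ _
    exact this.conj_mem y hy z)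
  rcases hW with hW | hW
  · rw [← hW]; exact le_sup_left
  · exfalso
    have hne : (⁅P, P⁆ : Subgroup G) ≠ ⊥ := by
      intro hb
      rw [hb, bot_sup_eq] at hW
      have h1 := c.cP
      rw [← hW, c.cZ] at h1
      norm_num at h1
    have hcard : ∃ n, Nat.card (⁅P, P⁆ : Subgroup G) = 2 ^ n := by
      rcases card_cases c _ hDP with h | h | h | h | h | h | h
      · exact ⟨0, by simpa using h⟩
      · exact ⟨1, by simpa using h⟩
      · exact ⟨2, by simpa using h⟩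
      · exact ⟨3, by simpa using h⟩
      · exact ⟨4, by simpa using h⟩
      · exact ⟨5, by simpa using h⟩
      · exact ⟨6, by simpa using h⟩
    obtain ⟨n, hn⟩ := hcard
    refine not_perfect _ hn hne ?_
    rw [Subgroup.commutator_le]
    intro p hp p' hp'
    rw [← hW] at hp hp'
    obtain ⟨d, hd, w, hw, rfl⟩ := Subgroup.mem_sup_of_normal_right.1 hp
    obtain ⟨d', hd', w', hw', rfl⟩ := Subgroup.mem_sup_of_normal_right.1 hp'
    rw [comm_central (c.Zc w hw _ (hDP hd')) (c.Zc w hw _ (c.ZP hw')) (c.Zc w' hw' _ (hDP hd))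
      (c.Zc w hw _ (hDP hd)) (c.Zc w' hw' _ (hDP hd'))]
    exact Subgroup.commutator_mem_commutator hd hd'

theorem comm_mem (c : Ctx P Z z) {p p' : G} (hp : p ∈ P) (hp' : p' ∈ P) : ⁅p, p'⁆ ∈ Z :=
  c.comm_le (Subgroup.commutator_mem_commutator hp hp')


/-- Squares of elements of `P` lie in `Z`. -/
theorem sq_mem (c : Ctx P Z z) {y : G} (hy : y ∈ P) : y * y ∈ Z := by
  let W : Subgroup G :=
    { carrier := {u | u ∈ P ∧ u * u ∈ Z}
      one_mem' := ⟨P.one_mem, by simpa using Z.one_mem⟩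
      mul_mem' := by
        rintro a b ⟨ha, ha2⟩ ⟨hb, hb2⟩
        refine ⟨P.mul_mem ha hb, ?_⟩
        have hk : ⁅b⁻¹, a⁻¹⁆ ∈ Z := c.comm_mem (P.inv_mem hb) (P.inv_mem ha)
        obtain ⟨k, hk'⟩ : ∃ k, k = ⁅b⁻¹, a⁻¹⁆ := ⟨_, rfl⟩
        rw [← hk'] at hk
        have e : b * a = a * b * k := by
          rw [hk', commutatorElement_def]; group
        have e2 : a * b * (a * b) = (a * a) * (b * b) * k := by
          calc a * b * (a * b) = a * (b * a) * b := by group
            _ = a * (a * b * k) * b := by rw [e]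
            _ = a * a * b * (k * b) := by group
            _ = a * a * b * (b * k) := by rw [c.central hk b]
            _ = _ := by group
        rw [e2]
        exact Z.mul_mem (Z.mul_mem ha2 hb2) hk
      inv_mem' := by
        rintro a ⟨ha, ha2⟩
        refine ⟨P.inv_mem ha, ?_⟩
        have : a⁻¹ * a⁻¹ = (a * a)⁻¹ := by group
        rw [this]
        exact Z.inv_mem ha2 }
  have hW := c.dichotomy W (fun u hu => ⟨c.ZP hu, by rw [c.Z2 u hu]; exact Z.one_mem⟩)
    (fun u hu => hu.1) (fun u hu => by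
      refine ⟨c.hP.conj_mem u hu.1 z, ?_⟩
      have : z * u * z⁻¹ * (z * u * z⁻¹) = z * (u * u) * z⁻¹ := by group
      rw [this, c.zZ' hu.2]
      exact hu.2)
  rcases hW with hW | hW
  · exfalso
    have hstep : ∀ u ∈ P, u * u ∈ Z → u ∈ Z := by
      intro u hu hu2
      rw [← hW]
      exact ⟨hu, hu2⟩
    have hall : P ≤ Z := by
      intro u hu
      have hdown : ∀ n : ℕ, u ^ (2 ^ n) ∈ Z → u ∈ Z := by
        intro n
        induction n with
        | zero => simp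
        | succ n ih =>
          intro h
          apply ih
          apply hstep _ (P.pow_mem hu _)
          rw [← pow_add, ← two_mul, ← pow_succ']
          exact h
      apply hdown 6
      have h1 : u ^ 64 = 1 := by
        have : (⟨u, hu⟩ : P) ^ 64 = 1 := by
          rw [← c.cP]
          exact pow_card_eq_one'
        exact congrArg Subtype.val this
      norm_num
      rw [h1]
      exact Z.one_mem
    have := Subgroup.card_le_of_le hall
    rw [c.cP, c.cZ] at this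
    omega
  · have : y ∈ W := by rw [hW]; exact hy
    exact this.2

/-- The orbit product. -/
def nm (z y : G) : G :=
  y * (z * y * z⁻¹) * (z * (z * y * z⁻¹) * z⁻¹) * (z * (z * (z * y * z⁻¹) * z⁻¹) * z⁻¹) *
    (z * (z * (z * (z * y * z⁻¹) * z⁻¹) * z⁻¹) * z⁻¹)

theorem conj_five (c : Ctx P Z z) (y : G) :
    z * (z * (z * (z * (z * y * z⁻¹) * z⁻¹) * z⁻¹) * z⁻¹) * z⁻¹ = y := by
  have : z * (z * (z * (z * (z * y * z⁻¹) * z⁻¹) * z⁻¹) * z⁻¹) * z⁻¹ = z ^ 5 * y * (z ^ 5)⁻¹ := by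
    simp only [pow_succ, pow_zero, one_mul, mul_inv_rev, mul_assoc]
  rw [this, c.z5]
  simp

theorem nm_mem (c : Ctx P Z z) {y : G} (hy : y ∈ P) : nm z y ∈ Z := by
  have hc : ∀ u ∈ P, z * u * z⁻¹ ∈ P := fun u hu => c.hP.conj_mem u hu z
  have hn : nm z y ∈ P :=
    P.mul_mem (P.mul_mem (P.mul_mem (P.mul_mem hy (hc _ hy)) (hc _ (hc _ hy))) (hc _ (hc _ (hc _ hy))))
      (hc _ (hc _ (hc _ (hc _ hy))))
  apply c.mem_of_mod hn
  have e : z * nm z y * z⁻¹ = y⁻¹ * nm z y * y := by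
    have h5 := c.conj_five y
    have : z * nm z y * z⁻¹ = (z * y * z⁻¹) * (z * (z * y * z⁻¹) * z⁻¹) * (z * (z * (z * y * z⁻¹) * z⁻¹) * z⁻¹) *
        (z * (z * (z * (z * y * z⁻¹) * z⁻¹) * z⁻¹) * z⁻¹) *
        (z * (z * (z * (z * (z * y * z⁻¹) * z⁻¹) * z⁻¹) * z⁻¹) * z⁻¹) := by
      simp only [nm]; group
    rw [this, h5]
    simp only [nm, mul_assoc, inv_mul_cancel_left]
  rw [e]
  have := c.comm_mem (P.inv_mem hy) hn
  rw [commutatorElement_def] at this
  simpa only [inv_inv] using this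

theorem nm_twist (c : Ctx P Z z) {y : G} (hy : y ∈ P) : nm z (y * nm z y) = 1 := by
  have hw := c.nm_mem hy
  obtain ⟨w, hw'⟩ : ∃ w, w = nm z y := ⟨_, rfl⟩
  rw [← hw'] at hw ⊢
  have hcw := c.zZ' hw
  have hcen := c.central hw
  have hcc : ∀ u, z * (u * w) * z⁻¹ = z * u * z⁻¹ * w := by
    intro u
    rw [Ord320Rel.conj_mul, hcw]
  have h2 : w * w = 1 := c.Z2 w hw
  have hrw : ∀ a b : G, a * w * (b * w) = a * b := by
    intro a b
    calc a * w * (b * w) = a * (w * b) * w := by group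
      _ = a * (b * w) * w := by rw [hcen]
      _ = a * b * (w * w) := by group
      _ = a * b := by rw [h2, mul_one]
  have hprod : ∀ a b c' d e : G, a * w * (b * w) * (c' * w) * (d * w) * (e * w) = a * b * c' * d * e * w := by
    intro a b c' d e
    rw [hrw, ← mul_assoc (a * b) c' w, hrw, ← mul_assoc]
  simp only [nm, hcc]
  rw [hprod]
  rw [show y * (z * y * z⁻¹) * (z * (z * y * z⁻¹) * z⁻¹) * (z * (z * (z * y * z⁻¹) * z⁻¹) * z⁻¹) *
    (z * (z * (z * (z * y * z⁻¹) * z⁻¹) * z⁻¹) * z⁻¹) = w from hw'.symm, h2]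

theorem closure_top (c : Ctx P Z z) {x : G} (hxP : x ∈ P) (hxZ : x ∉ Z) :
    Subgroup.closure {x, z} = ⊤ := by
  haveI := c.hZ
  obtain ⟨L, hL⟩ : ∃ L : Subgroup G, L = Subgroup.closure {x, z} := ⟨_, rfl⟩
  rw [← hL]
  have hxL : x ∈ L := by
    rw [hL]; exact Subgroup.subset_closure (Set.mem_insert _ _)
  have hzL : z ∈ L := by
    rw [hL]; exact Subgroup.subset_closure (Set.mem_insert_of_mem _ rfl)
  have hW := c.dichotomy ((L ⊓ P) ⊔ Z) le_sup_right (sup_le inf_le_right c.ZP) (by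
    intro y hy
    obtain ⟨l, hl, w, hw, rfl⟩ := Subgroup.mem_sup_of_normal_right.1 hy
    refine Subgroup.mem_sup_of_normal_right.2 ⟨z * l * z⁻¹, ⟨L.mul_mem (L.mul_mem hzL hl.1) (L.inv_mem hzL),
      c.hP.conj_mem l hl.2 z⟩, w, hw, ?_⟩
    rw [Ord320Rel.conj_mul, c.zZ' hw])
  have hxW : x ∈ (L ⊓ P) ⊔ Z := (le_sup_left : L ⊓ P ≤ (L ⊓ P) ⊔ Z) ⟨hxL, hxP⟩
  rcases hW with hW | hW
  · rw [hW] at hxW
    exact absurd hxW hxZ
  have hdec : ∀ g : G, ∃ l ∈ L, ∃ w ∈ Z, g = l * w := by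
    intro g
    obtain ⟨p, hp, k, rfl⟩ := c.gen g
    rw [← hW] at hp
    obtain ⟨l, hl, w, hw, rfl⟩ := Subgroup.mem_sup_of_normal_right.1 hp
    refine ⟨l * z ^ k, L.mul_mem hl.1 (L.pow_mem hzL k), w, hw, ?_⟩
    rw [mul_assoc, c.central hw, mul_assoc]
  have hcomm : commutator G ≤ L := by
    rw [show commutator G = ⁅(⊤ : Subgroup G), ⊤⁆ from rfl, Subgroup.commutator_le]
    intro g _ g' _
    obtain ⟨l, hl, w, hw, rfl⟩ := hdec g
    obtain ⟨l', hl', w', hw', rfl⟩ := hdec g'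
    rw [comm_central (c.central hw _) (c.central hw _) (c.central hw' _) (c.central hw _) (c.central hw' _),
      commutatorElement_def]
    exact L.mul_mem (L.mul_mem (L.mul_mem hl hl') (L.inv_mem hl)) (L.inv_mem hl')
  rw [c.com] at hcomm
  rw [eq_top_iff]
  intro g _
  obtain ⟨p, hp, k, rfl⟩ := c.gen g
  exact L.mul_mem (hcomm hp) (L.pow_mem hzL k)

/-- The square of a central-by-... word. -/
theorem sq_formula {H : Type*} [Group H] {x0 x1 x2 x3 x4 z A B s : H}
    (z0 : z * x0 = x1 * z) (z1 : z * x1 = x2 * z) (z2 : z * x2 = x3 * z) (z3 : z * x3 = x4 * z)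
    (z4 : z * x4 = x0 * z) (Az : A * z = z * A) (Bz : B * z = z * B) (sz : s * z = z * s)
    (A0 : A * x0 = x0 * A) (B0 : B * x0 = x0 * B) (s0 : s * x0 = x0 * s)
    (BA : B * A = A * B) (sA : s * A = A * s) (sB : s * B = B * s) (AA : A * A = 1) (BB : B * B = 1) (ss : s * s = 1)
    (hs : x0 * x0 = s) (c1 : x1 * x0 = x0 * x1 * A) (c2 : x2 * x0 = x0 * x2 * B)
    (pr : x0 * x1 * x2 * x3 * x4 = 1) : s = A * B := by
  have A1 := central_step z0 Az A0
  have A2 := central_step z1 Az A1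
  have A3 := central_step z2 Az A2
  have A4 := central_step z3 Az A3
  have B1 := central_step z0 Bz B0
  have B2 := central_step z1 Bz B1
  have B3 := central_step z2 Bz B2
  have B4 := central_step z3 Bz B3
  have s1 := central_step z0 sz s0
  have s2 := central_step z1 sz s1
  have s3 := central_step z2 sz s2
  have s4 := central_step z3 sz s3
  have q1 := square_step z0 sz hs
  have q2 := square_step z1 sz q1
  have q3 := square_step z2 sz q2
  have q4 := square_step z3 sz q3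
  have c21 := comm_step z1 z0 Az c1
  have c32 := comm_step z2 z1 Az c21
  have c43 := comm_step z3 z2 Az c32
  have c04 := comm_step z4 z3 Az c43
  have c31 := comm_step z2 z0 Bz c2
  have c42 := comm_step z3 z1 Bz c31
  have c03 := comm_step z4 z2 Bz c42
  have c14 := comm_step z0 z3 Bz c03
  have c40 : x4 * x0 = x0 * x4 * A := by rw [c04, mul_assoc (x4 * x0), AA, mul_one]
  have c41 : x4 * x1 = x1 * x4 * B := by rw [c14, mul_assoc (x4 * x1), BB, mul_one]
  have c30 : x3 * x0 = x0 * x3 * B := by rw [c03, mul_assoc (x3 * x0), BB, mul_one]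
  have lc : ∀ {a b k : H}, a * b = b * a * k → ∀ y, a * (b * y) = b * (a * (k * y)) := by
    intro a b k h y
    rw [← mul_assoc, h]; simp only [mul_assoc]
  have lc2 : ∀ {a b : H}, a * b = b * a → ∀ y, a * (b * y) = b * (a * y) := by
    intro a b h y
    rw [← mul_assoc, h]; simp only [mul_assoc]
  have lq : ∀ {a : H}, a * a = s → ∀ y, a * (a * y) = s * y := by
    intro a h y
    rw [← mul_assoc, h]
  have laa : ∀ y, A * (A * y) = y := by intro y; rw [← mul_assoc, AA, one_mul]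
  have lbb : ∀ y, B * (B * y) = y := by intro y; rw [← mul_assoc, BB, one_mul]
  have lss : ∀ y, s * (s * y) = y := by intro y; rw [← mul_assoc, ss, one_mul]
  have key : x0 * (x1 * (x2 * (x3 * (x4 * (x0 * (x1 * (x2 * (x3 * (x4 * (1 : H)))))))))) = A * (B * (s * 1)) := by
    simp only [lc c1, lc c2, lc c30, lc c40, lc c21, lc c31, lc c41, lc c32, lc c42, lc c43,
      lc2 A1, lc2 A2, lc2 A3, lc2 A4, lc2 B1, lc2 B2, lc2 B3, lc2 B4,
      lc2 s0, lc2 s1, lc2 s2, lc2 s3, lc2 s4, lq hs, lq q1, lq q2, lq q3, lq q4, lc2 BA, lc2 sA, lc2 sB,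
      laa, lbb, lss]
  have e : x0 * (x1 * (x2 * (x3 * (x4 * (x0 * (x1 * (x2 * (x3 * (x4 * (1 : H)))))))))) =
      (x0 * x1 * x2 * x3 * x4) * (x0 * x1 * x2 * x3 * x4) := by
    simp only [mul_assoc, mul_one]
  rw [e, pr, one_mul, mul_one, ← mul_assoc] at key
  have h1 : s = (A * B)⁻¹ := eq_inv_of_mul_eq_one_right key.symm
  have h2 : (A * B) * (A * B) = 1 := by
    calc (A * B) * (A * B) = A * (B * A) * B := by group
      _ = A * (A * B) * B := by rw [BA]
      _ = (A * A) * (B * B) := by group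
      _ = 1 := by rw [AA, BB, one_mul]
  rw [h1]
  exact inv_eq_of_mul_eq_one_right h2

/-- The relations hold in `G`. -/
theorem exists_rel (c : Ctx P Z z) :
    ∃ x0 x1 x2 x3 x4 A B : G, Rel x0 x1 x2 x3 x4 z A B ∧ Subgroup.closure {x0, z} = ⊤ := by
  have hne : ¬ P ≤ Z := by
    intro h
    have := Subgroup.card_le_of_le h
    rw [c.cP, c.cZ] at this
    omega
  obtain ⟨y, hy, hyZ⟩ := SetLike.not_le_iff_exists.1 hne
  have hnm := c.nm_mem hy
  have htw := c.nm_twist hy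
  obtain ⟨x0, hx0⟩ : ∃ x0, x0 = y * nm z y := ⟨_, rfl⟩
  rw [← hx0] at htw
  have hx0P : x0 ∈ P := by
    rw [hx0]; exact P.mul_mem hy (c.ZP hnm)
  have hx0Z : x0 ∉ Z := by
    intro h
    apply hyZ
    have : y = x0 * (nm z y)⁻¹ := by rw [hx0]; group
    rw [this]
    exact Z.mul_mem h (Z.inv_mem hnm)
  have hc : ∀ u ∈ P, z * u * z⁻¹ ∈ P := fun u hu => c.hP.conj_mem u hu z
  have hx1P := hc _ hx0P
  have hx2P := hc _ hx1P
  have hx3P := hc _ hx2P
  have hx4P := hc _ hx3P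
  have hz5 := c.conj_five x0
  refine ⟨x0, z * x0 * z⁻¹, z * (z * x0 * z⁻¹) * z⁻¹, z * (z * (z * x0 * z⁻¹) * z⁻¹) * z⁻¹,
    z * (z * (z * (z * x0 * z⁻¹) * z⁻¹) * z⁻¹) * z⁻¹, (x0 * (z * x0 * z⁻¹))⁻¹ * ((z * x0 * z⁻¹) * x0),
    (x0 * (z * (z * x0 * z⁻¹) * z⁻¹))⁻¹ * ((z * (z * x0 * z⁻¹) * z⁻¹) * x0), ?_, c.closure_top hx0P hx0Z⟩
  have hgen : ∀ a b : G, (a * b)⁻¹ * (b * a) = ⁅b⁻¹, a⁻¹⁆ := by
    intro a b
    rw [commutatorElement_def]
    group
  have hAZ : (x0 * (z * x0 * z⁻¹))⁻¹ * ((z * x0 * z⁻¹) * x0) ∈ Z := by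
    rw [hgen]
    exact c.comm_mem (P.inv_mem hx1P) (P.inv_mem hx0P)
  have hBZ : (x0 * (z * (z * x0 * z⁻¹) * z⁻¹))⁻¹ * ((z * (z * x0 * z⁻¹) * z⁻¹) * x0) ∈ Z := by
    rw [hgen]
    exact c.comm_mem (P.inv_mem hx2P) (P.inv_mem hx0P)
  obtain ⟨A, hA⟩ : ∃ A, A = (x0 * (z * x0 * z⁻¹))⁻¹ * ((z * x0 * z⁻¹) * x0) := ⟨_, rfl⟩
  obtain ⟨B, hB⟩ : ∃ B, B = (x0 * (z * (z * x0 * z⁻¹) * z⁻¹))⁻¹ * ((z * (z * x0 * z⁻¹) * z⁻¹) * x0) := ⟨_, rfl⟩
  rw [← hA, ← hB]
  rw [← hA] at hAZ
  rw [← hB] at hBZ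
  have hconj : ∀ u, z * u = (z * u * z⁻¹) * z := fun u => by group
  have hc0 : ∀ a b : G, b * a = a * b * ((a * b)⁻¹ * (b * a)) := by
    intro a b
    rw [mul_inv_cancel_left]
  have hc1 : (z * x0 * z⁻¹) * x0 = x0 * (z * x0 * z⁻¹) * A := by rw [hA]; exact hc0 _ _
  have hc2 : (z * (z * x0 * z⁻¹) * z⁻¹) * x0 = x0 * (z * (z * x0 * z⁻¹) * z⁻¹) * B := by rw [hB]; exact hc0 _ _
  have hs := c.sq_mem hx0P
  have hpr : x0 * (z * x0 * z⁻¹) * (z * (z * x0 * z⁻¹) * z⁻¹) * (z * (z * (z * x0 * z⁻¹) * z⁻¹) * z⁻¹) *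
      (z * (z * (z * (z * x0 * z⁻¹) * z⁻¹) * z⁻¹) * z⁻¹) = 1 := htw
  have hz4 : z * (z * (z * (z * (z * x0 * z⁻¹) * z⁻¹) * z⁻¹) * z⁻¹) = x0 * z := by
    rw [hconj, hz5]
  have hs0 := sq_formula (s := x0 * x0) (hconj _) (hconj _) (hconj _) (hconj _) hz4 (c.zZ'' hAZ) (c.zZ'' hBZ) (c.zZ'' hs)
    (c.central hAZ _) (c.central hBZ _) (c.central hs _) (c.central hBZ _) (c.central hs _) (c.central hs _)
    (c.Z2 _ hAZ) (c.Z2 _ hBZ) (c.Z2 _ hs) rfl hc1 hc2 hpr
  exact
    { z5 := c.z5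
      z0 := hconj _
      z1 := hconj _
      z2 := hconj _
      z3 := hconj _
      z4 := hz4
      Az := c.zZ'' hAZ
      Bz := c.zZ'' hBZ
      A0 := c.central hAZ _
      B0 := c.central hBZ _
      BA := c.central hBZ _
      AA := c.Z2 _ hAZ
      BB := c.Z2 _ hBZ
      s0 := hs0
      c1 := hc1
      c2 := hc2
      pr := hpr }

end Ctx

/-- Groups of order 320 with derived subgroup of order 64 with Klein four centre satisfy the
relations. -/
theorem exists_rel_of_card [Finite G] (hG : Nat.card G = 320) (hD : Nat.card (commutator G) = 64)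
    (hZ : IsKleinFour (Subgroup.center (commutator G))) :
    ∃ x0 x1 x2 x3 x4 z A B : G, Rel x0 x1 x2 x3 x4 z A B ∧ Subgroup.closure {x0, z} = ⊤ := by
  classical
  haveI : Fact (Nat.Prime 5) := ⟨by norm_num⟩
  obtain ⟨z, hz⟩ := exists_prime_orderOf_dvd_card' (G := G) 5 (by rw [hG]; norm_num)
  have hz5 : z ^ 5 = 1 := by rw [← hz]; exact pow_orderOf_eq_one z
  obtain ⟨P, hP⟩ : ∃ P : Subgroup G, P = commutator G := ⟨_, rfl⟩
  haveI hPn : P.Normal := by rw [hP]; infer_instance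
  rw [← hP] at hD hZ
  let Z : Subgroup G := (Subgroup.center P).map P.subtype
  have ZP : Z ≤ P := by
    rintro _ ⟨y, _, rfl⟩
    exact y.2
  have Zc : ∀ y ∈ Z, ∀ p ∈ P, y * p = p * y := by
    rintro _ ⟨y, hy, rfl⟩ p hp
    have := (Subgroup.mem_center_iff.1 hy) ⟨p, hp⟩
    exact (congrArg Subtype.val this).symm
  have Zm : ∀ y ∈ P, (∀ p ∈ P, y * p = p * y) → y ∈ Z := by
    intro y hy h
    refine ⟨⟨y, hy⟩, ?_, rfl⟩
    rw [SetLike.mem_coe, Subgroup.mem_center_iff]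
    intro p
    apply Subtype.ext
    exact (h p p.2).symm
  have Z2 : ∀ y ∈ Z, y * y = 1 := by
    rintro _ ⟨y, hy, rfl⟩
    have h1 : (⟨y, hy⟩ : Subgroup.center P) ^ 2 = 1 := by
      rw [← IsKleinFour.exponent_two (G := Subgroup.center P)]
      exact Monoid.pow_exponent_eq_one _
    have h2 := congrArg (fun u : Subgroup.center P => ((u : P) : G)) h1
    simpa [pow_two] using h2
  have cZ : Nat.card Z = 4 := by
    have h1 : Nat.card Z = Nat.card (Subgroup.center P) :=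
      Subgroup.card_map_of_injective P.subtype_injective
    rw [h1]
    exact IsKleinFour.card_four
  have Zn : Z.Normal := by
    refine ⟨fun y hy g => Zm _ (hPn.conj_mem y (ZP hy) g) (fun p hp => ?_)⟩
    have h1 : g⁻¹ * p * g ∈ P := by
      have := hPn.conj_mem p hp g⁻¹
      simpa using this
    have h2 := Zc y hy _ h1
    calc g * y * g⁻¹ * p = g * (y * (g⁻¹ * p * g)) * g⁻¹ := by group
      _ = g * ((g⁻¹ * p * g) * y) * g⁻¹ := by rw [h2]
      _ = _ := by group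
  have hcop : Nat.Coprime (Nat.card P) (Nat.card (Subgroup.zpowers z)) := by
    rw [hD, Nat.card_zpowers, hz]
    norm_num
  have hc := Subgroup.isComplement'_of_coprime (H := P) (K := Subgroup.zpowers z)
    (by rw [hD, Nat.card_zpowers, hz, hG]) hcop
  have hgen : ∀ g : G, ∃ p ∈ P, ∃ k : ℕ, g = p * z ^ k := by
    intro g
    obtain ⟨⟨⟨p, hp⟩, ⟨q, hq⟩⟩, hpq⟩ := hc.2 g
    have hq' : q ∈ Submonoid.powers z := mem_powers_iff_mem_zpowers.2 hq
    obtain ⟨k, rfl⟩ := hq'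
    exact ⟨p, hp, k, hpq.symm⟩
  have c : Ord320G.Ctx P Z z :=
    { hP := hPn
      hZ := Zn
      ZP := ZP
      Zc := Zc
      Zm := Zm
      Z2 := Z2
      cP := hD
      cZ := cZ
      z5 := hz5
      gen := hgen
      com := hP.symm }
  obtain ⟨x0, x1, x2, x3, x4, A, B, h⟩ := c.exists_rel
  exact ⟨x0, x1, x2, x3, x4, z, A, B, h⟩

end Cfsg.Agent.Lib.Classical.Lin.Ord320G
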