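import Mathlib
import Cfsg.Prelude.Def_LieClassical
import Cfsg.Agent.Lib.Classical.Herm.SU
import Cfsg.Agent.Lib.Classical.Lin.Ord320Rel

/-!
# The centralizer of an involution in `SU₃(4)`

For the form `Σ uᵢ vᵢ⁴` the coordinate swap `t` is an involution of `SU₃(4)`, and its centralizer
consists of the products `dm l * gm a b` with `l⁵ = 1`, `b + b⁴ = a⁵`.
-/

set_option autoImplicit false
set_option linter.unusedSectionVars false

namespace Cfsg.Agent.Lib.Classical.Lin.Ord320U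

open Cfsg Cfsg.Agent.Lib.Classical.Herm.Basic Cfsg.Agent.Lib.Classical.Herm.Form
  Cfsg.Agent.Lib.Classical.Herm.GU Cfsg.Agent.Lib.Classical.Herm.SU
  Cfsg.Agent.Lib.Classical.Lin.Ord320Rel
open scoped Matrix

variable {F : Type*} [Field F] [Fintype F] [CharP F 2]

/-- The unipotent elements. -/
def gm (a b : F) : Matrix (Fin 3) (Fin 3) F := !![1 + b, b, a ^ 4; b, 1 + b, a ^ 4; a, a, 1]

/-- The torus elements. -/
def dm (l : F) : Matrix (Fin 3) (Fin 3) F := Matrix.diagonal ![l, l, l ^ 3]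

theorem gm_zero : gm (0 : F) 0 = 1 := by
  ext i j
  fin_cases i <;> fin_cases j <;> simp [gm]

theorem gm_mul (a b a' b' : F) : gm a b * gm a' b' = gm (a + a') (b + b' + a ^ 4 * a') := by
  ext i j
  fin_cases i <;> fin_cases j <;> simp [gm, Matrix.mul_apply, Fin.sum_univ_three] <;> grind

theorem dm_gm {l : F} (hl : l ^ 5 = 1) (a b : F) : dm l * gm a b = gm (l ^ 2 * a) b * dm l := by
  ext i j
  fin_cases i <;> fin_cases j <;> simp [gm, dm, Matrix.diagonal_mul, Matrix.mul_diagonal] <;> grind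

theorem dm_mul (l l' : F) : dm l * dm l' = dm (l * l') := by
  simp only [dm, Matrix.diagonal_mul_diagonal]
  congr 1
  funext i
  fin_cases i <;> simp <;> ring

theorem dm_one : dm (1 : F) = 1 := by
  simp only [dm]
  rw [← Matrix.diagonal_one]
  congr 1
  funext i
  fin_cases i <;> simp

theorem det_gm (a b : F) : (gm a b).det = 1 := by
  rw [Matrix.det_fin_three]
  simp [gm]
  grind

theorem det_dm {l : F} (hl : l ^ 5 = 1) : (dm l).det = 1 := by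
  rw [dm, Matrix.det_diagonal, Fin.prod_univ_three]
  simp
  grind

theorem pres_gm (hF : Fintype.card F = 4 ^ 2) {a b : F} (h : b + b ^ 4 = a ^ 5) : Preserves 4 (gm a b) := by
  have ha : a ^ 16 = a := by
    have := FiniteField.pow_card a
    rwa [hF] at this
  rw [preserves_iff_frame (by exact hF)]
  intro i j
  fin_cases i <;> fin_cases j <;> simp [hermForm, Fin.sum_univ_three, gm] <;> grind

theorem pres_dm {l : F} (hl : l ^ 5 = 1) : Preserves 4 (dm l) := by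
  apply preserves_diagonal
  intro k
  fin_cases k <;> simp <;> grind

/-- The elements of the unipotent part. -/
def mkG (hF : Fintype.card F = 4 ^ 2) (a b : F) (h : b + b ^ 4 = a ^ 5) : SU 3 F 4 :=
  mkSU (gm a b) (det_gm a b) (pres_gm hF h)

/-- The elements of the torus part. -/
def mkD (l : F) (h : l ^ 5 = 1) : SU 3 F 4 :=
  mkSU (dm l) (det_dm h) (pres_dm h)

/-- The matrix of an element. -/
abbrev mat (g : SU 3 F 4) : Matrix (Fin 3) (Fin 3) F :=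
  ((g : Matrix.SpecialLinearGroup (Fin 3) F) : Matrix (Fin 3) (Fin 3) F)

theorem mat_inj {g g' : SU 3 F 4} (h : mat g = mat g') : g = g' := by
  apply Subtype.ext
  apply Subtype.ext
  exact h

@[simp] theorem mat_mul (g g' : SU 3 F 4) : mat (g * g') = mat g * mat g' := rfl

@[simp] theorem mat_one : mat (1 : SU 3 F 4) = 1 := rfl

@[simp] theorem mat_pow (g : SU 3 F 4) (n : ℕ) : mat (g ^ n) = mat g ^ n := by
  induction n with
  | zero => simp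
  | succ n ih => rw [pow_succ, pow_succ, mat_mul, ih]

@[simp] theorem mat_mkG (hF : Fintype.card F = 4 ^ 2) (a b : F) (h : b + b ^ 4 = a ^ 5) :
    mat (mkG hF a b h) = gm a b := rfl

@[simp] theorem mat_mkD (l : F) (h : l ^ 5 = 1) : mat (mkD l h) = dm l := rfl


theorem gm_congr {a a' b b' : F} (h1 : a = a') (h2 : b = b') : gm a b = gm a' b' := by rw [h1, h2]

theorem dm_pow (l : F) (n : ℕ) : dm l ^ n = dm (l ^ n) := by
  induction n with
  | zero => simp [dm_one]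
  | succ n ih => rw [pow_succ, ih, dm_mul, pow_succ]

/-- The centralizer of the swap. -/
theorem cent_form (hF : Fintype.card F = 4 ^ 2) (g : SU 3 F 4)
    (hg : mat g * gm 0 1 = gm 0 1 * mat g) :
    ∃ l a b : F, l ^ 5 = 1 ∧ b + b ^ 4 = a ^ 5 ∧ mat g = dm l * gm a b := by
  obtain ⟨M, hM⟩ : ∃ M, M = mat g := ⟨_, rfl⟩
  rw [← hM] at hg ⊢
  have hdet : M.det = 1 := by rw [hM]; exact (g : Matrix.SpecialLinearGroup (Fin 3) F).2
  have hpres : Preserves 4 M := by rw [hM]; exact preserves_su g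
  have hfr := (preserves_iff_frame (by exact hF) M).1 hpres
  have hpow : ∀ x : F, x ^ 16 = x := by
    intro x
    have := FiniteField.pow_card x
    rwa [hF] at this
  have e00 := congrFun (congrFun hg 0) 0
  have e01 := congrFun (congrFun hg 0) 1
  have e02 := congrFun (congrFun hg 0) 2
  have e20 := congrFun (congrFun hg 2) 0
  simp [gm, Matrix.mul_apply, Fin.sum_univ_three] at e00 e01 e02 e20
  have f00 := hfr 0 0
  have f01 := hfr 0 1
  have f02 := hfr 0 2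
  have f22 := hfr 2 2
  simp [hermForm, Fin.sum_univ_three] at f00 f01 f02 f22
  rw [Matrix.det_fin_three] at hdet
  obtain ⟨p, hp⟩ : ∃ p, p = M 0 0 := ⟨_, rfl⟩
  obtain ⟨r, hr⟩ : ∃ r, r = M 0 1 := ⟨_, rfl⟩
  obtain ⟨s, hs⟩ : ∃ s, s = M 0 2 := ⟨_, rfl⟩
  obtain ⟨y, hy⟩ : ∃ y, y = M 2 0 := ⟨_, rfl⟩
  obtain ⟨w, hw⟩ : ∃ w, w = M 2 2 := ⟨_, rfl⟩
  have m10 : M 1 0 = r := by rw [hr]; grind
  have m11 : M 1 1 = p := by rw [hp]; grind
  have m12 : M 1 2 = s := by rw [hs]; grind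
  have m21 : M 2 1 = y := by rw [hy]; grind
  simp only [m10, m11, m12, m21, ← hp, ← hr, ← hs, ← hy, ← hw] at hdet f00 f01 f02 f22
  have hl5 : (p + r) ^ 5 = 1 := by grind
  have hw5 : w ^ 5 = 1 := by grind
  obtain ⟨l, hl⟩ : ∃ l, l = p + r := ⟨_, rfl⟩
  rw [← hl] at hl5
  have hl0 : l ≠ 0 := by
    rintro rfl
    simp at hl5
  have hdet' : l ^ 2 * w = 1 := by rw [hl]; grind
  have hwl : w = l ^ 3 := by grind
  have hs4 : s ^ 4 = y * l := by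
    have h1 : l * (s ^ 4) = l * (y * l) := by
      subst hwl
      rw [hl] at hl5 ⊢
      grind
    exact mul_left_cancel₀ hl0 h1
  have hs2 : s = y ^ 4 * l ^ 4 := by
    have := hpow s
    calc s = s ^ 16 := this.symm
      _ = (s ^ 4) ^ 4 := by ring
      _ = y ^ 4 * l ^ 4 := by rw [hs4]; ring
  refine ⟨l, y * l ^ 2, r * l ^ 4, hl5, ?_, ?_⟩
  · have hpr : p = l + r := by rw [hl]; grind
    have h1 : (l + r) ^ 5 + r ^ 5 + y ^ 5 = 1 := by
      rw [← hpr]; linear_combination f00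
    have h2 : (l * (1 + r * l ^ 4)) = l + r := by
      have : l ^ 5 = 1 := hl5
      grind
    grind
  · have hpr : p = l + r := by rw [hl]; grind
    ext i j
    fin_cases i <;> fin_cases j <;> simp [gm, dm, Matrix.diagonal_mul] 
    · rw [← hp, hpr]; grind
    · rw [← hr]; grind
    · rw [← hs, hs2]; grind
    · rw [m10]; grind
    · rw [m11, hpr]; grind
    · rw [m12, hs2]; grind
    · rw [← hy]; grind
    · rw [m21]; grind
    · rw [← hw, hwl]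


section Model

variable (hF : Fintype.card F = 4 ^ 2) {ζ : F} (hζ : ζ ^ 4 + ζ ^ 3 + ζ ^ 2 + ζ + 1 = 0)

include hζ

theorem q0 : (ζ ^ 2 + ζ ^ 4) + (ζ ^ 2 + ζ ^ 4) ^ 4 = (1 : F) ^ 5 := by grind
theorem q1 : (ζ ^ 2 + ζ ^ 4) + (ζ ^ 2 + ζ ^ 4) ^ 4 = (ζ) ^ 5 := by grind
theorem q2 : (ζ ^ 2 + ζ ^ 4) + (ζ ^ 2 + ζ ^ 4) ^ 4 = (ζ ^ 2) ^ 5 := by grind
theorem q3 : (ζ ^ 2 + ζ ^ 4) + (ζ ^ 2 + ζ ^ 4) ^ 4 = (ζ ^ 3) ^ 5 := by grind
theorem q4 : (ζ ^ 2 + ζ ^ 4) + (ζ ^ 2 + ζ ^ 4) ^ 4 = (ζ ^ 4) ^ 5 := by grind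
theorem qA : (ζ + ζ ^ 4) + (ζ + ζ ^ 4) ^ 4 = (0 : F) ^ 5 := by grind
theorem qB : (ζ ^ 2 + ζ ^ 3) + (ζ ^ 2 + ζ ^ 3) ^ 4 = (0 : F) ^ 5 := by grind
theorem qz : (ζ ^ 3) ^ 5 = 1 := by grind
omit hζ in
theorem qt : (1 : F) + 1 ^ 4 = (0 : F) ^ 5 := by grind

variable (ζ) in
/-- The swap, as an element of `SU₃(4)`. -/
def tt : SU 3 F 4 := mkG hF 0 1 qt

/-- The generators. -/
def X0 : SU 3 F 4 := mkG hF 1 _ (q0 hζ)
def X1 : SU 3 F 4 := mkG hF ζ _ (q1 hζ)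
def X2 : SU 3 F 4 := mkG hF (ζ ^ 2) _ (q2 hζ)
def X3 : SU 3 F 4 := mkG hF (ζ ^ 3) _ (q3 hζ)
def X4 : SU 3 F 4 := mkG hF (ζ ^ 4) _ (q4 hζ)
def AA : SU 3 F 4 := mkG hF 0 _ (qA hζ)
def BB : SU 3 F 4 := mkG hF 0 _ (qB hζ)
def ZZ : SU 3 F 4 := mkD (ζ ^ 3) (qz hζ)

theorem rel_S : Rel (X0 hF hζ) (X1 hF hζ) (X2 hF hζ) (X3 hF hζ) (X4 hF hζ) (ZZ hζ) (AA hF hζ) (BB hF hζ) := by
  have hl := qz hζ
  constructor
  · apply mat_inj
    simp only [ZZ, mat_pow, mat_mkD, dm_pow, mat_one]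
    rw [hl, dm_one]
  · apply mat_inj
    simp only [ZZ, X0, X1, mat_mul, mat_mkD, mat_mkG]
    rw [dm_gm hl]
    exact congrArg₂ (· * ·) (gm_congr (by grind) rfl) rfl
  · apply mat_inj
    simp only [ZZ, X1, X2, mat_mul, mat_mkD, mat_mkG]
    rw [dm_gm hl]
    exact congrArg₂ (· * ·) (gm_congr (by grind) rfl) rfl
  · apply mat_inj
    simp only [ZZ, X2, X3, mat_mul, mat_mkD, mat_mkG]
    rw [dm_gm hl]
    exact congrArg₂ (· * ·) (gm_congr (by grind) rfl) rfl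
  · apply mat_inj
    simp only [ZZ, X3, X4, mat_mul, mat_mkD, mat_mkG]
    rw [dm_gm hl]
    exact congrArg₂ (· * ·) (gm_congr (by grind) rfl) rfl
  · apply mat_inj
    simp only [ZZ, X4, X0, mat_mul, mat_mkD, mat_mkG]
    rw [dm_gm hl]
    exact congrArg₂ (· * ·) (gm_congr (by grind) rfl) rfl
  · apply mat_inj
    simp only [ZZ, AA, mat_mul, mat_mkD, mat_mkG]
    rw [dm_gm hl]
    exact (congrArg₂ (· * ·) (gm_congr (by grind) rfl) rfl).symm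
  · apply mat_inj
    simp only [ZZ, BB, mat_mul, mat_mkD, mat_mkG]
    rw [dm_gm hl]
    exact (congrArg₂ (· * ·) (gm_congr (by grind) rfl) rfl).symm
  · apply mat_inj
    simp only [AA, X0, mat_mul, mat_mkG, gm_mul]
    exact gm_congr (by grind) (by grind)
  · apply mat_inj
    simp only [BB, X0, mat_mul, mat_mkG, gm_mul]
    exact gm_congr (by grind) (by grind)
  · apply mat_inj
    simp only [AA, BB, mat_mul, mat_mkG, gm_mul]
    exact gm_congr (by grind) (by grind)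
  · apply mat_inj
    simp only [AA, mat_mul, mat_mkG, gm_mul, mat_one]
    rw [← gm_zero]
    exact gm_congr (by grind) (by grind)
  · apply mat_inj
    simp only [BB, mat_mul, mat_mkG, gm_mul, mat_one]
    rw [← gm_zero]
    exact gm_congr (by grind) (by grind)
  · apply mat_inj
    simp only [AA, BB, X0, mat_mul, mat_mkG, gm_mul]
    exact gm_congr (by grind) (by grind)
  · apply mat_inj
    simp only [AA, X0, X1, mat_mul, mat_mkG, gm_mul]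
    exact gm_congr (by grind) (by grind)
  · apply mat_inj
    simp only [BB, X0, X2, mat_mul, mat_mkG, gm_mul]
    exact gm_congr (by grind) (by grind)
  · apply mat_inj
    simp only [X0, X1, X2, X3, X4, mat_mul, mat_mkG, gm_mul, mat_one]
    rw [← gm_zero]
    exact gm_congr (by grind) (by grind)

omit hζ in
/-- `dm l * gm a b` commutes with the swap. -/
theorem comm_swap {l : F} (hl : l ^ 5 = 1) (a b : F) :
    (dm l * gm a b) * gm 0 1 = gm 0 1 * (dm l * gm a b) := by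
  have e1 : dm l * gm 0 1 = gm 0 1 * dm l := by
    rw [dm_gm hl]
    exact congrArg₂ (· * ·) (gm_congr (by simp) rfl) rfl
  rw [mul_assoc, gm_mul, ← mul_assoc (gm 0 1), ← e1, mul_assoc, gm_mul]
  congr 1
  exact gm_congr (by grind) (by grind)

end Model

/-- Pairs multiply like the unipotent elements. -/
def pm (p p' : F × F) : F × F := (p.1 + p'.1, p.2 + p'.2 + p.1 ^ 4 * p'.1)

/-- Powers with exponent a bit. -/
theorem gm_bit (a b : F) (i : Fin 2) : gm a b ^ (i : ℕ) = gm (((i : ℕ) : F) * a) (((i : ℕ) : F) * b) := by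
  fin_cases i
  · simp [gm_zero]
  · simp

/-- The unipotent part of a normal form. -/
def xpart (ζ : F) (a b c d : Fin 2) : F × F :=
  pm (((a : ℕ) : F) * 1, ((a : ℕ) : F) * (ζ ^ 2 + ζ ^ 4))
    (pm (((b : ℕ) : F) * ζ, ((b : ℕ) : F) * (ζ ^ 2 + ζ ^ 4))
      (pm (((c : ℕ) : F) * ζ ^ 2, ((c : ℕ) : F) * (ζ ^ 2 + ζ ^ 4))
        (((d : ℕ) : F) * ζ ^ 3, ((d : ℕ) : F) * (ζ ^ 2 + ζ ^ 4))))

theorem xpart_fst (ζ : F) (a b c d : Fin 2) :
    (xpart ζ a b c d).1 = ((a : ℕ) : F) + ((b : ℕ) : F) * ζ + ((c : ℕ) : F) * ζ ^ 2 + ((d : ℕ) : F) * ζ ^ 3 := by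
  simp only [xpart, pm]
  ring

section Model2

variable (hF : Fintype.card F = 4 ^ 2) {ζ : F} (hζ : ζ ^ 4 + ζ ^ 3 + ζ ^ 2 + ζ + 1 = 0)

theorem mat_nf (a b c d f g : Fin 2) (h : Fin 5) :
    mat (nf (X0 hF hζ) (X1 hF hζ) (X2 hF hζ) (X3 hF hζ) (ZZ hζ) (AA hF hζ) (BB hF hζ) (a, b, c, d, f, g, h)) =
      dm ((ζ ^ 3) ^ (h : ℕ)) * gm (xpart ζ a b c d).1
        ((xpart ζ a b c d).2 + ((f : ℕ) : F) * (ζ + ζ ^ 4) + ((g : ℕ) : F) * (ζ ^ 2 + ζ ^ 3)) := by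
  simp only [nf, X0, X1, X2, X3, AA, BB, ZZ, mat_mul, mat_pow, mat_mkG, mat_mkD, dm_pow, gm_bit, gm_mul]
  congr 1
  apply gm_congr
  · simp only [xpart, pm]
    ring
  · simp only [xpart, pm]
    ring

/-- Reading off the coordinates. -/
theorem dm_gm_inj {l l' a a' b b' : F} (hl : l ≠ 0) (h : dm l * gm a b = dm l' * gm a' b') :
    l = l' ∧ a = a' ∧ b = b' := by
  have e00 := congrFun (congrFun h 0) 0
  have e01 := congrFun (congrFun h 0) 1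
  have e20 := congrFun (congrFun h 2) 0
  simp [gm, dm, Matrix.diagonal_mul] at e00 e01 e20
  have h1 : l = l' := by grind
  subst h1
  refine ⟨rfl, ?_, ?_⟩
  · exact mul_left_cancel₀ (pow_ne_zero 3 hl) e20
  · exact mul_left_cancel₀ hl e01

include hζ

theorem zeta_ne : ζ ≠ 0 := by
  rintro rfl
  simp at hζ

theorem indep {p q r s : F} (hp : p = 0 ∨ p = 1) (hq : q = 0 ∨ q = 1) (hr : r = 0 ∨ r = 1)
    (hs : s = 0 ∨ s = 1) (h : p + q * ζ + r * ζ ^ 2 + s * ζ ^ 3 = 0) : p = 0 ∧ q = 0 ∧ r = 0 ∧ s = 0 := by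
  have h01 : (1 : F) ≠ 0 := one_ne_zero
  rcases hp with rfl | rfl <;> rcases hq with rfl | rfl <;> rcases hr with rfl | rfl <;>
    rcases hs with rfl | rfl <;> simp at h ⊢ <;> grind

omit hζ in
theorem bit_sum (a a' : Fin 2) : (((a : ℕ) : F) + ((a' : ℕ) : F) = 0 ∨ ((a : ℕ) : F) + ((a' : ℕ) : F) = 1) ∧
    (((a : ℕ) : F) + ((a' : ℕ) : F) = 0 → a = a') := by
  have h01 : (1 : F) ≠ 0 := one_ne_zero
  fin_cases a <;> fin_cases a' <;> simp <;> grind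

/-- Independence of the powers of `ζ`. -/
theorem alpha_inj (a b c d a' b' c' d' : Fin 2)
    (h : ((a : ℕ) : F) + ((b : ℕ) : F) * ζ + ((c : ℕ) : F) * ζ ^ 2 + ((d : ℕ) : F) * ζ ^ 3 =
      ((a' : ℕ) : F) + ((b' : ℕ) : F) * ζ + ((c' : ℕ) : F) * ζ ^ 2 + ((d' : ℕ) : F) * ζ ^ 3) :
    a = a' ∧ b = b' ∧ c = c' ∧ d = d' := by
  have hz : (((a : ℕ) : F) + ((a' : ℕ) : F)) + (((b : ℕ) : F) + ((b' : ℕ) : F)) * ζ +
      (((c : ℕ) : F) + ((c' : ℕ) : F)) * ζ ^ 2 + (((d : ℕ) : F) + ((d' : ℕ) : F)) * ζ ^ 3 = 0 := by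
    grind
  obtain ⟨h1, h2, h3, h4⟩ := indep hζ (bit_sum a a').1 (bit_sum b b').1 (bit_sum c c').1 (bit_sum d d').1 hz
  exact ⟨(bit_sum a a').2 h1, (bit_sum b b').2 h2, (bit_sum c c').2 h3, (bit_sum d d').2 h4⟩

/-- Every element is a combination of powers of `ζ`. -/
theorem alpha_surj (hF : Fintype.card F = 4 ^ 2) (x : F) : ∃ a b c d : Fin 2,
    ((a : ℕ) : F) + ((b : ℕ) : F) * ζ + ((c : ℕ) : F) * ζ ^ 2 + ((d : ℕ) : F) * ζ ^ 3 = x := by
  let f : Fin 2 × Fin 2 × Fin 2 × Fin 2 → F := fun e =>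
    ((e.1 : ℕ) : F) + ((e.2.1 : ℕ) : F) * ζ + ((e.2.2.1 : ℕ) : F) * ζ ^ 2 + ((e.2.2.2 : ℕ) : F) * ζ ^ 3
  have hf : Function.Injective f := by
    rintro ⟨a, b, c, d⟩ ⟨a', b', c', d'⟩ h
    obtain ⟨h1, h2, h3, h4⟩ := alpha_inj hζ a b c d a' b' c' d' h
    rw [h1, h2, h3, h4]
  have hb : Function.Bijective f := by
    rw [Fintype.bijective_iff_injective_and_card]
    refine ⟨hf, ?_⟩
    rw [hF]
    simp
  obtain ⟨⟨a, b, c, d⟩, he⟩ := hb.2 x
  exact ⟨a, b, c, d, he⟩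

/-- The fifth roots of unity. -/
theorem root_cases {l : F} (hl : l ^ 5 = 1) : ∃ h : Fin 5, l = (ζ ^ 3) ^ (h : ℕ) := by
  have key : (l - 1) * (l - ζ ^ 3) * (l - ζ) * (l - ζ ^ 4) * (l - ζ ^ 2) = 0 := by grind
  have e : ζ ^ 5 = 1 := by grind
  rcases mul_eq_zero.1 key with k | k
  · rcases mul_eq_zero.1 k with k | k
    · rcases mul_eq_zero.1 k with k | k
      · rcases mul_eq_zero.1 k with k | k
        · exact ⟨0, by simp; grind⟩
        · exact ⟨1, by simp; grind⟩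
      · exact ⟨2, by simp; grind⟩
    · exact ⟨3, by simp; grind⟩
  · exact ⟨4, by simp; grind⟩

theorem root_inj {h h' : Fin 5} (e : (ζ ^ 3) ^ (h : ℕ) = (ζ ^ 3) ^ (h' : ℕ)) : h = h' := by
  have h01 : (1 : F) ≠ 0 := one_ne_zero
  fin_cases h <;> fin_cases h' <;> simp at e ⊢ <;> grind

/-- The kernel of the trace. -/
theorem trace_cases {δ : F} (h : δ + δ ^ 4 = 0) :
    ∃ f g : Fin 2, δ = ((f : ℕ) : F) * (ζ + ζ ^ 4) + ((g : ℕ) : F) * (ζ ^ 2 + ζ ^ 3) := by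
  have key : δ * (δ + (ζ + ζ ^ 4)) * (δ + (ζ ^ 2 + ζ ^ 3)) * (δ + 1) = 0 := by grind
  rcases mul_eq_zero.1 key with k | k
  · rcases mul_eq_zero.1 k with k | k
    · rcases mul_eq_zero.1 k with k | k
      · exact ⟨0, 0, by simp; exact k⟩
      · exact ⟨1, 0, by simp; grind⟩
    · exact ⟨0, 1, by simp; grind⟩
  · exact ⟨1, 1, by simp; grind⟩

theorem trace_inj {f g f' g' : Fin 2}
    (e : ((f : ℕ) : F) * (ζ + ζ ^ 4) + ((g : ℕ) : F) * (ζ ^ 2 + ζ ^ 3) =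
      ((f' : ℕ) : F) * (ζ + ζ ^ 4) + ((g' : ℕ) : F) * (ζ ^ 2 + ζ ^ 3)) : f = f' ∧ g = g' := by
  have h01 : (1 : F) ≠ 0 := one_ne_zero
  have hne : ζ + ζ ^ 4 ≠ 0 := by
    intro h
    grind
  have hne2 : ζ ^ 2 + ζ ^ 3 ≠ 0 := by
    intro h
    grind
  have hne3 : ζ + ζ ^ 4 ≠ ζ ^ 2 + ζ ^ 3 := by
    intro h
    grind
  fin_cases f <;> fin_cases g <;> fin_cases f' <;> fin_cases g' <;> simp at e ⊢ <;> grind


omit hζ in
theorem pm_Q (hF : Fintype.card F = 4 ^ 2) {p p' : F × F} (h : p.2 + p.2 ^ 4 = p.1 ^ 5) (h' : p'.2 + p'.2 ^ 4 = p'.1 ^ 5) :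
    (pm p p').2 + (pm p p').2 ^ 4 = (pm p p').1 ^ 5 := by
  have hpow : ∀ x : F, x ^ 16 = x := by
    intro x
    have := FiniteField.pow_card x
    rwa [hF] at this
  obtain ⟨a, b⟩ := p
  obtain ⟨a', b'⟩ := p'
  simp only [pm] at h h' ⊢
  have e1 := hpow a
  have e2 := hpow a'
  grind

theorem bit_Q (i : Fin 2) {u : F} (hu : (ζ ^ 2 + ζ ^ 4) + (ζ ^ 2 + ζ ^ 4) ^ 4 = u ^ 5) :
    ((i : ℕ) : F) * (ζ ^ 2 + ζ ^ 4) + (((i : ℕ) : F) * (ζ ^ 2 + ζ ^ 4)) ^ 4 = (((i : ℕ) : F) * u) ^ 5 := by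
  fin_cases i
  · simp
  · simpa using hu

theorem xpart_Q (hF : Fintype.card F = 4 ^ 2) (a b c d : Fin 2) :
    (xpart ζ a b c d).2 + (xpart ζ a b c d).2 ^ 4 = (xpart ζ a b c d).1 ^ 5 := by
  apply pm_Q hF (bit_Q hζ a (q0 hζ))
  apply pm_Q hF (bit_Q hζ b (q1 hζ))
  apply pm_Q hF (bit_Q hζ c (q2 hζ))
  exact bit_Q hζ d (q3 hζ)

theorem nf_inj : Function.Injective
    (nf (X0 hF hζ) (X1 hF hζ) (X2 hF hζ) (X3 hF hζ) (ZZ hζ) (AA hF hζ) (BB hF hζ)) := by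
  rintro ⟨a, b, c, d, f, g, h⟩ ⟨a', b', c', d', f', g', h'⟩ he
  have h1 := congrArg mat he
  rw [mat_nf hF hζ, mat_nf hF hζ] at h1
  have hz0 := zeta_ne hζ
  obtain ⟨e1, e2, e3⟩ := dm_gm_inj (pow_ne_zero _ (pow_ne_zero _ hz0)) h1
  have e4 := root_inj hζ e1
  rw [xpart_fst, xpart_fst] at e2
  obtain ⟨r1, r2, r3, r4⟩ := alpha_inj hζ _ _ _ _ _ _ _ _ e2
  subst r1 r2 r3 r4 e4
  have e5 : ((f : ℕ) : F) * (ζ + ζ ^ 4) + ((g : ℕ) : F) * (ζ ^ 2 + ζ ^ 3) =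
      ((f' : ℕ) : F) * (ζ + ζ ^ 4) + ((g' : ℕ) : F) * (ζ ^ 2 + ζ ^ 3) := by
    rw [add_assoc, add_assoc] at e3
    exact add_left_cancel e3
  obtain ⟨r5, r6⟩ := trace_inj hζ e5
  subst r5 r6
  rfl

/-- Every element commuting with the swap is a normal form. -/
theorem nf_surj (x : SU 3 F 4) (hx : mat x * gm 0 1 = gm 0 1 * mat x) :
    ∃ e, nf (X0 hF hζ) (X1 hF hζ) (X2 hF hζ) (X3 hF hζ) (ZZ hζ) (AA hF hζ) (BB hF hζ) e = x := by
  obtain ⟨l, u, v, hl, huv, hm⟩ := cent_form hF x hx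
  obtain ⟨h, hh⟩ := root_cases hζ hl
  obtain ⟨a, b, c, d, hab⟩ := alpha_surj hζ hF u
  have hq := xpart_Q hζ hF a b c d
  rw [xpart_fst, hab] at hq
  obtain ⟨f, g, hfg⟩ := trace_cases hζ (δ := v + (xpart ζ a b c d).2) (by grind)
  refine ⟨(a, b, c, d, f, g, h), mat_inj ?_⟩
  rw [mat_nf hF hζ, hm, hh, xpart_fst, hab]
  congr 1
  apply gm_congr rfl
  grind

omit hζ in
theorem mem_cent_of {x : SU 3 F 4} {l a b : F} (hl : l ^ 5 = 1) (h : mat x = dm l * gm a b) :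
    x ∈ Subgroup.centralizer ({tt hF} : Set (SU 3 F 4)) := by
  rw [Subgroup.mem_centralizer_singleton_iff]
  apply mat_inj
  rw [mat_mul, mat_mul, h]
  exact comm_swap hl a b

omit hζ in
theorem comm_of_mem {x : SU 3 F 4} (h : x ∈ Subgroup.centralizer ({tt hF} : Set (SU 3 F 4))) :
    mat x * gm 0 1 = gm 0 1 * mat x := by
  rw [Subgroup.mem_centralizer_singleton_iff] at h
  have := congrArg mat h
  simpa [tt] using this

omit hζ in
theorem tt_order : orderOf (tt hF) = 2 := by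
  haveI : Fact (Nat.Prime 2) := ⟨Nat.prime_two⟩
  apply orderOf_eq_prime
  · apply mat_inj
    simp only [tt, pow_two, mat_mul, mat_mkG, mat_one, gm_mul]
    rw [← gm_zero]
    exact gm_congr (by grind) (by grind)
  · intro h
    have := congrArg mat h
    simp only [tt, mat_mkG, mat_one] at this
    have e := congrFun (congrFun this 0) 1
    simp [gm] at e

omit hζ in
theorem mem_X {x : SU 3 F 4} {a b : F} (h : mat x = gm a b) :
    x ∈ Subgroup.centralizer ({tt hF} : Set (SU 3 F 4)) :=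
  mem_cent_of hF (l := 1) (a := a) (b := b) (by simp) (by rw [h, dm_one, one_mul])

/-- The model. -/
theorem exists_model : ∃ x0 x1 x2 x3 x4 z A B : Subgroup.centralizer ({tt hF} : Set (SU 3 F 4)),
    Rel x0 x1 x2 x3 x4 z A B ∧ Function.Bijective (nf x0 x1 x2 x3 z A B) := by
  have m0 : X0 hF hζ ∈ Subgroup.centralizer ({tt hF} : Set (SU 3 F 4)) := mem_X hF rfl
  have m1 : X1 hF hζ ∈ Subgroup.centralizer ({tt hF} : Set (SU 3 F 4)) := mem_X hF rfl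
  have m2 : X2 hF hζ ∈ Subgroup.centralizer ({tt hF} : Set (SU 3 F 4)) := mem_X hF rfl
  have m3 : X3 hF hζ ∈ Subgroup.centralizer ({tt hF} : Set (SU 3 F 4)) := mem_X hF rfl
  have m4 : X4 hF hζ ∈ Subgroup.centralizer ({tt hF} : Set (SU 3 F 4)) := mem_X hF rfl
  have mA : AA hF hζ ∈ Subgroup.centralizer ({tt hF} : Set (SU 3 F 4)) := mem_X hF rfl
  have mB : BB hF hζ ∈ Subgroup.centralizer ({tt hF} : Set (SU 3 F 4)) := mem_X hF rfl
  have mZ : ZZ hζ ∈ Subgroup.centralizer ({tt hF} : Set (SU 3 F 4)) :=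
    mem_cent_of hF (qz hζ) (a := 0) (b := 0) (by simp [ZZ, gm_zero])
  have r := rel_S hF hζ
  refine ⟨⟨_, m0⟩, ⟨_, m1⟩, ⟨_, m2⟩, ⟨_, m3⟩, ⟨_, m4⟩, ⟨_, mZ⟩, ⟨_, mA⟩, ⟨_, mB⟩, ?_, ?_⟩
  · exact Rel.of_hom (Subgroup.subtype _) (Subgroup.subtype_injective _) r
  · have hc : ∀ e, ((nf (⟨_, m0⟩ : Subgroup.centralizer ({tt hF} : Set (SU 3 F 4))) ⟨_, m1⟩ ⟨_, m2⟩ ⟨_, m3⟩ ⟨_, mZ⟩ ⟨_, mA⟩ ⟨_, mB⟩ e :
        Subgroup.centralizer ({tt hF} : Set (SU 3 F 4))) : SU 3 F 4) =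
        nf (X0 hF hζ) (X1 hF hζ) (X2 hF hζ) (X3 hF hζ) (ZZ hζ) (AA hF hζ) (BB hF hζ) e := by
      intro e
      exact nf_hom (Subgroup.subtype _) _ _ _ _ _ _ _ e
    constructor
    · intro e e' h
      apply nf_inj hF hζ
      rw [← hc, ← hc, h]
    · rintro ⟨x, hx⟩
      obtain ⟨e, he⟩ := nf_surj hF hζ x (comm_of_mem hF hx)
      exact ⟨e, Subtype.ext (by rw [hc, he])⟩

end Model2

end Cfsg.Agent.Lib.Classical.Lin.Ord320U
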